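import Mathlib

set_option autoImplicit false

namespace Cfsg.Agent.Helper4

/-- The coset `gN` lies in the conjugacy class of `g` iff `|C_G(g)| = |C_{G/N}(gN)|`. -/
theorem camina_iff_card_centralizer {G : Type*} [Group G] [Finite G] (N : Subgroup G) [N.Normal]
    (g : G) :
    (∀ n ∈ N, ∃ x : G, x * g * x⁻¹ = g * n) ↔
      Nat.card (Subgroup.centralizer ({g} : Set G)) =
        Nat.card (Subgroup.centralizer ({(QuotientGroup.mk g : G ⧸ N)} : Set (G ⧸ N))) := by
  classical
  have hsurj := QuotientGroup.mk'_surjective N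
  have hmemD : ∀ x : G, x ∈ (Subgroup.centralizer ({(QuotientGroup.mk g : G ⧸ N)} : Set (G ⧸ N))).comap
      (QuotientGroup.mk' N) ↔ g⁻¹ * (x * g * x⁻¹) ∈ N := by
    intro x
    rw [Subgroup.mem_comap, Subgroup.mem_centralizer_iff]
    constructor
    · intro h
      have h1 := h _ rfl
      have h2 : ((g * x : G) : G ⧸ N) = ((x * g : G) : G ⧸ N) := h1
      have h3 := QuotientGroup.eq.mp h2
      have h4 := (inferInstance : N.Normal).conj_mem _ h3 x
      have h5 : x * ((g * x)⁻¹ * (x * g)) * x⁻¹ = g⁻¹ * (x * g * x⁻¹) := by group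
      rwa [h5] at h4
    · intro h k hk
      rw [Set.mem_singleton_iff] at hk
      subst hk
      have h4 := (inferInstance : N.Normal).conj_mem _ h x⁻¹
      have h5 : x⁻¹ * (g⁻¹ * (x * g * x⁻¹)) * x⁻¹⁻¹ = (g * x)⁻¹ * (x * g) := by group
      rw [h5] at h4
      exact QuotientGroup.eq.mpr h4
  have hCD : Subgroup.centralizer ({g} : Set G) ≤
      (Subgroup.centralizer ({(QuotientGroup.mk g : G ⧸ N)} : Set (G ⧸ N))).comap (QuotientGroup.mk' N) := by
    intro x hx
    rw [hmemD]
    have h1 := Subgroup.mem_centralizer_iff.mp hx g rfl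
    have h2 : g⁻¹ * (x * g * x⁻¹) = 1 := by rw [← h1]; group
    rw [h2]; exact N.one_mem
  have hDcard : Nat.card ((Subgroup.centralizer ({(QuotientGroup.mk g : G ⧸ N)} : Set (G ⧸ N))).comap
      (QuotientGroup.mk' N)) = Nat.card N *
      Nat.card (Subgroup.centralizer ({(QuotientGroup.mk g : G ⧸ N)} : Set (G ⧸ N))) := by
    have h1 := Subgroup.index_comap_of_surjective
      (Subgroup.centralizer ({(QuotientGroup.mk g : G ⧸ N)} : Set (G ⧸ N))) hsurj
    have h2 := Subgroup.card_mul_index ((Subgroup.centralizer ({(QuotientGroup.mk g : G ⧸ N)} : Set (G ⧸ N))).comap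
      (QuotientGroup.mk' N))
    have h3 := Subgroup.card_mul_index (Subgroup.centralizer ({(QuotientGroup.mk g : G ⧸ N)} : Set (G ⧸ N)))
    have h4 := Subgroup.card_eq_card_quotient_mul_card_subgroup N
    rw [h1] at h2
    have h5 : 0 < (Subgroup.centralizer ({(QuotientGroup.mk g : G ⧸ N)} : Set (G ⧸ N))).index :=
      Nat.pos_of_ne_zero (Subgroup.index_ne_zero_of_finite)
    have h6 : Nat.card ((Subgroup.centralizer ({(QuotientGroup.mk g : G ⧸ N)} : Set (G ⧸ N))).comap
        (QuotientGroup.mk' N)) *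
        (Subgroup.centralizer ({(QuotientGroup.mk g : G ⧸ N)} : Set (G ⧸ N))).index
        = (Nat.card N * Nat.card (Subgroup.centralizer ({(QuotientGroup.mk g : G ⧸ N)} : Set (G ⧸ N)))) *
        (Subgroup.centralizer ({(QuotientGroup.mk g : G ⧸ N)} : Set (G ⧸ N))).index := by
      rw [h2, h4, ← h3]; ring
    exact Nat.eq_of_mul_eq_mul_right h5 h6
  -- the conjugation action of `D`
  let D : Subgroup G := (Subgroup.centralizer ({(QuotientGroup.mk g : G ⧸ N)} : Set (G ⧸ N))).comap
      (QuotientGroup.mk' N)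
  let _act : MulAction D G := MulAction.compHom G ((MulAut.conj : G →* MulAut G).comp D.subtype)
  have hsmul : ∀ (x : D) (h : G), x • h = (x : G) * h * (x : G)⁻¹ := fun x h => rfl
  have hos : Nat.card (MulAction.orbit D g) * Nat.card (MulAction.stabilizer D g) = Nat.card D := by
    rw [← Nat.card_prod]
    exact Nat.card_congr (MulAction.orbitProdStabilizerEquivGroup D g)
  have hstab : MulAction.stabilizer D g = (Subgroup.centralizer ({g} : Set G)).subgroupOf D := by
    ext x
    rw [MulAction.mem_stabilizer_iff, hsmul, Subgroup.mem_subgroupOf, Subgroup.mem_centralizer_iff]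
    constructor
    · intro h k hk
      rw [Set.mem_singleton_iff] at hk
      subst hk
      have h3 : k * (x : G) = ((x : G) * k * (x : G)⁻¹) * (x : G) := by rw [h]
      rw [h3]; group
    · intro h
      have h1 := h g rfl
      rw [← h1]; group
  have hstabcard : Nat.card (MulAction.stabilizer D g) = Nat.card (Subgroup.centralizer ({g} : Set G)) := by
    rw [hstab]
    exact Nat.card_congr (Subgroup.subgroupOfEquivOfLe hCD).toEquiv
  have horbN : ∀ y : MulAction.orbit D g, g⁻¹ * (y : G) ∈ N := by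
    rintro ⟨y, x, rfl⟩
    show g⁻¹ * (x • g) ∈ N
    rw [hsmul]
    exact (hmemD x).mp x.2
  have hinj : Function.Injective (fun y : MulAction.orbit D g => (⟨g⁻¹ * (y : G), horbN y⟩ : N)) := by
    intro y₁ y₂ h
    have h1 : g⁻¹ * (y₁ : G) = g⁻¹ * (y₂ : G) := congrArg Subtype.val h
    exact Subtype.ext (mul_left_cancel h1)
  have hNpos : 0 < Nat.card N := Nat.card_pos
  have hCpos : 0 < Nat.card (Subgroup.centralizer ({g} : Set G)) := Nat.card_pos
  have hDcard' : Nat.card D = Nat.card N *
      Nat.card (Subgroup.centralizer ({(QuotientGroup.mk g : G ⧸ N)} : Set (G ⧸ N))) := hDcard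
  constructor
  · intro hcam
    have hsur : Function.Surjective (fun y : MulAction.orbit D g => (⟨g⁻¹ * (y : G), horbN y⟩ : N)) := by
      rintro ⟨n, hn⟩
      obtain ⟨x, hx⟩ := hcam n hn
      have hxD : x ∈ D := by
        show x ∈ (Subgroup.centralizer ({(QuotientGroup.mk g : G ⧸ N)} : Set (G ⧸ N))).comap
          (QuotientGroup.mk' N)
        rw [hmemD, hx]
        have h3 : g⁻¹ * (g * n) = n := by group
        rw [h3]; exact hn
      refine ⟨⟨g * n, ⟨⟨x, hxD⟩, ?_⟩⟩, ?_⟩
      · show (⟨x, hxD⟩ : D) • g = g * n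
        rw [hsmul]; exact hx
      · apply Subtype.ext
        show g⁻¹ * (g * n) = n
        group
    have hcard : Nat.card (MulAction.orbit D g) = Nat.card N :=
      Nat.card_congr (Equiv.ofBijective _ ⟨hinj, hsur⟩)
    rw [hcard, hstabcard, hDcard'] at hos
    exact Nat.eq_of_mul_eq_mul_left hNpos hos
  · intro hcard n hn
    rw [hstabcard, hDcard', ← hcard] at hos
    have hcardorb : Nat.card (MulAction.orbit D g) = Nat.card N := Nat.eq_of_mul_eq_mul_right hCpos hos
    have hbij := (Nat.bijective_iff_injective_and_card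
      (fun y : MulAction.orbit D g => (⟨g⁻¹ * (y : G), horbN y⟩ : N))).mpr ⟨hinj, hcardorb⟩
    obtain ⟨⟨y, x, hxy⟩, hy⟩ := hbij.2 ⟨n, hn⟩
    have h1 : g⁻¹ * y = n := congrArg Subtype.val hy
    have h2 : (x : G) * g * (x : G)⁻¹ = y := hxy
    refine ⟨(x : G), ?_⟩
    rw [h2, ← h1]; group

end Cfsg.Agent.Helper4
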