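import Mathlib
import Cfsg.Agent.Helper8.GroupFusion
import Cfsg.Agent.Helper4.Alperin

set_option autoImplicit false
set_option linter.unusedSimpArgs false

namespace Cfsg.Agent.Helper4

theorem c2_s {G : Type*} [Group G] (a b c : G) (h : a * b = b * a * c) (hc : ∀ g : G, c * g = g * c) :
    a * b ^ 2 = b ^ 2 * a * c ^ 2 := by
  calc a * b ^ 2 = (a * b) * b := by simp only [pow_succ, pow_zero, one_mul, mul_assoc]
    _ = (b * a * c) * b := by rw [h]
    _ = b * a * (c * b) := by simp only [pow_succ, pow_zero, one_mul, mul_assoc]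
    _ = b * a * (b * c) := by rw [hc b]
    _ = b * (a * b) * c := by simp only [pow_succ, pow_zero, one_mul, mul_assoc]
    _ = b * (b * a * c) * c := by rw [h]
    _ = b ^ 2 * a * c ^ 2 := by simp only [pow_succ, pow_zero, one_mul, mul_assoc]

theorem c2_s' {G : Type*} [Group G] (a b c : G) (h : a * b = b * a * c) (hc : ∀ g : G, c * g = g * c) :
    a ^ 2 * b = b * a ^ 2 * c ^ 2 := by
  calc a ^ 2 * b = a * (a * b) := by simp only [pow_succ, pow_zero, one_mul, mul_assoc]
    _ = a * (b * a * c) := by rw [h]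
    _ = (a * b) * a * c := by simp only [pow_succ, pow_zero, one_mul, mul_assoc]
    _ = (b * a * c) * a * c := by rw [h]
    _ = b * a * (c * a) * c := by simp only [pow_succ, pow_zero, one_mul, mul_assoc]
    _ = b * a * (a * c) * c := by rw [hc a]
    _ = b * a ^ 2 * c ^ 2 := by simp only [pow_succ, pow_zero, one_mul, mul_assoc]

theorem c2_sq {G : Type*} [Group G] (x y w : G) (h : y * x = x * y * w) (hw : ∀ g : G, w * g = g * w) :
    (x * y) ^ 2 = x ^ 2 * y ^ 2 * w := by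
  calc (x * y) ^ 2 = x * (y * x) * y := by simp only [pow_succ, pow_zero, one_mul, mul_assoc]
    _ = x * (x * y * w) * y := by rw [h]
    _ = x * x * y * (w * y) := by simp only [pow_succ, pow_zero, one_mul, mul_assoc]
    _ = x * x * y * (y * w) := by rw [hw y]
    _ = x ^ 2 * y ^ 2 * w := by simp only [pow_succ, pow_zero, one_mul, mul_assoc]

theorem c2_pow_central {G : Type*} [Group G] (w : G) (hw : ∀ g : G, w * g = g * w) (n : ℕ) :
    ∀ g : G, w ^ n * g = g * w ^ n := by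
  intro g
  have h : Commute w g := hw g
  exact (h.pow_left n).eq

theorem c2_fourth {G : Type*} [Group G] (x y w : G) (h : y * x = x * y * w)
    (hw : ∀ g : G, w * g = g * w) : (x * y) ^ 4 = x ^ 4 * y ^ 4 * w ^ 6 := by
  have h2 : y * x ^ 2 = x ^ 2 * y * w ^ 2 := c2_s y x w h hw
  have h3 : y ^ 2 * x ^ 2 = x ^ 2 * y ^ 2 * (w ^ 2) ^ 2 :=
    c2_s' y (x ^ 2) (w ^ 2) h2 (c2_pow_central w hw 2)
  have h4 : (x * y) ^ 2 = x ^ 2 * y ^ 2 * w := c2_sq x y w h hw
  have hw4 := c2_pow_central w hw 4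
  calc (x * y) ^ 4 = ((x * y) ^ 2) ^ 2 := by simp only [pow_succ, pow_zero, one_mul, mul_assoc]
    _ = (x ^ 2 * y ^ 2 * w) ^ 2 := by rw [h4]
    _ = x ^ 2 * y ^ 2 * (w * (x ^ 2 * y ^ 2)) * w := by simp only [pow_succ, pow_zero, one_mul, mul_assoc]
    _ = x ^ 2 * y ^ 2 * ((x ^ 2 * y ^ 2) * w) * w := by rw [hw (x ^ 2 * y ^ 2)]
    _ = x ^ 2 * (y ^ 2 * x ^ 2) * y ^ 2 * w ^ 2 := by simp only [pow_succ, pow_zero, one_mul, mul_assoc]
    _ = x ^ 2 * (x ^ 2 * y ^ 2 * (w ^ 2) ^ 2) * y ^ 2 * w ^ 2 := by rw [h3]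
    _ = x ^ 4 * y ^ 2 * (w ^ 4 * y ^ 2) * w ^ 2 := by simp only [pow_succ, pow_zero, one_mul, mul_assoc]
    _ = x ^ 4 * y ^ 2 * (y ^ 2 * w ^ 4) * w ^ 2 := by rw [hw4 (y ^ 2)]
    _ = x ^ 4 * y ^ 4 * w ^ 6 := by simp only [pow_succ, pow_zero, one_mul, mul_assoc]

/-- If the subgroup `E` is normal, contains all squares, then the Frattini subgroup lies in `E`. -/
theorem frattini_le_of_squares {P : Type*} [Group P] [Finite P] (E : Subgroup P)
    (hEn : E.Normal) (hsq : ∀ x : P, x ^ 2 ∈ E) (hcomm : ∀ x y : P, x * y * x⁻¹ * y⁻¹ ∈ E) :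
    frattini P ≤ E := by
  classical
  intro x hx
  by_contra hxE
  have hex : ∃ k, ∃ H : Subgroup P, E ≤ H ∧ x ∉ H ∧ Nat.card P - Nat.card H = k :=
    ⟨_, E, le_rfl, hxE, rfl⟩
  obtain ⟨H, hEH, hxH, hHk⟩ := Nat.find_spec hex
  have hmax : ∀ K : Subgroup P, H < K → x ∈ K := by
    intro K hK
    by_contra hxK
    have h1 : Nat.find hex ≤ Nat.card P - Nat.card K :=
      Nat.find_min' hex ⟨K, hEH.trans hK.le, hxK, rfl⟩
    have h2 : Nat.card H < Nat.card K := card_lt_of_lt hK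
    have h3 : Nat.card K ≤ Nat.card P := Subgroup.card_le_card_group K
    rw [← hHk] at h1
    omega
  have hHn : H.Normal := by
    refine ⟨fun h hh g => ?_⟩
    have h3 : g * h * g⁻¹ = (g * h * g⁻¹ * h⁻¹) * h := by group
    rw [h3]
    exact H.mul_mem (hEH (hcomm g h)) hh
  have hco : IsCoatom H := by
    refine ⟨fun h => hxH (h ▸ Subgroup.mem_top x), fun K hK => ?_⟩
    rw [eq_top_iff]
    intro y _
    by_cases hyH : y ∈ H
    · exact hK.le hyH
    have hlt : H < Subgroup.zpowers y ⊔ H := by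
      refine lt_of_le_of_ne le_sup_right ?_
      intro heq
      apply hyH
      rw [heq]
      exact Subgroup.mem_sup_left (Subgroup.mem_zpowers y)
    have hx' := hmax _ hlt
    have hnorm : Subgroup.zpowers y ≤ Subgroup.normalizer (H : Set P) := by
      rw [Subgroup.normalizer_eq_top]; exact le_top
    obtain ⟨a, ha, b, hb, hxab⟩ := Helper8.mem_sup_of_le_normalizer hnorm hx'
    obtain ⟨k, rfl⟩ := Subgroup.mem_zpowers_iff.mp ha
    have hy2 : ∀ r : ℤ, y ^ (2 * r) ∈ H := by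
      intro r
      rw [zpow_mul]
      exact H.zpow_mem (hEH (by simpa using hsq y)) r
    obtain ⟨r, hr | hr⟩ := Int.even_or_odd' k
    · exfalso
      apply hxH
      rw [hxab, hr]
      exact H.mul_mem (hy2 r) hb
    · have h5 : y = x * b⁻¹ * (y ^ (2 * r))⁻¹ := by
        rw [hxab, hr, zpow_add, zpow_one]
        have hc : Commute (y ^ (2 * r)) y := (Commute.refl y).zpow_left _
        rw [hc.eq]
        group
      rw [h5]
      exact K.mul_mem (K.mul_mem (hmax K hK) (K.inv_mem (hK.le hb))) (K.inv_mem (hK.le (hy2 r)))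
  exact hxH (frattini_le_coatom hco hx)

end Cfsg.Agent.Helper4
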