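import Mathlib
import Cfsg.Agent.Helper7.Conj
import Cfsg.Agent.Helper7.SylowMore
import Cfsg.Agent.Helper4.Basic

set_option autoImplicit false

namespace Cfsg.Agent.Helper4

/-- If `p ∤ [G : C(x)]` then `x` centralizes a Sylow `p`-subgroup. -/
theorem exists_sylow_centralizing_of_not_dvd {G : Type*} [Group G] [Finite G] (p : ℕ)
    [Fact p.Prime] (x : G) (hx : ¬ p ∣ (Subgroup.centralizer ({x} : Set G)).index) :
    ∃ P' : Sylow p G, x ∈ Subgroup.centralizer (P' : Set G) := by
  obtain ⟨Q, hQ, -⟩ := Cfsg.Agent.Helper7.exists_sylow_le_of_not_dvd_index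
    (Subgroup.centralizer ({x} : Set G)) hx 1 (one_mem _) 0 (by simp)
  refine ⟨Q, ?_⟩
  rw [Subgroup.mem_centralizer_iff]
  intro y hy
  have := hQ hy
  rw [Subgroup.mem_centralizer_iff] at this
  exact (this x rfl).symm

/-- If every `p'`-element has class size prime to `p`, then the `p'`-elements form a normal
subgroup of `p`-power index. -/
theorem pprime_normal_of_class_sizes {H : Type*} [Group H] [Finite H] (p : ℕ) [Fact p.Prime]
    (h : ∀ y : H, (orderOf y).Coprime p → ¬ p ∣ (Subgroup.centralizer ({y} : Set H)).index) :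
    ∃ W : Subgroup H, W.Normal ∧ (Nat.card W).Coprime p ∧ (∃ n : ℕ, W.index = p ^ n) ∧
      ∀ c : H, (orderOf c).Coprime p → c ∈ W := by
  classical
  have hp : p.Prime := Fact.out
  obtain ⟨P⟩ := (inferInstance : Nonempty (Sylow p H))
  -- Step A: P is normal
  have hN : Subgroup.normalizer ((P : Subgroup H) : Set H) = ⊤ := by
    by_contra hne
    obtain ⟨h₀, hh₀⟩ := Cfsg.Agent.Helper7.exists_forall_conj_notMem _ hne
    obtain ⟨u, v, a, huv, hcomm, hu, hv, -, -⟩ := Cfsg.Agent.Helper7.exists_pPart_mul p hp h₀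
    have huC : u ∈ Subgroup.centralizer ({v} : Set H) := by
      rw [Subgroup.mem_centralizer_iff]
      intro y hy
      rw [Set.mem_singleton_iff] at hy
      subst hy
      exact hcomm.symm.eq
    obtain ⟨Q, hQ, huQ⟩ := Cfsg.Agent.Helper7.exists_sylow_le_of_not_dvd_index
      (Subgroup.centralizer ({v} : Set H)) (h v hv) u huC a hu
    obtain ⟨g, hg⟩ := MulAction.exists_smul_eq H P Q
    have hvQ : v ∈ Subgroup.normalizer ((Q : Subgroup H) : Set H) := by
      apply Subgroup.centralizer_le_normalizer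
      rw [Subgroup.mem_centralizer_iff]
      intro y hy
      have := hQ hy
      rw [Subgroup.mem_centralizer_iff] at this
      exact (this v rfl).symm
    have huQ' : u ∈ Subgroup.normalizer ((Q : Subgroup H) : Set H) := Subgroup.le_normalizer huQ
    have hh₀Q : h₀ ∈ Subgroup.normalizer ((Q : Subgroup H) : Set H) := by
      rw [huv]; exact Subgroup.mul_mem _ huQ' hvQ
    apply hh₀ g
    rw [Subgroup.mem_normalizer_iff]
    intro y
    rw [Subgroup.mem_normalizer_iff] at hh₀Q
    have h1 := hh₀Q (g * y * g⁻¹)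
    rw [← hg, mem_smul_sylow_iff, mem_smul_sylow_iff] at h1
    have e1 : g⁻¹ * (g * y * g⁻¹) * g = y := by group
    have e2 : g⁻¹ * (h₀ * (g * y * g⁻¹) * h₀⁻¹) * g = g⁻¹ * h₀ * g * y * (g⁻¹ * h₀ * g)⁻¹ := by
      group
    rw [e1, e2] at h1
    exact h1
  haveI hPn : (P : Subgroup H).Normal := Subgroup.normalizer_eq_top_iff.mp hN
  obtain ⟨K, hK⟩ := Subgroup.exists_right_complement'_of_coprime P.card_coprime_index
  have hKcard : Nat.card K = (P : Subgroup H).index := hK.symm.index_eq_card.symm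
  have hKcop : (Nat.card K).Coprime p := by
    rw [hKcard]
    exact ((Nat.Prime.coprime_iff_not_dvd hp).mpr P.not_dvd_index).symm
  have hKidx : ∃ n : ℕ, K.index = p ^ n := by
    rw [hK.index_eq_card]
    exact IsPGroup.iff_card.mp P.2
  -- p'-elements centralize P
  have hcent : ∀ c : H, (orderOf c).Coprime p →
      c ∈ Subgroup.centralizer ((P : Subgroup H) : Set H) := by
    intro c hc
    obtain ⟨P', hP'⟩ := exists_sylow_centralizing_of_not_dvd p c (h c hc)
    obtain ⟨g, hg⟩ := MulAction.exists_smul_eq H P P'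
    rw [Sylow.smul_eq_of_normal] at hg
    rw [hg]; exact hP'
  have hKcent : ∀ w ∈ K, w ∈ Subgroup.centralizer ((P : Subgroup H) : Set H) := by
    intro w hw
    apply hcent
    have h1 : orderOf w ∣ Nat.card K := by
      have := orderOf_dvd_natCard (⟨w, hw⟩ : K)
      rwa [Subgroup.orderOf_mk] at this
    exact Nat.Coprime.coprime_dvd_left h1 hKcop
  have hKn : K.Normal := by
    constructor
    intro k hk g
    obtain ⟨⟨⟨u, hu⟩, ⟨w, hw⟩⟩, huw⟩ := hK.2 g
    simp only at huw
    have hkc := hKcent k hk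
    have hwkw : w * k * w⁻¹ ∈ K := K.mul_mem (K.mul_mem hw hk) (K.inv_mem hw)
    have hc2 := hKcent _ hwkw
    rw [Subgroup.mem_centralizer_iff] at hc2
    have h3 := hc2 u hu
    have e : g * k * g⁻¹ = u * (w * k * w⁻¹) * u⁻¹ := by rw [← huw]; group
    rw [e, h3]
    simpa using hwkw
  refine ⟨K, hKn, hKcop, hKidx, ?_⟩
  intro c hc
  obtain ⟨n, hn⟩ := hKidx
  have h1 : c ^ K.index ∈ K := Subgroup.pow_index_mem K c
  rw [hn] at h1
  have h2 : (p ^ n).Coprime (orderOf c) := (Nat.Coprime.pow_right n hc).symm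
  obtain ⟨m, hm⟩ := exists_pow_eq_self_of_coprime h2
  rw [← hm]
  exact K.pow_mem h1 m

/-- Relative version of `pprime_normal_of_class_sizes`, for a subgroup `C` of `G`. -/
theorem pprime_normal_rel {G : Type*} [Group G] [Finite G] (p : ℕ) [Fact p.Prime]
    (C : Subgroup G)
    (h : ∀ y ∈ C, (orderOf y).Coprime p →
      ¬ p ∣ (Subgroup.centralizer ({y} : Set G)).relIndex C) :
    ∃ W : Subgroup G, W ≤ C ∧ (∀ c ∈ C, ∀ w ∈ W, c * w * c⁻¹ ∈ W) ∧ (Nat.card W).Coprime p ∧
      (∃ n : ℕ, W.relIndex C = p ^ n) ∧ ∀ c ∈ C, (orderOf c).Coprime p → c ∈ W := by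
  have h' : ∀ y : C, (orderOf y).Coprime p →
      ¬ p ∣ (Subgroup.centralizer ({y} : Set C)).index := by
    intro y hy
    have e : Subgroup.centralizer ({y} : Set C) =
        (Subgroup.centralizer ({(y : G)} : Set G)).subgroupOf C := by
      ext c
      rw [Subgroup.mem_subgroupOf, Subgroup.mem_centralizer_iff, Subgroup.mem_centralizer_iff]
      constructor
      · intro hc z hz
        rw [Set.mem_singleton_iff] at hz
        subst hz
        exact congrArg Subtype.val (hc y rfl)
      · intro hc z hz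
        rw [Set.mem_singleton_iff] at hz
        subst hz
        exact Subtype.ext (hc (z : G) rfl)
    rw [e]
    apply h y y.2
    rwa [Subgroup.orderOf_coe]
  obtain ⟨W₀, hW₀n, hW₀c, ⟨n, hn⟩, hW₀p⟩ := pprime_normal_of_class_sizes p h'
  refine ⟨W₀.map C.subtype, Subgroup.map_subtype_le W₀, ?_, ?_, ⟨n, ?_⟩, ?_⟩
  · intro c hc w hw
    obtain ⟨w₀, hw₀, rfl⟩ := hw
    exact ⟨⟨c, hc⟩ * w₀ * ⟨c, hc⟩⁻¹, hW₀n.conj_mem w₀ hw₀ ⟨c, hc⟩, rfl⟩
  · rw [Subgroup.card_map_of_injective C.subtype_injective]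
    exact hW₀c
  · have e : (W₀.map C.subtype).subgroupOf C = W₀ :=
      Subgroup.comap_map_eq_self_of_injective C.subtype_injective W₀
    rw [Subgroup.relIndex, e, hn]
  · intro c hc hco
    refine ⟨⟨c, hc⟩, hW₀p ⟨c, hc⟩ ?_, rfl⟩
    rwa [Subgroup.orderOf_mk]

/-- For commuting elements of coprime orders, `C(xy) ≤ C(x) ⊓ C(y)`. -/
theorem centralizer_mul_le_of_coprime {G : Type*} [Group G] (x y : G) (hxy : Commute x y)
    (hco : (orderOf x).Coprime (orderOf y)) :
    Subgroup.centralizer ({x * y} : Set G) ≤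
      Subgroup.centralizer ({x} : Set G) ⊓ Subgroup.centralizer ({y} : Set G) := by
  intro g hg
  rw [Subgroup.mem_centralizer_iff] at hg
  have hg1 : Commute (x * y) g := hg (x * y) rfl
  have hx : Commute x g := by
    have h1 : (x * y) ^ orderOf y = x ^ orderOf y := by
      rw [hxy.mul_pow, pow_orderOf_eq_one, mul_one]
    obtain ⟨m, hm⟩ := exists_pow_eq_self_of_coprime hco.symm
    rw [← hm, ← h1]
    exact (hg1.pow_left _).pow_left _
  have hy : Commute y g := by
    have h1 : (x * y) ^ orderOf x = y ^ orderOf x := by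
      rw [hxy.mul_pow, pow_orderOf_eq_one, one_mul]
    obtain ⟨m, hm⟩ := exists_pow_eq_self_of_coprime hco
    rw [← hm, ← h1]
    exact (hg1.pow_left _).pow_left _
  refine Subgroup.mem_inf.mpr ⟨?_, ?_⟩
  · rw [Subgroup.mem_centralizer_iff]
    intro z hz
    rw [Set.mem_singleton_iff] at hz
    subst hz
    exact hx.eq
  · rw [Subgroup.mem_centralizer_iff]
    intro z hz
    rw [Set.mem_singleton_iff] at hz
    subst hz
    exact hy.eq

end Cfsg.Agent.Helper4
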