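import Mathlib
import Cfsg.Agent.Helper4.RelSylow
import Cfsg.Agent.Helper8.GroupFusion

set_option autoImplicit false

namespace Cfsg.Agent.Helper4

/-- A `p`-subgroup `P` has `p'`-index in `N ⊔ P` when `N` is a normal `p'`-subgroup. -/
theorem not_dvd_relIndex_sup {G : Type*} [Group G] [Finite G] {p : ℕ} [Fact p.Prime]
    (N P : Subgroup G) (hN : N.Normal) (hNc : (Nat.card N).Coprime p) (hP : IsPGroup p P) :
    ¬ p ∣ P.relIndex (N ⊔ P) := by
  have hpp : p.Prime := Fact.out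
  intro hdvd
  have e1 : Nat.card P * P.relIndex (N ⊔ P) = Nat.card (N ⊔ P : Subgroup G) := by
    have h0 := Subgroup.relIndex_mul_relIndex (⊥ : Subgroup G) P (N ⊔ P) bot_le le_sup_right
    rwa [Subgroup.relIndex_bot_left, Subgroup.relIndex_bot_left] at h0
  have e2 : Nat.card N * N.relIndex (N ⊔ P) = Nat.card (N ⊔ P : Subgroup G) := by
    have h0 := Subgroup.relIndex_mul_relIndex (⊥ : Subgroup G) N (N ⊔ P) bot_le le_sup_left
    rwa [Subgroup.relIndex_bot_left, Subgroup.relIndex_bot_left] at h0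
  have e3 : N.relIndex (N ⊔ P) = N.relIndex P := Subgroup.relIndex_sup_left P N
  obtain ⟨k, hk⟩ := IsPGroup.iff_card.mp hP
  have e4 : N.relIndex P ∣ p ^ k := by
    rw [← hk]; exact Subgroup.relIndex_dvd_card N P
  obtain ⟨j, hjk, hj⟩ := (Nat.dvd_prime_pow hpp).mp e4
  rw [e3, hj] at e2
  rw [hk, ← e2] at e1
  obtain ⟨r, hr⟩ := hdvd
  rw [hr] at e1
  have h1 : p ^ (k + 1) ∣ Nat.card N * p ^ j := by
    rw [← e1, pow_succ, ← mul_assoc]
    exact dvd_mul_right _ _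
  have h2 : p ^ (k + 1) ∣ p ^ j :=
    Nat.Coprime.dvd_of_dvd_mul_left (Nat.Coprime.pow_left (k + 1) hNc.symm) h1
  have h3 := (Nat.pow_dvd_pow_iff_le_right hpp.one_lt).mp h2
  omega

/-- If `a` normalizes `P` modulo the normal `p'`-subgroup `N`, then `n * a` normalizes `P` for some
`n ∈ N`. -/
theorem exists_mul_mem_normalizer {G : Type*} [Group G] [Finite G] {p : ℕ} [Fact p.Prime]
    (N P : Subgroup G) (hN : N.Normal) (hNc : (Nat.card N).Coprime p) (hP : IsPGroup p P)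
    (a : G) (h : ∀ u ∈ P, a * u * a⁻¹ * u⁻¹ ∈ N) :
    ∃ n ∈ N, n * a ∈ Subgroup.normalizer (P : Set G) := by
  have hidx := not_dvd_relIndex_sup N P hN hNc hP
  have hQ : IsPGroup p (P.map (MulAut.conj a).toMonoidHom) := hP.map _
  have hQH : P.map (MulAut.conj a).toMonoidHom ≤ N ⊔ P := by
    intro x hx
    obtain ⟨u, hu, rfl⟩ := Subgroup.mem_map.mp hx
    have h1 : (MulAut.conj a).toMonoidHom u = (a * u * a⁻¹ * u⁻¹) * u := by
      show a * u * a⁻¹ = _
      group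
    rw [h1]
    exact Subgroup.mul_mem _ (Subgroup.mem_sup_left (h u hu)) (Subgroup.mem_sup_right hu)
  obtain ⟨c, hc, hcx⟩ := exists_conj_le_of_relIndex (N ⊔ P) P _ hP hidx hQ hQH
  have hPN : P ≤ Subgroup.normalizer (N : Set G) := by
    rw [Subgroup.normalizer_eq_top_iff.mpr hN]; exact le_top
  rw [sup_comm] at hc
  obtain ⟨u, hu, n, hn, rfl⟩ := Helper8.mem_sup_of_le_normalizer hPN hc
  refine ⟨n, hn, ?_⟩
  apply Subgroup.mem_normalizer_fintype
  intro x hx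
  have h1 : (MulAut.conj a).toMonoidHom x ∈ P.map (MulAut.conj a).toMonoidHom :=
    Subgroup.mem_map.mpr ⟨x, hx, rfl⟩
  have h2 := hcx _ h1
  have h3 : (MulAut.conj a).toMonoidHom x = a * x * a⁻¹ := rfl
  rw [h3] at h2
  have h4 : u⁻¹ * (u * n * (a * x * a⁻¹) * (u * n)⁻¹) * u ∈ P :=
    P.mul_mem (P.mul_mem (P.inv_mem hu) h2) hu
  have h5 : u⁻¹ * (u * n * (a * x * a⁻¹) * (u * n)⁻¹) * u = n * a * x * (n * a)⁻¹ := by group
  rwa [h5] at h4

end Cfsg.Agent.Helper4
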