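import Mathlib

set_option autoImplicit false

namespace Cfsg.Agent.Helper4

/-- Left multiplication by `g`, restricted to a finite set `S`, extends to a permutation of `S`. -/
theorem exists_perm_extending_mul {G : Type*} [Group G] (S : Finset G) (g : G) :
    ∃ σ : Equiv.Perm S, ∀ s : S, g * (s : G) ∈ S → ((σ s : S) : G) = g * s := by
  classical
  let e : {s : S // g * (s : G) ∈ S} ≃ {s : S // g⁻¹ * (s : G) ∈ S} :=
    { toFun := fun s => ⟨⟨g * (s.1 : G), s.2⟩, by
        show g⁻¹ * (g * (s.1 : G)) ∈ S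
        rw [inv_mul_cancel_left]; exact s.1.2⟩
      invFun := fun s => ⟨⟨g⁻¹ * (s.1 : G), s.2⟩, by
        show g * (g⁻¹ * (s.1 : G)) ∈ S
        rw [mul_inv_cancel_left]; exact s.1.2⟩
      left_inv := fun s => by
        apply Subtype.ext; apply Subtype.ext
        show g⁻¹ * (g * (s.1 : G)) = s.1
        rw [inv_mul_cancel_left]
      right_inv := fun s => by
        apply Subtype.ext; apply Subtype.ext
        show g * (g⁻¹ * (s.1 : G)) = s.1
        rw [mul_inv_cancel_left] }
  refine ⟨e.extendSubtype, fun s hs => ?_⟩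
  rw [Equiv.extendSubtype_apply_of_mem e s hs]
  rfl

/-- The permutation representation on a suffix-closed finite set sends `1` to the word. -/
theorem lift_perm_apply_one {α : Type*} (S : Finset (FreeGroup α)) (σ : α → Equiv.Perm S)
    (hσ : ∀ (a : α) (s : S), FreeGroup.of a * (s : FreeGroup α) ∈ S →
      ((σ a s : S) : FreeGroup α) = FreeGroup.of a * s)
    (h1 : (1 : FreeGroup α) ∈ S) :
    ∀ L : List (α × Bool), (∀ L', L' <:+ L → FreeGroup.mk L' ∈ S) →
      ((FreeGroup.lift σ (FreeGroup.mk L) ⟨1, h1⟩ : S) : FreeGroup α) = FreeGroup.mk L := by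
  intro L
  induction L with
  | nil =>
    intro _
    rw [← FreeGroup.one_eq_mk, map_one]
    rfl
  | cons x t ih =>
    intro hL
    have ht : ∀ L', L' <:+ t → FreeGroup.mk L' ∈ S :=
      fun L' h => hL L' (h.trans (List.suffix_cons x t))
    have iht := ih ht
    have htS : FreeGroup.mk t ∈ S := hL t (List.suffix_cons x t)
    have hxtS : FreeGroup.mk (x :: t) ∈ S := hL _ (List.suffix_refl _)
    have hsplit : FreeGroup.mk (x :: t) = FreeGroup.mk [x] * FreeGroup.mk t := by
      rw [FreeGroup.mul_mk]; rfl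
    have hval : FreeGroup.lift σ (FreeGroup.mk t) ⟨1, h1⟩ = ⟨FreeGroup.mk t, htS⟩ := Subtype.ext iht
    rw [hsplit, map_mul, Equiv.Perm.mul_apply, hval]
    obtain ⟨a, b⟩ := x
    cases b with
    | true =>
      have e1 : FreeGroup.mk [(a, true)] = FreeGroup.of a := rfl
      rw [e1, FreeGroup.lift_apply_of]
      rw [hσ a ⟨FreeGroup.mk t, htS⟩ (by
        show FreeGroup.of a * FreeGroup.mk t ∈ S
        rw [← e1, FreeGroup.mul_mk]; exact hxtS)]
    | false =>
      have e1 : FreeGroup.mk [(a, false)] = (FreeGroup.of a)⁻¹ := by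
        rw [FreeGroup.of, FreeGroup.inv_mk]; rfl
      rw [e1, map_inv, FreeGroup.lift_apply_of]
      have hmem : (FreeGroup.of a)⁻¹ * FreeGroup.mk t ∈ S := by
        rw [← e1, FreeGroup.mul_mk]; exact hxtS
      have h2 : σ a ⟨(FreeGroup.of a)⁻¹ * FreeGroup.mk t, hmem⟩ = ⟨FreeGroup.mk t, htS⟩ := by
        apply Subtype.ext
        rw [hσ a _ (by
          show FreeGroup.of a * ((FreeGroup.of a)⁻¹ * FreeGroup.mk t) ∈ S
          rw [mul_inv_cancel_left]; exact htS)]
        show FreeGroup.of a * ((FreeGroup.of a)⁻¹ * FreeGroup.mk t) = FreeGroup.mk t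
        rw [mul_inv_cancel_left]
      have h3 : (σ a)⁻¹ ⟨FreeGroup.mk t, htS⟩ = ⟨(FreeGroup.of a)⁻¹ * FreeGroup.mk t, hmem⟩ := by
        rw [Equiv.Perm.inv_eq_iff_eq]; exact h2.symm
      rw [h3]

/-- The symmetric group on `Ω` embeds in the alternating group of any degree `≥ 2 |Ω|`. -/
theorem exists_hom_to_alternating (Ω : Type*) [Fintype Ω] [DecidableEq Ω] (n : ℕ)
    (hn : 2 * Fintype.card Ω ≤ n) :
    ∃ Θ : Equiv.Perm Ω →* Equiv.Perm (Fin n), Function.Injective Θ ∧
      ∀ σ, Θ σ ∈ alternatingGroup (Fin n) := by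
  obtain ⟨ι⟩ := Function.Embedding.nonempty_of_card_le (α := Ω ⊕ Ω) (β := Fin n)
    (by rw [Fintype.card_sum, Fintype.card_fin]; omega)
  have _inst : DecidablePred (fun x => x ∈ Set.range ι) := Classical.decPred _
  refine ⟨(Equiv.Perm.extendDomainHom ι.toEquivRange).comp
    ((Equiv.Perm.sumCongrHom Ω Ω).comp (MonoidHom.prod (MonoidHom.id _) (MonoidHom.id _))), ?_, ?_⟩
  · intro a b h
    rw [MonoidHom.comp_apply, MonoidHom.comp_apply, MonoidHom.comp_apply, MonoidHom.comp_apply] at h
    have h1 := Equiv.Perm.extendDomainHom_injective _ h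
    have h2 := Equiv.Perm.sumCongrHom_injective h1
    exact congrArg Prod.fst h2
  · intro σ
    refine Equiv.Perm.mem_alternatingGroup.mpr ?_
    rw [MonoidHom.comp_apply, MonoidHom.comp_apply, Equiv.Perm.extendDomainHom_apply,
      Equiv.Perm.sumCongrHom_apply, Equiv.Perm.sign_extendDomain, Equiv.Perm.sign_sumCongr]
    exact Int.units_mul_self _

end Cfsg.Agent.Helper4
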