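import Cfsg.Agent.Helper4.Thompson

set_option autoImplicit false

namespace Cfsg.Agent.Helper4

/-- Two involutions whose product has odd order are conjugate by an involution (or the identity)
of the dihedral group they generate. -/
theorem invol_conj_of_odd {G : Type*} [Group G] {a b : G} (ha : orderOf a = 2)
    (hb : orderOf b = 2) (hodd : Odd (orderOf (a * b))) :
    ∃ g : G, g * g = 1 ∧ g * a * g⁻¹ = b := by
  obtain ⟨m, hm⟩ := hodd
  have ha' := inv_eq_self_of_orderOf_two ha
  have hb' := inv_eq_self_of_orderOf_two hb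
  have haa := mul_self_of_orderOf_two ha
  obtain ⟨y, hy⟩ : ∃ y, y = a * b := ⟨_, rfl⟩
  rw [← hy] at hm
  have hyinv : a * y * a⁻¹ = y⁻¹ := by
    rw [hy, mul_inv_rev, ha', hb']
    calc a * (a * b) * a = (a * a) * b * a := by group
      _ = b * a := by rw [haa, one_mul]
  have hypow : ∀ k : ℕ, a * y ^ k * a⁻¹ = (y ^ k)⁻¹ := by
    intro k
    rw [← conj_pow, hyinv, inv_pow]
  have hy1 : y ^ (2 * m + 1) = 1 := by rw [← hm]; exact pow_orderOf_eq_one y
  have hgg : a * y ^ (m + 1) * (a * y ^ (m + 1)) = 1 := by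
    calc a * y ^ (m + 1) * (a * y ^ (m + 1)) = (a * y ^ (m + 1) * a⁻¹) * y ^ (m + 1) := by
          rw [ha']; group
      _ = 1 := by rw [hypow, inv_mul_cancel]
  refine ⟨a * y ^ (m + 1), hgg, ?_⟩
  have hginv : (a * y ^ (m + 1))⁻¹ = a * y ^ (m + 1) := inv_eq_of_mul_eq_one_right hgg
  rw [hginv]
  calc a * y ^ (m + 1) * a * (a * y ^ (m + 1)) = a * y ^ (m + 1) * (a * a) * y ^ (m + 1) := by group
    _ = a * (y ^ (m + 1) * y ^ (m + 1)) := by rw [haa]; group
    _ = a * (y ^ (2 * m + 1) * y) := by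
        rw [← pow_add, ← pow_succ]
        congr 2
        omega
    _ = a * (a * b) := by rw [hy1, one_mul, hy]
    _ = b := by rw [← mul_assoc, haa, one_mul]

/-- Two involutions whose product has even order are centralized by a common involution. -/
theorem invol_commute_of_even {G : Type*} [Group G] {a b : G} (ha : orderOf a = 2)
    (hb : orderOf b = 2) (hev : Even (orderOf (a * b))) (hpos : 0 < orderOf (a * b)) :
    ∃ z : G, orderOf z = 2 ∧ z * a = a * z ∧ z * b = b * z := by
  obtain ⟨m, hm⟩ := hev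
  have hm0 : m ≠ 0 := by rintro rfl; omega
  have ha' := inv_eq_self_of_orderOf_two ha
  have hb' := inv_eq_self_of_orderOf_two hb
  have haa := mul_self_of_orderOf_two ha
  have hbb := mul_self_of_orderOf_two hb
  have hz2 : orderOf ((a * b) ^ m) = 2 := by
    rw [orderOf_pow_of_dvd hm0 ⟨2, by omega⟩, hm, ← two_mul,
      Nat.mul_div_cancel _ (Nat.pos_of_ne_zero hm0)]
  have hzinv := inv_eq_self_of_orderOf_two hz2
  have h1 : a * (a * b) * a⁻¹ = (a * b)⁻¹ := by
    rw [mul_inv_rev, ha', hb']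
    calc a * (a * b) * a = (a * a) * b * a := by group
      _ = b * a := by rw [haa, one_mul]
  have h2 : b * (a * b) * b⁻¹ = (a * b)⁻¹ := by
    rw [mul_inv_rev, ha', hb']
    calc b * (a * b) * b = b * a * (b * b) := by group
      _ = b * a := by rw [hbb, mul_one]
  refine ⟨(a * b) ^ m, hz2, ?_, ?_⟩
  · have h3 : a * (a * b) ^ m * a⁻¹ = (a * b) ^ m := by
      rw [← conj_pow, h1, inv_pow, hzinv]
    calc (a * b) ^ m * a = (a * (a * b) ^ m * a⁻¹) * a := by rw [h3]
      _ = a * (a * b) ^ m := by group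
  · have h3 : b * (a * b) ^ m * b⁻¹ = (a * b) ^ m := by
      rw [← conj_pow, h2, inv_pow, hzinv]
    calc (a * b) ^ m * b = (b * (a * b) ^ m * b⁻¹) * b := by rw [h3]
      _ = b * (a * b) ^ m := by group

end Cfsg.Agent.Helper4
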