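import Mathlib
import Cfsg.Agent.Helper8.GroupFusion
import Cfsg.Agent.Helper4.PGroup

set_option autoImplicit false

universe u

namespace Cfsg.Agent.Helper4

/-- A maximal subgroup `M` of a finite solvable group with `x ^ [G : M] ∈ M` for all `x` is normal. -/
theorem coatom_normal_of_pow_index_mem : ∀ (n : ℕ) {G : Type u} [Group G] [Finite G],
    Nat.card G = n → Group.IsSolvable G → ∀ M : Subgroup G, IsCoatom M →
    (∀ x : G, x ^ M.index ∈ M) → M.Normal := by
  intro n
  induction n using Nat.strong_induction_on with
  | _ n ih =>
    intro G _ _ hn hG M hM hexp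
    classical
    have hGinst : Group.IsSolvable G := hG
    -- a minimal normal subgroup
    have hex : ∃ k, ∃ N : Subgroup G, N.Normal ∧ N ≠ ⊥ ∧ Nat.card N = k := by
      refine ⟨_, ⊤, inferInstance, ?_, rfl⟩
      intro h
      have hall : ∀ x : G, x ∈ (⊥ : Subgroup G) := fun x => h ▸ Subgroup.mem_top x
      exact hM.1 (eq_top_iff.mpr fun x _ => by
        have h1 := hall x
        rw [Subgroup.mem_bot] at h1
        rw [h1]; exact M.one_mem)
    obtain ⟨N, hNn, hN1, hNk⟩ := Nat.find_spec hex
    have hNinst : N.Normal := hNn
    have hmin : ∀ L : Subgroup G, L.Normal → L ≠ ⊥ → L ≤ N → L = N := by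
      intro L hLn hL1 hLN
      have h2 : Nat.find hex ≤ Nat.card L := Nat.find_min' hex ⟨L, hLn, hL1, rfl⟩
      exact Subgroup.eq_of_le_of_card_ge hLN (by rw [hNk]; exact h2)
    by_cases hNM : N ≤ M
    · -- pass to the quotient
      have hsurj := QuotientGroup.mk'_surjective N
      have hker : (QuotientGroup.mk' N).ker ≤ M := by rw [QuotientGroup.ker_mk']; exact hNM
      have hcomap : (M.map (QuotientGroup.mk' N)).comap (QuotientGroup.mk' N) = M :=
        Subgroup.comap_map_eq_self hker
      have hco : IsCoatom (M.map (QuotientGroup.mk' N)) := by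
        refine ⟨?_, ?_⟩
        · intro h
          have h1 := congrArg (Subgroup.comap (QuotientGroup.mk' N)) h
          rw [hcomap, Subgroup.comap_top] at h1
          exact hM.1 h1
        · intro L hL
          have h1 : M < L.comap (QuotientGroup.mk' N) := by
            refine lt_of_le_of_ne ?_ ?_
            · rw [← hcomap]; exact Subgroup.comap_mono hL.le
            · intro h2
              have h3 : M.map (QuotientGroup.mk' N) = L := by
                rw [h2, Subgroup.map_comap_eq_self_of_surjective hsurj]
              exact (ne_of_lt hL) h3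
          have h4 := hM.2 _ h1
          have h5 := Subgroup.map_comap_eq_self_of_surjective hsurj L
          rw [h4, Subgroup.map_top_of_surjective _ hsurj] at h5
          exact h5.symm
      have hidx : (M.map (QuotientGroup.mk' N)).index = M.index := Subgroup.index_map_eq _ hsurj hker
      have hexp' : ∀ x : G ⧸ N, x ^ (M.map (QuotientGroup.mk' N)).index ∈ M.map (QuotientGroup.mk' N) := by
        intro x
        obtain ⟨g, rfl⟩ := hsurj x
        rw [hidx, ← map_pow]
        exact ⟨_, hexp g, rfl⟩
      have hcardlt : Nat.card (G ⧸ N) < n := by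
        rw [← hn, Subgroup.card_eq_card_quotient_mul_card_subgroup N]
        have h1 : 1 < Nat.card N := by
          rw [Subgroup.one_lt_card_iff_ne_bot]; exact hN1
        have h2 : 0 < Nat.card (G ⧸ N) := Nat.card_pos
        nlinarith
      have hnorm := ih _ hcardlt rfl inferInstance _ hco hexp'
      have h6 := hnorm.comap (QuotientGroup.mk' N)
      rwa [hcomap] at h6
    · -- `N ≰ M`
      have hMN : M ⊔ N = ⊤ := hM.2 _ (lt_of_le_of_ne le_sup_left (fun h => hNM (h ▸ le_sup_right)))
      -- `N` abelian
      have hcomlt : ⁅N, N⁆ < N := Group.IsSolvable.commutator_lt_of_ne_bot hN1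
      have hcom : ⁅N, N⁆ = ⊥ := by
        by_contra h
        exact (ne_of_lt hcomlt) (hmin _ inferInstance h hcomlt.le)
      have hNab : ∀ a ∈ N, ∀ b ∈ N, a * b = b * a := by
        intro a ha b hb
        have h1 := (Subgroup.commutator_eq_bot_iff_le_centralizer.mp hcom) ha
        exact (Subgroup.mem_centralizer_iff.mp h1 b hb).symm
      -- `M ⊓ N = ⊥`
      have hRn : (M ⊓ N).Normal := by
        rw [← Subgroup.normalizer_eq_top_iff, eq_top_iff, ← hMN]
        apply sup_le
        · intro m hm
          apply Subgroup.mem_normalizer_fintype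
          intro x hx
          obtain ⟨hxM, hxN⟩ := Subgroup.mem_inf.mp hx
          exact Subgroup.mem_inf.mpr ⟨M.mul_mem (M.mul_mem hm hxM) (M.inv_mem hm),
            hNn.conj_mem x hxN m⟩
        · intro w hw
          apply Subgroup.mem_normalizer_fintype
          intro x hx
          have hxN := (Subgroup.mem_inf.mp hx).2
          have h3 : w * x * w⁻¹ = x := by rw [hNab w hw x hxN]; group
          rw [h3]; exact hx
      have hR : M ⊓ N = ⊥ := by
        by_contra h
        have h1 := hmin _ hRn h inf_le_right
        exact hNM (h1 ▸ inf_le_left)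
      -- `N` is a `p`-group
      have hcard1 : Nat.card N ≠ 1 := fun h => hN1 (Subgroup.card_eq_one.mp h)
      obtain ⟨p, hp, hpdvd⟩ := Nat.exists_prime_and_dvd hcard1
      have hpfact : Fact p.Prime := ⟨hp⟩
      have hNp : IsPGroup p N := by
        obtain ⟨S⟩ : Nonempty (Sylow p N) := inferInstance
        have hSn : (S : Subgroup N).Normal := by
          refine ⟨fun a ha g => ?_⟩
          have h1 : (g : G) * (a : G) = (a : G) * (g : G) := hNab _ g.2 _ a.2
          have h2 : g * a * g⁻¹ = a := by
            apply Subtype.ext
            push_cast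
            rw [h1]; group
          rw [h2]; exact ha
        have hSc : (S : Subgroup N).Characteristic := Sylow.characteristic_of_normal S hSn
        have hS'n : ((S : Subgroup N).map N.subtype).Normal :=
          ConjAct.normal_of_characteristic_of_normal
        have hS1 : (S : Subgroup N).map N.subtype ≠ ⊥ := by
          intro h
          have h1 : (S : Subgroup N) = ⊥ := by
            rw [eq_bot_iff]
            intro x hx
            have h2 : (x : G) ∈ (S : Subgroup N).map N.subtype := ⟨x, hx, rfl⟩
            rw [h, Subgroup.mem_bot] at h2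
            rw [Subgroup.mem_bot]
            exact Subtype.ext h2
          exact (Sylow.ne_bot_of_dvd_card S hpdvd) h1
        have h3 := hmin _ hS'n hS1 (Subgroup.map_subtype_le _)
        rw [← h3]
        exact S.isPGroup'.map _
      obtain ⟨j, hj⟩ := IsPGroup.iff_card.mp hNp
      -- index
      have hidx : M.index = Nat.card N := by
        have h1 : N.relIndex (M ⊔ N) = N.relIndex M := Subgroup.relIndex_sup_right M N
        rw [hMN, Subgroup.relIndex_top_right, ← Subgroup.inf_relIndex_right, inf_comm, hR,
          Subgroup.relIndex_bot_left] at h1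
        have h2 := Subgroup.card_mul_index N
        have h3 := Subgroup.card_mul_index M
        rw [h1] at h2
        have h4 : 0 < Nat.card M := Nat.card_pos
        have h5 : Nat.card M * M.index = Nat.card M * Nat.card N := by
          rw [h3, ← h2, mul_comm]
        exact Nat.eq_of_mul_eq_mul_left h4 h5
      -- `p'`-elements of `M` centralize `N`
      have hpprime : ∀ m ∈ M, (orderOf m).Coprime p → ∀ x ∈ N, m * x = x * m := by
        intro m hm hcop x hx
        have h1 : (m * x) ^ M.index = m ^ M.index := by
          have h2 : (((m * x) ^ M.index : G) : G ⧸ N) = ((m ^ M.index : G) : G ⧸ N) := by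
            rw [QuotientGroup.mk_pow, QuotientGroup.mk_pow, QuotientGroup.mk_mul,
              (QuotientGroup.eq_one_iff x).mpr hx, mul_one]
          have h3 : ((m ^ M.index)⁻¹ * (m * x) ^ M.index) ∈ N := QuotientGroup.eq.mp h2.symm
          have h4 : ((m ^ M.index)⁻¹ * (m * x) ^ M.index) ∈ M :=
            M.mul_mem (M.inv_mem (M.pow_mem hm _)) (hexp _)
          have h5 : ((m ^ M.index)⁻¹ * (m * x) ^ M.index) ∈ M ⊓ N := Subgroup.mem_inf.mpr ⟨h4, h3⟩
          rw [hR, Subgroup.mem_bot] at h5
          exact (inv_mul_eq_one.mp h5).symm
        have hcop2 : (M.index).Coprime (orderOf m) := by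
          rw [hidx, hj]
          exact (Nat.Coprime.pow_left j hcop.symm)
        obtain ⟨e, he⟩ := exists_pow_eq_self_of_coprime hcop2
        have h6 : m = (m * x) ^ (M.index * e) := by
          rw [pow_mul, h1, he]
        have h7 : Commute ((m * x) ^ (M.index * e)) (m * x) := (Commute.refl (m * x)).pow_left _
        rw [← h6] at h7
        have h8 : m * (m * x) = m * x * m := h7.eq
        have h9 : m * (m * x) = m * (x * m) := by rw [h8]; group
        exact mul_left_cancel h9
      -- `G ⧸ C_G(N)` is a `p`-group
      have hNC : N ≤ Subgroup.centralizer (N : Set G) := by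
        intro a ha
        rw [Subgroup.mem_centralizer_iff]
        intro b hb
        exact hNab b hb a ha
      have hQp : IsPGroup p (G ⧸ Subgroup.centralizer (N : Set G)) := by
        intro y
        obtain ⟨g, rfl⟩ := QuotientGroup.mk'_surjective (Subgroup.centralizer (N : Set G)) y
        have hg : g ∈ M ⊔ N := by rw [hMN]; trivial
        have hnorm : M ≤ Subgroup.normalizer (N : Set G) := by
          rw [Subgroup.normalizer_eq_top]; exact le_top
        obtain ⟨m, hm, x, hx, rfl⟩ := Helper8.mem_sup_of_le_normalizer hnorm hg
        have hord : orderOf m ≠ 0 := (orderOf_pos m).ne'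
        obtain ⟨a, o', ho', hoeq⟩ := Nat.exists_eq_pow_mul_and_not_dvd hord p hp.ne_one
        refine ⟨a, ?_⟩
        have hm' : m ^ p ^ a ∈ Subgroup.centralizer (N : Set G) := by
          have hdvd : orderOf (m ^ p ^ a) ∣ o' := by
            apply orderOf_dvd_of_pow_eq_one
            rw [← pow_mul, ← hoeq, pow_orderOf_eq_one]
          have hcop : (orderOf (m ^ p ^ a)).Coprime p :=
            Nat.Coprime.coprime_dvd_left hdvd ((Nat.Prime.coprime_iff_not_dvd hp).mpr ho').symm
          rw [Subgroup.mem_centralizer_iff]
          intro b hb
          exact (hpprime _ (M.pow_mem hm _) hcop b hb).symm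
        show (QuotientGroup.mk' (Subgroup.centralizer (N : Set G)) (m * x)) ^ p ^ a = 1
        have hx1 : QuotientGroup.mk' (Subgroup.centralizer (N : Set G)) x = 1 :=
          (QuotientGroup.eq_one_iff x).mpr (hNC hx)
        rw [map_mul, hx1, mul_one, ← map_pow]
        exact (QuotientGroup.eq_one_iff _).mpr hm'
      obtain ⟨j', hj'⟩ := IsPGroup.iff_card.mp hQp
      -- a Sylow `p`-subgroup containing `N`
      obtain ⟨P, hNP⟩ := hNp.exists_le_sylow
      have hPC : (P : Subgroup G) ⊔ Subgroup.centralizer (N : Set G) = ⊤ := by
        rw [← Subgroup.index_eq_one]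
        have h1 : ((P : Subgroup G) ⊔ Subgroup.centralizer (N : Set G)).index ∣ (P : Subgroup G).index :=
          Subgroup.index_dvd_of_le le_sup_left
        have h2 : ((P : Subgroup G) ⊔ Subgroup.centralizer (N : Set G)).index ∣ p ^ j' := by
          rw [← hj', ← Subgroup.index_eq_card]
          exact Subgroup.index_dvd_of_le le_sup_right
        obtain ⟨k, _, hk⟩ := (Nat.dvd_prime_pow hp).mp h2
        have hk0 : k = 0 := by
          by_contra hk0
          apply P.not_dvd_index
          refine dvd_trans ?_ h1
          rw [hk]; exact dvd_pow_self p hk0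
        rw [hk, hk0, pow_zero]
      -- a nontrivial central element in `N`
      have hN'n : (N.subgroupOf (P : Subgroup G)).Normal := inferInstance
      have hN'1 : N.subgroupOf (P : Subgroup G) ≠ ⊥ := by
        intro h
        apply hN1
        rw [eq_bot_iff]
        intro x hx
        have h1 : (⟨x, hNP hx⟩ : (P : Subgroup G)) ∈ N.subgroupOf (P : Subgroup G) := by
          rw [Subgroup.mem_subgroupOf]; exact hx
        rw [h, Subgroup.mem_bot] at h1
        rw [Subgroup.mem_bot]
        exact congrArg Subtype.val h1
      obtain ⟨x, hxN, hx1, hxZ⟩ := exists_ne_one_mem_center_of_normal P.isPGroup'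
        (N.subgroupOf (P : Subgroup G)) hN'1
      have hxN' : (x : G) ∈ N := by
        rw [Subgroup.mem_subgroupOf] at hxN; exact hxN
      have hxc : (x : G) ∈ Subgroup.center G := by
        have h1 : (P : Subgroup G) ⊔ Subgroup.centralizer (N : Set G) ≤
            Subgroup.centralizer ({(x : G)} : Set G) := by
          apply sup_le
          · intro y hy
            rw [Subgroup.mem_centralizer_iff]
            intro z hz
            rw [Set.mem_singleton_iff] at hz
            subst hz
            have h2 := (Subgroup.mem_center_iff.mp hxZ) ⟨y, hy⟩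
            exact congrArg Subtype.val h2.symm
          · intro y hy
            rw [Subgroup.mem_centralizer_iff]
            intro z hz
            rw [Set.mem_singleton_iff] at hz
            subst hz
            exact (Subgroup.mem_centralizer_iff.mp hy _ hxN')
        rw [hPC] at h1
        rw [Subgroup.mem_center_iff]
        intro g
        have h3 := h1 (Subgroup.mem_top g)
        rw [Subgroup.mem_centralizer_iff] at h3
        exact (h3 _ rfl).symm
      have hZ1 : N ⊓ Subgroup.center G ≠ ⊥ := by
        intro h
        have h1 : (x : G) ∈ N ⊓ Subgroup.center G := Subgroup.mem_inf.mpr ⟨hxN', hxc⟩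
        rw [h, Subgroup.mem_bot] at h1
        exact hx1 (Subtype.ext h1)
      have hZ := hmin _ inferInstance hZ1 inf_le_left
      have hNZ : N ≤ Subgroup.center G := hZ ▸ inf_le_right
      -- `M` is normal
      rw [← Subgroup.normalizer_eq_top_iff, eq_top_iff, ← hMN]
      apply sup_le Subgroup.le_normalizer
      intro w hw
      apply Subgroup.mem_normalizer_fintype
      intro y hy
      have h3 : w * y * w⁻¹ = y := by
        rw [← (Subgroup.mem_center_iff.mp (hNZ hw)) y]; group
      rw [h3]; exact hy

end Cfsg.Agent.Helper4
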