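import Mathlib
import Cfsg.Agent.Helper4.CoprimeNorm
import Cfsg.Agent.Helper4.PLength
import Cfsg.Agent.Helper3.PConstrained
import Cfsg.Agent.Helper3.PComp3
import Cfsg.Agent.Helper5.CharP
import Cfsg.Agent.Helper8.GroupFusion
import Cfsg.Prelude.Def_Local

set_option autoImplicit false

namespace Cfsg.Agent.Helper4

open Cfsg

universe u

/-- "Characteristic `p`" is transported along an isomorphism. -/
theorem charp_of_mulEquiv {A B : Type*} [Group A] [Group B] (p : ℕ) (e : A ≃* B)
    (h : Subgroup.centralizer (pCore p A : Set A) ≤ pCore p A) :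
    Subgroup.centralizer (pCore p B : Set B) ≤ pCore p B := by
  intro b hb
  rw [← pl_pCore_map p e]
  refine Subgroup.mem_map.mpr ⟨e.symm b, h ?_, e.apply_symm_apply b⟩
  rw [Subgroup.mem_centralizer_iff]
  intro a ha
  have h1 : e a ∈ pCore p B := by
    rw [← pl_pCore_map p e]; exact Subgroup.mem_map_of_mem _ ha
  have h2 := Subgroup.mem_centralizer_iff.mp hb _ h1
  apply e.injective
  rw [map_mul, map_mul, e.apply_symm_apply]
  exact h2

/-- `G` is `p`-constrained iff `O_p(G/O_{p'}(G))` contains its centralizer. -/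
theorem pcon_iff {G : Type u} [Group G] [Finite G] (p : ℕ) [Fact p.Prime] :
    IsPConstrained p G ↔
      Subgroup.centralizer (pCore p (G ⧸ pPrimeCore p G) : Set (G ⧸ pPrimeCore p G)) ≤
        pCore p (G ⧸ pPrimeCore p G) := by
  have hNn : (pPrimeCore p G).Normal := Helper5.pPrimeCore_normal' p G
  have hNc : (Nat.card (pPrimeCore p G)).Coprime p := Helper3.pPrimeCore_coprime p G
  have hmkN : ∀ a ∈ pPrimeCore p G, (QuotientGroup.mk' (pPrimeCore p G)) a = 1 :=
    fun a ha => (QuotientGroup.eq_one_iff a).mpr ha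
  constructor
  · intro hcon xbar hxbar
    obtain ⟨x, rfl⟩ := QuotientGroup.mk'_surjective (pPrimeCore p G) xbar
    obtain ⟨P⟩ : Nonempty (Sylow p ↥(pPrimePCore p G)) := inferInstance
    have hP := hcon P
    have hPmK : (P : Subgroup ↥(pPrimePCore p G)).map (pPrimePCore p G).subtype ≤ pPrimePCore p G :=
      Subgroup.map_subtype_le _
    have hPmp : IsPGroup p ((P : Subgroup ↥(pPrimePCore p G)).map (pPrimePCore p G).subtype) :=
      P.2.map _
    generalize (P : Subgroup ↥(pPrimePCore p G)).map (pPrimePCore p G).subtype = Pm at hP hPmK hPmp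
    have hcomm : ∀ u ∈ Pm, (QuotientGroup.mk' (pPrimeCore p G)) u * (QuotientGroup.mk' (pPrimeCore p G)) x =
        (QuotientGroup.mk' (pPrimeCore p G)) x * (QuotientGroup.mk' (pPrimeCore p G)) u := by
      intro u hu
      have hu' : (QuotientGroup.mk' (pPrimeCore p G)) u ∈ pCore p (G ⧸ pPrimeCore p G) := hPmK hu
      exact Subgroup.mem_centralizer_iff.mp hxbar _ hu'
    have h1 : ∀ u ∈ Pm, x * u * x⁻¹ * u⁻¹ ∈ pPrimeCore p G := by
      intro u hu
      apply (QuotientGroup.eq_one_iff _).mp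
      show (QuotientGroup.mk' (pPrimeCore p G)) (x * u * x⁻¹ * u⁻¹) = 1
      rw [map_mul, map_mul, map_mul, map_inv, map_inv, ← hcomm u hu]
      group
    obtain ⟨n, hn, hna⟩ := exists_mul_mem_normalizer _ Pm hNn hNc hPmp x h1
    have h2 : n * x ∈ Subgroup.centralizer (Pm : Set G) := by
      rw [Subgroup.mem_centralizer_iff]
      intro u hu
      have h3 : (n * x) * u * (n * x)⁻¹ * u⁻¹ ∈ Pm :=
        Pm.mul_mem ((Subgroup.mem_normalizer_iff.mp hna u).mp hu) (Pm.inv_mem hu)
      have h4 : (n * x) * u * (n * x)⁻¹ * u⁻¹ ∈ pPrimeCore p G := by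
        apply (QuotientGroup.eq_one_iff _).mp
        show (QuotientGroup.mk' (pPrimeCore p G)) ((n * x) * u * (n * x)⁻¹ * u⁻¹) = 1
        rw [map_mul, map_mul, map_mul, map_inv, map_inv, map_mul, hmkN n hn, one_mul, ← hcomm u hu]
        group
      have h5 : ((n * x) * u * (n * x)⁻¹ * u⁻¹) ^ Nat.card (pPrimeCore p G) = 1 := by
        have h0 := congrArg Subtype.val (pow_card_eq_one' (G := ↥(pPrimeCore p G)) (x := ⟨_, h4⟩))
        rwa [Subgroup.coe_pow] at h0
      have h6 := Helper5.eq_one_of_pow_coprime Pm hPmp _ hNc _ h3 h5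
      have h7 : u * (n * x) = ((n * x) * u * (n * x)⁻¹ * u⁻¹)⁻¹ * ((n * x) * u) := by group
      rw [h7, h6, inv_one, one_mul]
    have h3 : (QuotientGroup.mk' (pPrimeCore p G)) (n * x) ∈ pCore p (G ⧸ pPrimeCore p G) := hP h2
    rwa [map_mul, hmkN n hn, one_mul] at h3
  · intro hc P x hx
    show (QuotientGroup.mk' (pPrimeCore p G)) x ∈ pCore p (G ⧸ pPrimeCore p G)
    apply hc
    rw [Subgroup.mem_centralizer_iff]
    intro r hr
    obtain ⟨k, rfl⟩ := QuotientGroup.mk'_surjective (pPrimeCore p G) r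
    have hk : k ∈ pPrimePCore p G := hr
    have h1 := Helper3.pPrimePCore_le_sylow_sup p P hk
    have h2 : (P : Subgroup ↥(pPrimePCore p G)).map (pPrimePCore p G).subtype ≤
        Subgroup.normalizer ((pPrimeCore p G : Subgroup G) : Set G) := by
      rw [Subgroup.normalizer_eq_top_iff.mpr hNn]; exact le_top
    obtain ⟨u, hu, a, ha, rfl⟩ := Helper8.mem_sup_of_le_normalizer h2 h1
    have h3 := Subgroup.mem_centralizer_iff.mp hx u hu
    rw [map_mul, hmkN a ha, mul_one, ← map_mul, ← map_mul, h3]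

/-- `p`-constraint is invariant under isomorphism. -/
theorem isPConstrained_of_mulEquiv {A B : Type u} [Group A] [Group B] [Finite A] [Finite B]
    (p : ℕ) [Fact p.Prime] (e : A ≃* B) (h : IsPConstrained p A) : IsPConstrained p B := by
  rw [pcon_iff] at h ⊢
  exact charp_of_mulEquiv p
    (QuotientGroup.congr (pPrimeCore p A) (pPrimeCore p B) e (pl_pPrimeCore_map p e)) h

/-- A normal subgroup of a `p`-constrained group is `p`-constrained. -/
theorem isPConstrained_of_normal {Y : Type u} [Group Y] [Finite Y] (p : ℕ) [Fact p.Prime]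
    (X : Subgroup Y) (hX : X.Normal) (h : IsPConstrained p Y) : IsPConstrained p ↥X := by
  rw [pcon_iff] at h ⊢
  have hcore : pPrimeCore p ↥X = (pPrimeCore p Y).comap X.subtype := by
    have h0 := Helper3.pPrimeCore_map_subtype_eq p X hX.isSubnormal
    ext x
    constructor
    · intro hx
      have h1 : (x : Y) ∈ (pPrimeCore p ↥X).map X.subtype := Subgroup.mem_map_of_mem _ hx
      rw [h0] at h1
      exact h1.1
    · intro hx
      have h1 : (x : Y) ∈ pPrimeCore p Y ⊓ X := ⟨hx, x.2⟩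
      rw [← h0] at h1
      obtain ⟨y, hy, hyx⟩ := Subgroup.mem_map.mp h1
      have h2 : y = x := Subtype.ext hyx
      rwa [← h2]
  have hle : pPrimeCore p ↥X ≤ (pPrimeCore p Y).comap X.subtype := by rw [hcore]
  have hψ : ∀ x : ↥X, (QuotientGroup.map (pPrimeCore p ↥X) (pPrimeCore p Y) X.subtype hle)
      (QuotientGroup.mk' _ x) = QuotientGroup.mk' _ (x : Y) := fun x => rfl
  have hinj : Function.Injective
      (QuotientGroup.map (pPrimeCore p ↥X) (pPrimeCore p Y) X.subtype hle) := by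
    rw [← MonoidHom.ker_eq_bot_iff, eq_bot_iff]
    intro z hz
    obtain ⟨x, rfl⟩ := QuotientGroup.mk'_surjective _ z
    rw [MonoidHom.mem_ker, hψ] at hz
    have h1 : (x : Y) ∈ pPrimeCore p Y := (QuotientGroup.eq_one_iff _).mp hz
    rw [Subgroup.mem_bot]
    apply (QuotientGroup.eq_one_iff _).mpr
    rw [hcore]
    exact h1
  have hnorm : (QuotientGroup.map (pPrimeCore p ↥X) (pPrimeCore p Y) X.subtype hle).range.Normal := by
    constructor
    intro z hz ybar
    obtain ⟨w, rfl⟩ := MonoidHom.mem_range.mp hz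
    obtain ⟨x, rfl⟩ := QuotientGroup.mk'_surjective _ w
    obtain ⟨y, rfl⟩ := QuotientGroup.mk'_surjective _ ybar
    refine MonoidHom.mem_range.mpr
      ⟨QuotientGroup.mk' _ ⟨y * (x : Y) * y⁻¹, hX.conj_mem x x.2 y⟩, ?_⟩
    rw [hψ, hψ, map_mul, map_mul, map_inv]
  have h1 := Helper5.charP_of_normal (⊤ : Subgroup (Y ⧸ pPrimeCore p Y)) _ (Helper5.charP_top h)
    le_top (by rw [Subgroup.normalizer_eq_top_iff.mpr hnorm])
  have h2 := (Helper5.charP_iff _).mpr h1
  exact charp_of_mulEquiv p (MonoidHom.ofInjective hinj).symm h2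

end Cfsg.Agent.Helper4
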