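import Mathlib
import Cfsg.Agent.Helper4.PCon
import Cfsg.Agent.Helper4.CoprimeFix

set_option autoImplicit false

namespace Cfsg.Agent.Helper4

open Cfsg

universe u

/-- If `x ∈ O_p(X)` has order `p` and `C_X(x)` is `p`-constrained, then `X` is `p`-constrained. -/
theorem isPConstrained_of_centralizer_of_mem_pCore {X : Type u} [Group X] [Finite X] (p : ℕ)
    [Fact p.Prime] (x : X) (hx : orderOf x = p) (hxQ : x ∈ pCore p X)
    (hC : IsPConstrained p ↥(Subgroup.centralizer ({x} : Set X))) : IsPConstrained p X := by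
  rw [pcon_iff]
  haveI hOn : (pPrimeCore p X).Normal := Helper5.pPrimeCore_normal' p X
  have hOc : (Nat.card (pPrimeCore p X)).Coprime p := Helper3.pPrimeCore_coprime p X
  have hπs : Function.Surjective (QuotientGroup.mk' (pPrimeCore p X)) :=
    QuotientGroup.mk'_surjective _
  haveI hQchar : (pCore p (X ⧸ pPrimeCore p X)).Characteristic := Helper3.pCore_characteristic p _
  haveI hQXchar : (pCore p X).Characteristic := Helper3.pCore_characteristic p _
  haveI hDn : (Subgroup.centralizer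
      (pCore p (X ⧸ pPrimeCore p X) : Set (X ⧸ pPrimeCore p X))).Normal := inferInstance
  obtain ⟨O, hO⟩ : ∃ O : Subgroup X, O = pPrimeCore p X := ⟨_, rfl⟩
  subst hO
  obtain ⟨D, hD⟩ : ∃ D : Subgroup (X ⧸ pPrimeCore p X), D = Subgroup.centralizer
      (pCore p (X ⧸ pPrimeCore p X) : Set (X ⧸ pPrimeCore p X)) := ⟨_, rfl⟩
  rw [← hD] at hDn ⊢
  -- Step 1
  have hx1 : QuotientGroup.mk' (pPrimeCore p X) x ∈ pCore p (X ⧸ pPrimeCore p X) := by
    haveI : ((pCore p X).map (QuotientGroup.mk' (pPrimeCore p X))).Normal :=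
      Subgroup.Normal.map inferInstance _ hπs
    exact Helper3.le_pCore _ ((Helper3.pCore_isPGroup p X).map _) (Subgroup.mem_map_of_mem _ hxQ)
  -- Step 2
  have hstep2 : ∀ d ∈ D, ∃ c ∈ Subgroup.centralizer ({x} : Set X),
      QuotientGroup.mk' (pPrimeCore p X) c = d := by
    intro dbar hd
    obtain ⟨d, rfl⟩ := hπs dbar
    rw [hD] at hd
    have hcomm := Subgroup.mem_centralizer_iff.mp hd _ hx1
    have hk : x * d * x⁻¹ * d⁻¹ ∈ pPrimeCore p X := by
      rw [← QuotientGroup.eq_one_iff]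
      show QuotientGroup.mk' (pPrimeCore p X) (x * d * x⁻¹ * d⁻¹) = 1
      rw [map_mul, map_mul, map_mul, map_inv, map_inv, hcomm]
      group
    have hnorm : ∀ y : X, y ∈ Subgroup.normalizer ((pPrimeCore p X : Subgroup X) : Set X) := by
      intro y
      rw [Subgroup.normalizer_eq_top_iff.mpr hOn]
      exact Subgroup.mem_top y
    obtain ⟨o, ho, hcom⟩ := exists_mul_commute_of_comm_mem p (pPrimeCore p X) hOc x hx
      (hnorm x) d (hnorm d) hk
    refine ⟨o⁻¹ * d, ?_, ?_⟩
    · rw [Subgroup.mem_centralizer_iff]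
      intro h hh
      rw [Set.mem_singleton_iff.mp hh]
      exact hcom.eq.symm
    · rw [map_mul, map_inv]
      have h3 : QuotientGroup.mk' (pPrimeCore p X) o = 1 := by
        rw [QuotientGroup.mk'_apply]; exact (QuotientGroup.eq_one_iff o).mpr ho
      rw [h3, inv_one, one_mul]
  -- Step 3
  obtain ⟨ψ, hψ⟩ : ∃ ψ : ↥(Subgroup.centralizer ({x} : Set X)) →* X ⧸ pPrimeCore p X,
      ∀ c, ψ c = QuotientGroup.mk' (pPrimeCore p X) (c : X) :=
    ⟨(QuotientGroup.mk' (pPrimeCore p X)).comp (Subgroup.centralizer ({x} : Set X)).subtype,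
      fun c => rfl⟩
  have hEn : (D.comap ψ).Normal := Subgroup.Normal.comap hDn ψ
  have hE : IsPConstrained p ↥(D.comap ψ) := isPConstrained_of_normal p _ hEn hC
  -- Step 4
  obtain ⟨f, hf⟩ : ∃ f : ↥(D.comap ψ) →* ↥D, ∀ y, ((f y : ↥D) : X ⧸ pPrimeCore p X) =
      ψ (y : ↥(Subgroup.centralizer ({x} : Set X))) :=
    ⟨(ψ.comp (D.comap ψ).subtype).codRestrict D (fun y => Subgroup.mem_comap.mp y.2),
      fun y => rfl⟩
  have hfs : Function.Surjective f := by
    intro dbar
    obtain ⟨c, hc, hcd⟩ := hstep2 dbar.1 dbar.2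
    have hmem : (⟨c, hc⟩ : ↥(Subgroup.centralizer ({x} : Set X))) ∈ D.comap ψ := by
      rw [Subgroup.mem_comap, hψ]
      show QuotientGroup.mk' (pPrimeCore p X) c ∈ D
      rw [hcd]; exact dbar.2
    refine ⟨⟨⟨c, hc⟩, hmem⟩, Subtype.ext ?_⟩
    rw [hf, hψ]
    exact hcd
  -- Step 5
  have hDsub : D.IsSubnormal := Subgroup.Normal.isSubnormal hDn
  have hcoreD : pPrimeCore p ↥D = ⊥ := by
    rw [Helper3.pPrimeCore_subnormal_eq p D hDsub, Helper3.pPrimeCore_quotient_eq_bot p X]
    exact Subgroup.bot_subgroupOf D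
  have h5 : pPrimeCore p ↥(D.comap ψ) = f.ker := by
    apply le_antisymm
    · rw [← Subgroup.map_eq_bot_iff, eq_bot_iff, ← hcoreD]
      haveI : ((pPrimeCore p ↥(D.comap ψ)).map f).Normal :=
        Subgroup.Normal.map (Helper5.pPrimeCore_normal' p _) f hfs
      exact Helper3.le_pPrimeCore _ (Nat.Coprime.coprime_dvd_left (Subgroup.card_map_dvd _ f)
        (Helper3.pPrimeCore_coprime p _))
    · apply Helper3.le_pPrimeCore
      have hmemO : ∀ y : ↥f.ker,
          (((Subgroup.centralizer ({x} : Set X)).subtype.comp (D.comap ψ).subtype).comp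
            f.ker.subtype) y ∈ pPrimeCore p X := by
        intro y
        have h1 : f (y : ↥(D.comap ψ)) = 1 := y.2
        have h2 := congrArg Subtype.val h1
        rw [hf, hψ, Subgroup.coe_one, QuotientGroup.mk'_apply, QuotientGroup.eq_one_iff] at h2
        exact h2
      have hinj : Function.Injective
          ((((Subgroup.centralizer ({x} : Set X)).subtype.comp (D.comap ψ).subtype).comp
            f.ker.subtype).codRestrict (pPrimeCore p X) hmemO) := by
        intro a b hab
        have h1 := congrArg Subtype.val hab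
        exact Subtype.ext (Subtype.ext (Subtype.ext h1))
      exact Nat.Coprime.coprime_dvd_left (Subgroup.card_dvd_of_injective _ hinj) hOc
  -- Step 6, 7
  haveI : (pPrimeCore p ↥(D.comap ψ)).Normal := Helper5.pPrimeCore_normal' p _
  have e : ↥(D.comap ψ) ⧸ pPrimeCore p ↥(D.comap ψ) ≃* ↥D :=
    (QuotientGroup.quotientMulEquivOfEq h5).trans (QuotientGroup.quotientKerEquivOfSurjective f hfs)
  have h7 := charp_of_mulEquiv p e ((pcon_iff p).mp hE)
  -- Step 8
  have hD_p : ∀ d : ↥D, d ∈ pCore p ↥D := by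
    intro d
    apply h7
    rw [Subgroup.mem_centralizer_iff]
    intro z hz
    have hzQ : (z : X ⧸ pPrimeCore p X) ∈ pCore p (X ⧸ pPrimeCore p X) := by
      haveI : (pCore p ↥D).Characteristic := Helper3.pCore_characteristic p _
      have hsub : ((pCore p ↥D).map D.subtype).IsSubnormal :=
        (Subgroup.Normal.isSubnormal inferInstance).trans' hDsub
      exact Helper3.subnormal_isPGroup_le_pCore _ hsub ((Helper3.pCore_isPGroup p ↥D).map _)
        (Subgroup.mem_map_of_mem D.subtype hz)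
    have hd2 : (d : X ⧸ pPrimeCore p X) ∈ Subgroup.centralizer
        (pCore p (X ⧸ pPrimeCore p X) : Set (X ⧸ pPrimeCore p X)) := by
      rw [← hD]; exact d.2
    exact Subtype.ext (Subgroup.mem_centralizer_iff.mp hd2 _ hzQ)
  -- Step 9
  have hDp : IsPGroup p ↥D := by
    intro d
    obtain ⟨k, hk⟩ := (Helper3.pCore_isPGroup p ↥D) ⟨d, hD_p d⟩
    exact ⟨k, congrArg Subtype.val hk⟩
  exact Helper3.le_pCore D hDp

end Cfsg.Agent.Helper4
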