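import Mathlib
import Cfsg.Agent.Helper4.RelSylow
import Cfsg.Agent.Helper4.CycNorm
import Cfsg.Agent.Helper5.CharP
import Cfsg.Agent.Helper8.GroupFusion
import Cfsg.Prelude.Def_Local

set_option autoImplicit false

namespace Cfsg.Agent.Helper4

open Cfsg

/-- One step along a `p`-series: if the `p`-element `x` centralizes `Q ∩ A₀` then it centralizes
`Q ∩ A₁`, where `A₁ / A₀` is a `p`-group or a `p'`-group and `Q` is a `p'`-group normalizing a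
Sylow `p`-subgroup. -/
theorem psolv_step {G : Type*} [Group G] [Finite G] {p : ℕ} [Fact p.Prime]
    (P : Sylow p G) (Q : Subgroup G) (hQ : ¬ p ∣ Nat.card Q)
    (hQP : Q ≤ Subgroup.normalizer ((P : Subgroup G) : Set G)) (x : G) (k : ℕ)
    (hxk : x ^ p ^ k = 1) (hxQ : x ∈ Subgroup.normalizer (Q : Set G))
    (A₀ A₁ : Subgroup G) (hA₀ : A₀.Normal) (hA₁ : A₁.Normal)
    (hfac : (∃ m : ℕ, A₀.relIndex A₁ = p ^ m) ∨ (A₀.relIndex A₁).Coprime p)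
    (IH : ∀ q ∈ Q ⊓ A₀, x * q = q * x) : ∀ q ∈ Q ⊓ A₁, x * q = q * x := by
  have hpp : p.Prime := Fact.out
  have hQcop : (Nat.card Q).Coprime p := ((Nat.Prime.coprime_iff_not_dvd hpp).mpr hQ).symm
  rcases hfac with ⟨m, hm⟩ | hcop
  · intro q hq
    obtain ⟨hqQ, hqA⟩ := Subgroup.mem_inf.mp hq
    have h1 : q ^ p ^ m ∈ A₀ := by
      have h0 := Subgroup.pow_relIndex_mem A₀ hqA
      rwa [hm] at h0
    have h2 : q ^ Nat.card Q ∈ A₀ := by
      have h3 : (⟨q, hqQ⟩ : Q) ^ Nat.card Q = 1 := pow_card_eq_one'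
      have h4 := congrArg Subtype.val h3
      rw [Subgroup.coe_pow, Subgroup.coe_one] at h4
      simp only at h4
      rw [h4]; exact A₀.one_mem
    have h5 : q ∈ A₀ := mem_of_pow_mem_of_coprime A₀ q (p ^ m) (Nat.card Q)
      (Nat.Coprime.pow_left m hQcop.symm) h1 h2
    exact IH q (Subgroup.mem_inf.mpr ⟨hqQ, h5⟩)
  · -- the p'-factor case
    have hb1 : ∀ z ∈ (P : Subgroup G), z ∈ A₁ → z ∈ A₀ := by
      intro z hzP hzA
      obtain ⟨e, he⟩ := P.isPGroup' ⟨z, hzP⟩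
      have h1 : z ^ p ^ e = 1 := by
        have h0 := congrArg Subtype.val he
        rw [Subgroup.coe_pow, Subgroup.coe_one] at h0
        exact h0
      have h2 : z ^ A₀.relIndex A₁ ∈ A₀ := Subgroup.pow_relIndex_mem A₀ hzA
      have h3 : z ^ p ^ e ∈ A₀ := by rw [h1]; exact A₀.one_mem
      exact mem_of_pow_mem_of_coprime A₀ z (A₀.relIndex A₁) (p ^ e)
        (Nat.Coprime.pow_right e hcop) h2 h3
    have hb2 : ∀ u ∈ (P : Subgroup G), ∀ q ∈ Q ⊓ A₁, u * q * u⁻¹ * q⁻¹ ∈ A₀ := by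
      intro u hu q hq
      obtain ⟨hqQ, hqA⟩ := Subgroup.mem_inf.mp hq
      apply hb1
      · have h1 : q * u⁻¹ * q⁻¹ ∈ (P : Subgroup G) :=
          (Subgroup.mem_normalizer_iff.mp (hQP hqQ) u⁻¹).mp (Subgroup.inv_mem _ hu)
        have h2 : u * q * u⁻¹ * q⁻¹ = u * (q * u⁻¹ * q⁻¹) := by group
        rw [h2]; exact Subgroup.mul_mem _ hu h1
      · exact A₁.mul_mem (hA₁.conj_mem q hqA u) (A₁.inv_mem hqA)
    have hnA₀ : Q ⊓ A₁ ≤ Subgroup.normalizer (A₀ : Set G) := by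
      rw [Subgroup.normalizer_eq_top_iff.mpr hA₀]; exact le_top
    have hb3 : ∀ u ∈ (P : Subgroup G), ∀ a ∈ (Q ⊓ A₁) ⊔ A₀, u * a * u⁻¹ * a⁻¹ ∈ A₀ := by
      intro u hu a ha
      obtain ⟨q, hq, h, hh, rfl⟩ := Helper8.mem_sup_of_le_normalizer hnA₀ ha
      have h1 := hb2 u hu q hq
      have h2 : q * (u * h * u⁻¹ * h⁻¹) * q⁻¹ ∈ A₀ :=
        hA₀.conj_mem _ (A₀.mul_mem (hA₀.conj_mem h hh u) (A₀.inv_mem hh)) q
      have h3 : u * (q * h) * u⁻¹ * (q * h)⁻¹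
          = (u * q * u⁻¹ * q⁻¹) * (q * (u * h * u⁻¹ * h⁻¹) * q⁻¹) := by group
      rw [h3]; exact A₀.mul_mem h1 h2
    have hb4 : (P : Subgroup G) ≤ Subgroup.normalizer (((Q ⊓ A₁) ⊔ A₀ : Subgroup G) : Set G) := by
      intro u hu
      apply Subgroup.mem_normalizer_fintype
      intro a ha
      have h1 : u * a * u⁻¹ = (u * a * u⁻¹ * a⁻¹) * a := by group
      rw [h1]
      exact Subgroup.mul_mem _ (Subgroup.mem_sup_right (hb3 u hu a ha)) ha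
    have hb5 : x ∈ Subgroup.normalizer (((Q ⊓ A₁) ⊔ A₀ : Subgroup G) : Set G) := by
      apply Subgroup.mem_normalizer_fintype
      intro a ha
      obtain ⟨q, hq, h, hh, rfl⟩ := Helper8.mem_sup_of_le_normalizer hnA₀ ha
      obtain ⟨hqQ, hqA⟩ := Subgroup.mem_inf.mp hq
      have h1 : x * q * x⁻¹ ∈ Q ⊓ A₁ :=
        Subgroup.mem_inf.mpr ⟨(Subgroup.mem_normalizer_iff.mp hxQ q).mp hqQ, hA₁.conj_mem q hqA x⟩
      have h2 : x * h * x⁻¹ ∈ A₀ := hA₀.conj_mem h hh x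
      have h3 : x * (q * h) * x⁻¹ = (x * q * x⁻¹) * (x * h * x⁻¹) := by group
      rw [h3]
      exact Subgroup.mul_mem _ (Subgroup.mem_sup_left h1) (Subgroup.mem_sup_right h2)
    have hb6 : IsPGroup p (Subgroup.zpowers x) := by
      have h1 : orderOf x ∣ p ^ k := orderOf_dvd_of_pow_eq_one hxk
      obtain ⟨j, _, hj⟩ := (Nat.dvd_prime_pow hpp).mp h1
      apply IsPGroup.of_card (n := j)
      rw [Nat.card_zpowers, hj]
    have hb7 : ¬ p ∣ (P : Subgroup G).relIndex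
        (Subgroup.normalizer (((Q ⊓ A₁) ⊔ A₀ : Subgroup G) : Set G)) := by
      intro h
      exact P.not_dvd_index (h.trans (Dvd.intro _ (Subgroup.relIndex_mul_index hb4)))
    obtain ⟨c, hc, hcx⟩ := exists_conj_le_of_relIndex
      (Subgroup.normalizer (((Q ⊓ A₁) ⊔ A₀ : Subgroup G) : Set G)) (P : Subgroup G)
      (Subgroup.zpowers x) P.isPGroup' hb7 hb6 (by
        rw [Subgroup.zpowers_le]; exact hb5)
    have hcxP : c * x * c⁻¹ ∈ (P : Subgroup G) := hcx x (Subgroup.mem_zpowers x)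
    have hb9 : ∀ q ∈ Q ⊓ A₁, x * q * x⁻¹ * q⁻¹ ∈ Q ⊓ A₀ := by
      intro q hq
      obtain ⟨hqQ, hqA⟩ := Subgroup.mem_inf.mp hq
      refine Subgroup.mem_inf.mpr ⟨?_, ?_⟩
      · exact Q.mul_mem ((Subgroup.mem_normalizer_iff.mp hxQ q).mp hqQ) (Q.inv_mem hqQ)
      · have hqB : q ∈ (Q ⊓ A₁) ⊔ A₀ := Subgroup.mem_sup_left hq
        have h1 : c * q * c⁻¹ ∈ (Q ⊓ A₁) ⊔ A₀ := (Subgroup.mem_normalizer_iff.mp hc q).mp hqB
        have h2 := hb3 _ hcxP _ h1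
        have h3 : c⁻¹ * ((c * x * c⁻¹) * (c * q * c⁻¹) * (c * x * c⁻¹)⁻¹ * (c * q * c⁻¹)⁻¹) * c⁻¹⁻¹ ∈ A₀ :=
          hA₀.conj_mem _ h2 c⁻¹
        have h4 : c⁻¹ * ((c * x * c⁻¹) * (c * q * c⁻¹) * (c * x * c⁻¹)⁻¹ * (c * q * c⁻¹)⁻¹) * c⁻¹⁻¹
            = x * q * x⁻¹ * q⁻¹ := by group
        rwa [h4] at h3
    have hcop' : ∀ a ∈ Q ⊓ A₀, a ^ p ^ k = 1 → a = 1 := by
      intro a ha hak
      have h1 : orderOf a ∣ p ^ k := orderOf_dvd_of_pow_eq_one hak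
      have h2 : orderOf a ∣ Nat.card Q := Q.orderOf_dvd_natCard (Subgroup.mem_inf.mp ha).1
      have h3 : orderOf a ∣ Nat.gcd (Nat.card Q) (p ^ k) := Nat.dvd_gcd h2 h1
      have h4 : Nat.gcd (Nat.card Q) (p ^ k) = 1 := Nat.Coprime.pow_right k hQcop
      rw [h4, Nat.dvd_one, orderOf_eq_one_iff] at h3
      exact h3
    exact Helper5.stab_two x (p ^ k) hxk (Q ⊓ A₀) (Q ⊓ A₁) IH hb9 hcop'

/-- In a `p`-solvable group, a `p`-element normalizing a `p'`-subgroup `Q` that normalizes a Sylow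
`p`-subgroup centralizes `Q`. -/
theorem psolv_pelt_centralizes {G : Type*} [Group G] [Finite G] {p : ℕ} [Fact p.Prime]
    (hG : IsPSolvable p G) (P : Sylow p G) (Q : Subgroup G) (hQ : ¬ p ∣ Nat.card Q)
    (hQP : Q ≤ Subgroup.normalizer ((P : Subgroup G) : Set G)) (x : G) (k : ℕ)
    (hxk : x ^ p ^ k = 1) (hxQ : x ∈ Subgroup.normalizer (Q : Set G)) :
    ∀ q ∈ Q, x * q = q * x := by
  obtain ⟨n, H, h0, hlast, _, hnorm, hfac⟩ := hG
  have key : ∀ i : ℕ, ∀ hi : i < n + 1, ∀ q ∈ Q ⊓ H ⟨i, hi⟩, x * q = q * x := by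
    intro i
    induction i with
    | zero =>
      intro hi q hq
      have h1 : H ⟨0, hi⟩ = ⊥ := h0
      rw [h1] at hq
      have h2 : q = 1 := Subgroup.mem_bot.mp (Subgroup.mem_inf.mp hq).2
      rw [h2]; simp
    | succ i ih =>
      intro hi
      have hi' : i < n := by omega
      exact psolv_step P Q hQ hQP x k hxk hxQ (H ⟨i, by omega⟩) (H ⟨i + 1, hi⟩)
        (hnorm _) (hnorm _) (hfac ⟨i, hi'⟩) (ih (by omega))
  intro q hq
  have h1 := key n (by omega) q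
  have h2 : H ⟨n, by omega⟩ = ⊤ := hlast
  rw [h2] at h1
  exact h1 (Subgroup.mem_inf.mpr ⟨hq, Subgroup.mem_top q⟩)

end Cfsg.Agent.Helper4
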