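import Mathlib

set_option autoImplicit false

namespace Cfsg.Agent.Helper4

/-- A determinant-one `2 × 2` matrix fixing a nonzero vector `v` moves every vector by a multiple
of `v`. -/
theorem sl2_fix_vec_shift {K : Type*} [Field K] (A : Matrix (Fin 2) (Fin 2) K) (hA : A.det = 1)
    (v : Fin 2 → K) (hv : v ≠ 0) (hAv : A.mulVec v = v) (w : Fin 2 → K) :
    ∃ κ : K, A.mulVec w = w + κ • v := by
  have h0 : A 0 0 * v 0 + A 0 1 * v 1 = v 0 := by
    have := congrFun hAv 0
    simpa [Matrix.mulVec, dotProduct, Fin.sum_univ_two] using this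
  have h1 : A 1 0 * v 0 + A 1 1 * v 1 = v 1 := by
    have := congrFun hAv 1
    simpa [Matrix.mulVec, dotProduct, Fin.sum_univ_two] using this
  have hd : A 0 0 * A 1 1 - A 0 1 * A 1 0 = 1 := by
    rw [← Matrix.det_fin_two]; exact hA
  have hdet : v 0 * (A 1 0 * w 0 + A 1 1 * w 1 - w 1) - v 1 * (A 0 0 * w 0 + A 0 1 * w 1 - w 0) = 0 := by
    linear_combination (-(A 1 0 * w 0 + A 1 1 * w 1)) * h0 + (A 0 0 * w 0 + A 0 1 * w 1) * h1 +
      (v 0 * w 1 - v 1 * w 0) * hd
  have hv' : v 0 ≠ 0 ∨ v 1 ≠ 0 := by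
    by_contra hcon
    push Not at hcon
    apply hv
    funext i
    fin_cases i
    · exact hcon.1
    · exact hcon.2
  rcases hv' with hv0 | hv1
  · refine ⟨(A 0 0 * w 0 + A 0 1 * w 1 - w 0) / v 0, ?_⟩
    funext i
    fin_cases i
    · simp only [Matrix.mulVec, dotProduct, Fin.sum_univ_two, Pi.add_apply, Pi.smul_apply,
        smul_eq_mul, Fin.zero_eta]
      field_simp
      ring
    · simp only [Matrix.mulVec, dotProduct, Fin.sum_univ_two, Pi.add_apply, Pi.smul_apply,
        smul_eq_mul, Fin.mk_one]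
      field_simp
      linear_combination hdet
  · refine ⟨(A 1 0 * w 0 + A 1 1 * w 1 - w 1) / v 1, ?_⟩
    funext i
    fin_cases i
    · simp only [Matrix.mulVec, dotProduct, Fin.sum_univ_two, Pi.add_apply, Pi.smul_apply,
        smul_eq_mul, Fin.zero_eta]
      field_simp
      linear_combination -hdet
    · simp only [Matrix.mulVec, dotProduct, Fin.sum_univ_two, Pi.add_apply, Pi.smul_apply,
        smul_eq_mul, Fin.mk_one]
      field_simp
      ring

/-- Two determinant-one `2 × 2` matrices with a common nonzero fixed vector commute. -/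
theorem sl2_commute_of_common_fixed_vec {K : Type*} [Field K] (A B : Matrix (Fin 2) (Fin 2) K)
    (hA : A.det = 1) (hB : B.det = 1) (v : Fin 2 → K) (hv : v ≠ 0) (hAv : A.mulVec v = v)
    (hBv : B.mulVec v = v) : A * B = B * A := by
  apply Matrix.mulVec_injective
  funext w
  rw [← Matrix.mulVec_mulVec, ← Matrix.mulVec_mulVec]
  obtain ⟨κ, hκ⟩ := sl2_fix_vec_shift A hA v hv hAv w
  obtain ⟨μ, hμ⟩ := sl2_fix_vec_shift B hB v hv hBv w
  rw [hμ, hκ, Matrix.mulVec_add, Matrix.mulVec_add, Matrix.mulVec_smul, Matrix.mulVec_smul, hAv,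
    hBv, hκ, hμ]
  abel

/-- Every `p`-subgroup of `SL₂(K)`, `K` finite of characteristic `p`, is abelian. -/
theorem sl2_pSubgroup_commute {K : Type*} [Field K] [Fintype K] (p : ℕ) [Fact p.Prime] [CharP K p]
    (Q : Subgroup (Matrix.SpecialLinearGroup (Fin 2) K)) (hQ : IsPGroup p Q) :
    ∀ x ∈ Q, ∀ y ∈ Q, x * y = y * x := by
  classical
  let act : MulAction Q (Fin 2 → K) :=
    { smul := fun A w => ((A : Matrix.SpecialLinearGroup (Fin 2) K) : Matrix (Fin 2) (Fin 2) K).mulVec w
      one_smul := fun w => by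
        show ((1 : Matrix (Fin 2) (Fin 2) K)).mulVec w = w
        exact Matrix.one_mulVec w
      mul_smul := fun A B w => by
        show ((A : Matrix.SpecialLinearGroup (Fin 2) K) * (B : Matrix.SpecialLinearGroup (Fin 2) K)).1.mulVec w
          = (A : Matrix.SpecialLinearGroup (Fin 2) K).1.mulVec ((B : Matrix.SpecialLinearGroup (Fin 2) K).1.mulVec w)
        rw [Matrix.mulVec_mulVec]
        rfl }
  have hsmul : ∀ (A : Q) (w : Fin 2 → K), A • w =
      ((A : Matrix.SpecialLinearGroup (Fin 2) K) : Matrix (Fin 2) (Fin 2) K).mulVec w := fun A w => rfl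
  have hpK : p ∣ Fintype.card K := by
    have h1 : ((Fintype.card K : ℕ) : K) = 0 := Nat.cast_card_eq_zero K
    exact (CharP.cast_eq_zero_iff K p _).mp h1
  have hdvd : p ∣ Nat.card (Fin 2 → K) := by
    rw [Nat.card_eq_fintype_card, Fintype.card_fun, Fintype.card_fin]
    exact dvd_pow hpK (by norm_num)
  have h0fix : (0 : Fin 2 → K) ∈ MulAction.fixedPoints Q (Fin 2 → K) := by
    intro A
    rw [hsmul]
    exact Matrix.mulVec_zero _
  obtain ⟨v, hvfix, hv0⟩ := hQ.exists_fixed_point_of_prime_dvd_card_of_fixed_point (Fin 2 → K) hdvd h0fix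
  intro x hx y hy
  have hxv : (x : Matrix (Fin 2) (Fin 2) K).mulVec v = v := hvfix ⟨x, hx⟩
  have hyv : (y : Matrix (Fin 2) (Fin 2) K).mulVec v = v := hvfix ⟨y, hy⟩
  apply Subtype.ext
  show (x : Matrix (Fin 2) (Fin 2) K) * (y : Matrix (Fin 2) (Fin 2) K) =
    (y : Matrix (Fin 2) (Fin 2) K) * (x : Matrix (Fin 2) (Fin 2) K)
  exact sl2_commute_of_common_fixed_vec _ _ x.2 y.2 v (fun h => hv0 h.symm) hxv hyv

end Cfsg.Agent.Helper4
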