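import Mathlib
import Cfsg.Agent.Helper4.Unipotent

set_option autoImplicit false

namespace Cfsg.Agent.Helper4

/-- Cayley–Hamilton for a `2 × 2` matrix of determinant one. -/
theorem sl2_sq_eq {F : Type*} [Field F] (A : Matrix (Fin 2) (Fin 2) F) (hdet : A.det = 1) :
    A * A = A.trace • A - 1 := by
  have hd : A 0 0 * A 1 1 - A 0 1 * A 1 0 = 1 := by
    rw [← Matrix.det_fin_two]; exact hdet
  ext i j
  fin_cases i <;> fin_cases j <;>
    simp [Matrix.mul_apply, Fin.sum_univ_two, Matrix.trace] <;>
    first | linear_combination hd | linear_combination (-1 : F) * hd | ring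

/-- Powers of determinant-one `2 × 2` matrices in characteristic `p`: if `A ^ (4 p) = 1` then
`A ^ 4 = 1` or `A ^ p = ± 1`. -/
theorem sl2_pow_trichotomy {F : Type*} [Field F] (p : ℕ) [Fact p.Prime] [CharP F p]
    (A : Matrix (Fin 2) (Fin 2) F) (hdet : A.det = 1) (h : A ^ (4 * p) = 1) :
    A ^ 4 = 1 ∨ A ^ p = 1 ∨ A ^ p = -1 := by
  have hpp : p.Prime := Fact.out
  have h2 := sl2_sq_eq A hdet
  obtain ⟨t, ht⟩ : ∃ t : F, t = A.trace := ⟨_, rfl⟩
  rw [← ht] at h2
  by_cases ht2 : t = 2
  · right; left
    have h3 : (A - 1) * (A - 1) = 0 := by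
      have e : (A - 1) * (A - 1) = A * A - (2 : F) • A + 1 := by
        simp only [sub_mul, mul_sub, mul_one, one_mul, two_smul]
        abel
      rw [e, h2, ht2]
      abel
    have h4 := matrix_pow_char_pow_sub_one (F := F) p A 1
    rw [pow_one] at h4
    have h5 : (A - 1) ^ p = 0 := by
      have e : (A - 1) ^ p = (A - 1) ^ 2 * (A - 1) ^ (p - 2) := by
        rw [← pow_add]
        congr 1
        have := hpp.two_le
        omega
      rw [e, pow_two, h3, zero_mul]
    rw [h5] at h4
    exact sub_eq_zero.mp h4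
  by_cases ht2' : t = -2
  · right; right
    have h3 : (A + 1) * (A + 1) = 0 := by
      have e : (A + 1) * (A + 1) = A * A + (2 : F) • A + 1 := by
        simp only [add_mul, mul_add, mul_one, one_mul, two_smul]
        abel
      rw [e, h2, ht2', neg_smul]
      abel
    have h4 : (A + 1) ^ p = A ^ p + 1 := by
      have := add_pow_char_of_commute (p := p) (Commute.one_right A)
      rw [one_pow] at this
      exact this
    have h5 : (A + 1) ^ p = 0 := by
      have e : (A + 1) ^ p = (A + 1) ^ 2 * (A + 1) ^ (p - 2) := by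
        rw [← pow_add]
        congr 1
        have := hpp.two_le
        omega
      rw [e, pow_two, h3, zero_mul]
    rw [h5] at h4
    exact eq_neg_of_add_eq_zero_left h4.symm
  · left
    have h4 : A ^ 4 = (t ^ 3 - 2 * t) • A - (t ^ 2 - 1) • (1 : Matrix (Fin 2) (Fin 2) F) := by
      have e : A ^ 4 = (A * A) * (A * A) := by
        rw [pow_succ, pow_succ, pow_succ, pow_one, mul_assoc, mul_assoc]
      rw [e, h2]
      simp only [sub_mul, mul_sub, smul_mul_assoc, mul_smul_comm, one_mul, mul_one, h2, smul_sub,
        smul_smul]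
      module
    have hnil : IsNilpotent (A ^ 4 - 1) := by
      refine ⟨p, ?_⟩
      have h5 := sub_pow_char_of_commute (p := p) (Commute.one_right (A ^ 4))
      rw [h5, one_pow, ← pow_mul, h, sub_self]
    have htr : (A ^ 4 - 1).trace = 0 := (Matrix.isNilpotent_trace_of_isNilpotent hnil).eq_zero
    rw [h4, Matrix.trace_sub, Matrix.trace_sub, Matrix.trace_smul, Matrix.trace_smul,
      Matrix.trace_one, ← ht, Fintype.card_fin] at htr
    have htr' : t ^ 2 * ((t - 2) * (t + 2)) = 0 := by
      simp only [smul_eq_mul] at htr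
      push_cast at htr
      linear_combination htr
    have ht0 : t = 0 := by
      rcases mul_eq_zero.mp htr' with h6 | h6
      · exact pow_eq_zero_iff (two_ne_zero) |>.mp h6
      · rcases mul_eq_zero.mp h6 with h7 | h7
        · exact absurd (sub_eq_zero.mp h7) ht2
        · exact absurd (eq_neg_of_add_eq_zero_left h7) ht2'
    rw [h4, ht0]
    simp

end Cfsg.Agent.Helper4
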