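import Mathlib

/-! Perfectness of `SL_n` and simplicity of `PSL_n` for `n ≥ 3` (Iwasawa), on top of Mathlib's
rank-two development. -/

set_option autoImplicit false

namespace Cfsg.Agent.Helper4

open Matrix Matrix.SpecialLinearGroup
open scoped commutatorElement

variable {F : Type*} [Field F] {ι : Type*} [DecidableEq ι] [Fintype ι]

/-- Steinberg commutator relation for elementary transvections. -/
theorem comm_transvection {i j k : ι} (hij : i ≠ j) (hik : i ≠ k) (hkj : k ≠ j) (a b : F) :
    ⁅(transvection hik a : SpecialLinearGroup ι F), transvection hkj b⁆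
      = transvection hij (a * b) := by
  rw [commutatorElement_def, transvection_inv, transvection_inv]
  apply Subtype.ext
  simp only [coe_mul, transvection_coe]
  simp [mul_add, add_mul, Matrix.single_mul_single_same, Matrix.single_mul_single_of_ne,
    hij.symm, hik.symm, hkj.symm]
  ext x y
  simp only [Matrix.add_apply, Matrix.single_apply, Matrix.one_apply]
  split_ifs <;> ring

/-- The diagonal element `diag(c, c⁻¹)` in positions `i, j` is a product of six transvections. -/
theorem diag2n_eq_transvections {i j : ι} (hij : i ≠ j) (c : F) (hc : c ≠ 0) :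
    (diag2n hij c hc : SpecialLinearGroup ι F)
      = transvection hij c * transvection hij.symm (-c⁻¹) * transvection hij c *
        (transvection hij (-1) * transvection hij.symm 1 * transvection hij (-1)) := by
  apply Subtype.ext
  simp only [coe_mul, transvection_coe, diag2n_coe]
  simp [mul_add, add_mul, Matrix.single_mul_single_same, Matrix.single_mul_single_of_ne, hij,
    hij.symm, mul_inv_cancel₀ hc, inv_mul_cancel₀ hc]
  ext x y
  simp only [Matrix.add_apply, Matrix.single_apply, Matrix.one_apply, Matrix.diagonal_apply]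
  simp only [eq_comm (a := i), eq_comm (a := j)]
  by_cases hxy : x = y
  · subst hxy
    by_cases h1 : x = i
    · subst h1
      simp [hij]
    · by_cases h2 : x = j
      · subst h2
        simp [h1]
      · simp [h1, h2]
  · have e1 : ¬ (x = i ∧ y = i) := fun h => hxy (h.1.trans h.2.symm)
    have e2 : ¬ (x = j ∧ y = j) := fun h => hxy (h.1.trans h.2.symm)
    simp only [hxy, e1, e2, if_false]
    by_cases h1 : x = i ∧ y = j
    · obtain ⟨rfl, rfl⟩ := h1
      simp [hij, hij.symm]
      try ring
    · by_cases h2 : x = j ∧ y = i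
      · obtain ⟨rfl, rfl⟩ := h2
        simp [hij, hij.symm]
        try ring
      · simp only [h1, h2, if_false]
        ring

/-- In `Fin n` with `n ≥ 3` any two indices admit a third one. -/
theorem exists_third {n : ℕ} (hn : 3 ≤ n) (i j : Fin n) : ∃ k : Fin n, i ≠ k ∧ k ≠ j := by
  classical
  by_contra hcon
  push Not at hcon
  have hsub : (Finset.univ : Finset (Fin n)) ⊆ {i, j} := by
    intro k _
    by_cases hk : i = k
    · simp [hk]
    · simp [hcon k hk]
  have h1 := Finset.card_le_card hsub
  have h2 : ({i, j} : Finset (Fin n)).card ≤ 2 := Finset.card_le_two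
  rw [Finset.card_univ, Fintype.card_fin] at h1
  omega

theorem transvection_mem_commutator_of_third (h3 : ∀ i j : ι, i ≠ j → ∃ k, i ≠ k ∧ k ≠ j)
    {i j : ι} (hij : i ≠ j) (c : F) :
    (transvection hij c : SpecialLinearGroup ι F) ∈ commutator (SpecialLinearGroup ι F) := by
  obtain ⟨k, hik, hkj⟩ := h3 i j hij
  have h := comm_transvection hij hik hkj c (1 : F)
  rw [mul_one] at h
  rw [← h]
  exact Subgroup.commutator_mem_commutator (Subgroup.mem_top _) (Subgroup.mem_top _)

/-- `SL_n(F)` is perfect as soon as any two indices admit a third one. -/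
theorem commutator_SL_eq_top [Nontrivial ι] (h3 : ∀ i j : ι, i ≠ j → ∃ k, i ≠ k ∧ k ≠ j) :
    commutator (SpecialLinearGroup ι F) = ⊤ := by
  refine le_antisymm le_top (fun A _ => ?_)
  have ht : ∀ {i j : ι} (hij : i ≠ j) (c : F),
      (transvection hij c : SpecialLinearGroup ι F) ∈ commutator (SpecialLinearGroup ι F) :=
    fun hij c => transvection_mem_commutator_of_third h3 hij c
  refine diagonal_transvection_induction'
    (fun M => M ∈ commutator (SpecialLinearGroup ι F)) A ?_ ?_ ?_
  · intro i j hij c hc
    show diag2n hij c hc ∈ commutator (SpecialLinearGroup ι F)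
    rw [diag2n_eq_transvections hij c hc]
    exact mul_mem (mul_mem (mul_mem (ht _ _) (ht _ _)) (ht _ _))
      (mul_mem (mul_mem (ht _ _) (ht _ _)) (ht _ _))
  · intro i j hij a
    exact ht hij a
  · intro A B hA hB
    exact mul_mem hA hB

open scoped LinearAlgebra.Projectivization

/-- `SL_n(F)` is generated by the unipotent radicals of the point stabilisers. -/
theorem iSup_lineStab_eq_top [Nontrivial ι] :
    (⨆ p : ℙ F (ι → F), lineStab p.submodule) = (⊤ : Subgroup (SpecialLinearGroup ι F)) := by
  have ht : ∀ {i j : ι} (hij : i ≠ j) (c : F),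
      (transvection hij c : SpecialLinearGroup ι F) ∈
        ⨆ p : ℙ F (ι → F), lineStab p.submodule := by
    intro i j hij c
    have h1 := SL2Gen.transvection_mem_lineStab (F := F) hij c
    have h2 : lineStab (Submodule.span F {(Pi.single i (1 : F) : ι → F)}) ≤
        ⨆ p : ℙ F (ι → F), lineStab p.submodule := by
      rw [← Projectivization.submodule_mk (K := F) _ (Pi.single_ne_zero_iff.2 one_ne_zero)]
      exact le_iSup (fun p : ℙ F (ι → F) => lineStab p.submodule) _
    exact h2 h1
  refine le_antisymm le_top (fun A _ => ?_)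
  refine diagonal_transvection_induction'
    (fun M => M ∈ ⨆ p : ℙ F (ι → F), lineStab p.submodule) A ?_ ?_ ?_
  · intro i j hij c hc
    show diag2n hij c hc ∈ ⨆ p : ℙ F (ι → F), lineStab p.submodule
    rw [diag2n_eq_transvections hij c hc]
    exact mul_mem (mul_mem (mul_mem (ht _ _) (ht _ _)) (ht _ _))
      (mul_mem (mul_mem (ht _ _) (ht _ _)) (ht _ _))
  · intro i j hij a
    exact ht hij a
  · intro A B hA hB
    exact mul_mem hA hB

theorem iSup_iwasawaT_eq_top [Nontrivial ι] :
    iSup (PSL.iwasawaT (F := F) (ι := ι)) = ⊤ := by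
  have step1 : iSup (PSL.iwasawaT (F := F) (ι := ι)) =
      Subgroup.map (QuotientGroup.mk' (Subgroup.center (Matrix.SpecialLinearGroup ι F)))
        (⨆ p : ℙ F (ι → F),
          Matrix.SpecialLinearGroup.lineStab (F := F) (ι := ι) p.submodule) := by
    rw [Subgroup.map_iSup]
  rw [step1, iSup_lineStab_eq_top]
  exact Subgroup.map_top_of_surjective _ (QuotientGroup.mk'_surjective _)

/-- The Iwasawa structure on `PSL_n(F)` acting on projective space. -/
noncomputable def pslIwasawa [Nontrivial ι] :
    MulAction.IwasawaStructure (Matrix.ProjectiveSpecialLinearGroup ι F) (ℙ F (ι → F)) where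
  T := PSL.iwasawaT
  is_comm p := by
    have hSL : IsMulCommutative (lineStab (F := F) (ι := ι) p.submodule) := by
      rw [← Projectivization.mk_rep p, Projectivization.submodule_mk]
      exact lineStab_isMulCommutative_of_span p.rep p.rep_nonzero
    exact Subgroup.map_isMulCommutative _ _
  is_conj g p := by
    obtain ⟨g_SL, rfl⟩ := QuotientGroup.mk_surjective g
    rw [Matrix.ProjectiveSpecialLinearGroup.smul_proj_mk]
    change Subgroup.map _ _ = _
    rw [PSL.smul_submodule, Matrix.SpecialLinearGroup.lineStab_smul,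
      PSL.iwasawaT_map_conj]
  is_generator := iSup_iwasawaT_eq_top

/-- `PSL_n(F)` is simple as soon as any two indices admit a third one (`n ≥ 3`). -/
theorem psl_isSimpleGroup [Nontrivial ι] (h3 : ∀ i j : ι, i ≠ j → ∃ k, i ≠ k ∧ k ≠ j) :
    IsSimpleGroup (Matrix.ProjectiveSpecialLinearGroup ι F) := by
  have hperf : commutator (Matrix.ProjectiveSpecialLinearGroup ι F) = ⊤ := by
    have h1 : Group.IsPerfect (SpecialLinearGroup ι F) := ⟨commutator_SL_eq_top h3⟩
    have h2 : Group.IsPerfect (Matrix.ProjectiveSpecialLinearGroup ι F) := inferInstance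
    exact h2.commutator_eq_top
  exact MulAction.IwasawaStructure.isSimpleGroup hperf pslIwasawa inferInstance

theorem transvection_mem_commutatorSet_of_third (h3 : ∀ i j : ι, i ≠ j → ∃ k, i ≠ k ∧ k ≠ j)
    {i j : ι} (hij : i ≠ j) (c : F) :
    (transvection hij c : SpecialLinearGroup ι F) ∈ commutatorSet (SpecialLinearGroup ι F) := by
  obtain ⟨k, hik, hkj⟩ := h3 i j hij
  refine ⟨transvection hik c, transvection hkj 1, ?_⟩
  rw [comm_transvection hij hik hkj, mul_one]

theorem transvection_mem_commutatorSet_two (x : F) (hx0 : x ≠ 0) (hx2 : x ^ 2 ≠ 1)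
    {i j : Fin 2} (hij : i ≠ j) (c : F) :
    (transvection hij c : SpecialLinearGroup (Fin 2) F) ∈
      commutatorSet (SpecialLinearGroup (Fin 2) F) := by
  fin_cases i
  · obtain rfl : j = 1 := by fin_cases j <;> tauto
    exact ⟨_, _, Matrix.commutator_diag2_transvection x hx0 (c / (x ^ 2 - 1)) c
      (div_mul_cancel₀ c (sub_ne_zero_of_ne hx2)).symm⟩
  · obtain rfl : j = 0 := by fin_cases j <;> tauto
    have key : ∀ (b c' : F) (hc : c' = b * (x ^ 2 - 1)),
        ⁅diag2 x⁻¹ (inv_ne_zero hx0), SpecialLinearGroup.transvection one_ne_zero b⁆ =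
        (SpecialLinearGroup.transvection one_ne_zero c' : SpecialLinearGroup (Fin 2) F) := by
      intro b c' hc
      rw [commutatorElement_def, diag2_inv x⁻¹ (inv_ne_zero hx0),
        SpecialLinearGroup.transvection_inv one_ne_zero b]
      refine Subtype.ext <| Matrix.ext fun i j ↦ ?_
      fin_cases i <;> fin_cases j <;>
      simp [hc, SpecialLinearGroup.transvection_coe, diag2_coe, inv_inv, mul_add, add_mul,
        mul_inv_cancel₀ hx0, inv_mul_cancel₀ hx0, mul_comm x b, mul_assoc b x x, ← pow_two,
        mul_sub_one, ← sub_eq_add_neg]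
    exact ⟨_, _, key (c / (x ^ 2 - 1)) c (div_mul_cancel₀ c (sub_ne_zero_of_ne hx2)).symm⟩

end Cfsg.Agent.Helper4
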