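import Mathlib
import Cfsg.Prelude.Def_LocalEven

set_option autoImplicit false

namespace Cfsg.Agent.Helper4

/-- If all `p`-subgroups of `H` are abelian, so are those of any quotient of `H`. -/
theorem pSubgroups_commute_quotient {H : Type*} [Group H] [Finite H] (p : ℕ) [Fact p.Prime]
    (R : Subgroup H) [R.Normal]
    (h : ∀ Q : Subgroup H, IsPGroup p Q → ∀ x ∈ Q, ∀ y ∈ Q, x * y = y * x) :
    ∀ Q : Subgroup (H ⧸ R), IsPGroup p Q → ∀ x ∈ Q, ∀ y ∈ Q, x * y = y * x := by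
  intro Q hQ x hx y hy
  have hsurj : Function.Surjective ((QuotientGroup.mk' R).subgroupComap Q) :=
    MonoidHom.subgroupComap_surjective_of_surjective _ _ (QuotientGroup.mk'_surjective R)
  obtain ⟨S, -⟩ := (IsPGroup.of_bot (p := p) (G := ↥(Q.comap (QuotientGroup.mk' R)))).exists_le_sylow
  have h1 : ((S : Subgroup ↥(Q.comap (QuotientGroup.mk' R))).map
      ((QuotientGroup.mk' R).subgroupComap Q)).index ∣ (S : Subgroup ↥(Q.comap (QuotientGroup.mk' R))).index :=
    Subgroup.index_map_dvd _ hsurj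
  have h2 : ¬ p ∣ (S : Subgroup ↥(Q.comap (QuotientGroup.mk' R))).index := S.not_dvd_index
  obtain ⟨n, hn⟩ := hQ.index ((S : Subgroup ↥(Q.comap (QuotientGroup.mk' R))).map
      ((QuotientGroup.mk' R).subgroupComap Q))
  have hn0 : n = 0 := by
    by_contra hne
    apply h2
    refine dvd_trans ?_ h1
    rw [hn]
    exact dvd_pow_self p hne
  rw [hn0, pow_zero, Subgroup.index_eq_one] at hn
  have hxm : (⟨x, hx⟩ : Q) ∈ (S : Subgroup ↥(Q.comap (QuotientGroup.mk' R))).map
      ((QuotientGroup.mk' R).subgroupComap Q) := by rw [hn]; exact Subgroup.mem_top _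
  have hym : (⟨y, hy⟩ : Q) ∈ (S : Subgroup ↥(Q.comap (QuotientGroup.mk' R))).map
      ((QuotientGroup.mk' R).subgroupComap Q) := by rw [hn]; exact Subgroup.mem_top _
  obtain ⟨s, hsS, hs⟩ := hxm
  obtain ⟨t, htS, ht⟩ := hym
  have hSp : IsPGroup p ((S : Subgroup ↥(Q.comap (QuotientGroup.mk' R))).map
      (Q.comap (QuotientGroup.mk' R)).subtype) := S.isPGroup'.map _
  have hst := h _ hSp (s : H) ⟨s, hsS, rfl⟩ (t : H) ⟨t, htS, rfl⟩
  have hs' : (QuotientGroup.mk' R) (s : H) = x := congrArg Subtype.val hs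
  have ht' : (QuotientGroup.mk' R) (t : H) = y := congrArg Subtype.val ht
  rw [← hs', ← ht', ← map_mul, ← map_mul, hst]

/-- If all `p`-subgroups of `G` are abelian, so are those of any group involved in `G`. -/
theorem pSubgroups_commute_of_involves {G : Type*} [Group G] [Finite G] {H : Type*} [Group H]
    (p : ℕ) [Fact p.Prime]
    (h : ∀ Q : Subgroup G, IsPGroup p Q → ∀ x ∈ Q, ∀ y ∈ Q, x * y = y * x)
    (hinv : Cfsg.Involves H G) :
    ∀ Q : Subgroup H, IsPGroup p Q → ∀ x ∈ Q, ∀ y ∈ Q, x * y = y * x := by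
  obtain ⟨K, R, hn, ⟨e⟩⟩ := hinv
  have hK : ∀ Q : Subgroup K, IsPGroup p Q → ∀ x ∈ Q, ∀ y ∈ Q, x * y = y * x := by
    intro Q hQ x hx y hy
    have h1 := h (Q.map K.subtype) (hQ.map _) (x : G) ⟨x, hx, rfl⟩ (y : G) ⟨y, hy, rfl⟩
    exact Subtype.ext h1
  have hKR := pSubgroups_commute_quotient p (R.subgroupOf K) hK
  intro Q hQ x hx y hy
  have hQ' : IsPGroup p (Q.comap e.toMonoidHom) := hQ.comap_of_injective _ e.injective
  have h1 := hKR _ hQ' (e.symm x) (by
    show e.toMonoidHom (e.symm x) ∈ Q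
    rw [MulEquiv.coe_toMonoidHom, MulEquiv.apply_symm_apply]; exact hx) (e.symm y) (by
    show e.toMonoidHom (e.symm y) ∈ Q
    rw [MulEquiv.coe_toMonoidHom, MulEquiv.apply_symm_apply]; exact hy)
  have h2 := congrArg e h1
  rw [map_mul, map_mul, MulEquiv.apply_symm_apply, MulEquiv.apply_symm_apply] at h2
  exact h2

end Cfsg.Agent.Helper4
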