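import Mathlib
import Cfsg.Agent.Helper3.PComp
import Cfsg.Agent.Helper8.GroupFusion
import Cfsg.Agent.Helper4.Alperin

set_option autoImplicit false

universe u

namespace Cfsg.Agent.Helper4

/-- If `G/D` is perfect, the intersection of two normal supplements of `D` is a supplement. -/
theorem inf_sup_eq_top_of_perfect {G : Type*} [Group G] (D N₁ N₂ : Subgroup G) [D.Normal]
    [N₁.Normal] [N₂.Normal]
    (hperf : ⁅(⊤ : Subgroup G), (⊤ : Subgroup G)⁆ ⊔ D = ⊤) (h₁ : N₁ ⊔ D = ⊤) (h₂ : N₂ ⊔ D = ⊤) :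
    (N₁ ⊓ N₂) ⊔ D = ⊤ := by
  have hKn : ((N₁ ⊓ N₂) ⊔ D).Normal := inferInstance
  have hsurj := QuotientGroup.mk'_surjective ((N₁ ⊓ N₂) ⊔ D)
  have hker : (QuotientGroup.mk' ((N₁ ⊓ N₂) ⊔ D)).ker = (N₁ ⊓ N₂) ⊔ D := QuotientGroup.ker_mk' _
  have hmapK : ∀ L : Subgroup G, L ≤ (N₁ ⊓ N₂) ⊔ D →
      L.map (QuotientGroup.mk' ((N₁ ⊓ N₂) ⊔ D)) = ⊥ := by
    intro L hL
    rw [(Subgroup.map_eq_bot_iff L), hker]; exact hL
  have hmap₁ : N₁.map (QuotientGroup.mk' ((N₁ ⊓ N₂) ⊔ D)) = ⊤ := by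
    have h := congrArg (Subgroup.map (QuotientGroup.mk' ((N₁ ⊓ N₂) ⊔ D))) h₁
    rw [Subgroup.map_sup, hmapK D le_sup_right, sup_bot_eq,
      Subgroup.map_top_of_surjective _ hsurj] at h
    exact h
  have hmap₂ : N₂.map (QuotientGroup.mk' ((N₁ ⊓ N₂) ⊔ D)) = ⊤ := by
    have h := congrArg (Subgroup.map (QuotientGroup.mk' ((N₁ ⊓ N₂) ⊔ D))) h₂
    rw [Subgroup.map_sup, hmapK D le_sup_right, sup_bot_eq,
      Subgroup.map_top_of_surjective _ hsurj] at h
    exact h
  have hcomm : (⁅(⊤ : Subgroup G), (⊤ : Subgroup G)⁆).map (QuotientGroup.mk' ((N₁ ⊓ N₂) ⊔ D)) = ⊥ := by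
    rw [Subgroup.map_commutator, Subgroup.map_top_of_surjective _ hsurj]
    have h3 : ⁅(⊤ : Subgroup (G ⧸ ((N₁ ⊓ N₂) ⊔ D))), ⊤⁆
        = ⁅N₁.map (QuotientGroup.mk' ((N₁ ⊓ N₂) ⊔ D)), N₂.map (QuotientGroup.mk' ((N₁ ⊓ N₂) ⊔ D))⁆ := by
      rw [hmap₁, hmap₂]
    rw [h3, ← Subgroup.map_commutator]
    exact hmapK _ ((Subgroup.commutator_le_inf N₁ N₂).trans le_sup_left)
  have hle : ⁅(⊤ : Subgroup G), (⊤ : Subgroup G)⁆ ≤ (N₁ ⊓ N₂) ⊔ D := by
    have h := (Subgroup.map_eq_bot_iff _).mp hcomm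
    rwa [hker] at h
  rw [eq_top_iff, ← hperf]
  exact sup_le hle le_sup_right

/-- If `G/D` is perfect there is a least normal supplement of `D`. -/
theorem exists_least_normal_supplement {G : Type*} [Group G] [Finite G] (D : Subgroup G) [D.Normal]
    (hperf : ⁅(⊤ : Subgroup G), (⊤ : Subgroup G)⁆ ⊔ D = ⊤) :
    ∃ B : Subgroup G, B.Normal ∧ B ⊔ D = ⊤ ∧ ∀ N : Subgroup G, N.Normal → N ⊔ D = ⊤ → B ≤ N := by
  classical
  have hex : ∃ k, ∃ N : Subgroup G, N.Normal ∧ N ⊔ D = ⊤ ∧ Nat.card N = k :=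
    ⟨_, ⊤, inferInstance, top_sup_eq _, rfl⟩
  obtain ⟨B, hBn, hBD, hBk⟩ := Nat.find_spec hex
  refine ⟨B, hBn, hBD, fun N hNn hND => ?_⟩
  have h1 : (B ⊓ N) ⊔ D = ⊤ := inf_sup_eq_top_of_perfect D B N hperf hBD hND
  have h2 : Nat.find hex ≤ Nat.card (B ⊓ N : Subgroup G) :=
    Nat.find_min' hex ⟨B ⊓ N, inferInstance, h1, rfl⟩
  have h3 : B ⊓ N = B := Subgroup.eq_of_le_of_card_ge inf_le_left (by rw [hBk]; exact h2)
  rw [← h3]; exact inf_le_right

/-- Dedekind: if `B' ≤ N` and `B' D = G` with `D` normal then `N = B' (D ∩ N)`. -/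
theorem sup_inf_eq_of_le_of_sup_eq_top {G : Type*} [Group G] (D N B' : Subgroup G) [D.Normal]
    (hB'N : B' ≤ N) (hB'D : B' ⊔ D = ⊤) : B' ⊔ (D ⊓ N) = N := by
  apply le_antisymm (sup_le hB'N inf_le_right)
  intro x hx
  have hx' : x ∈ B' ⊔ D := by rw [hB'D]; trivial
  have hnorm : B' ≤ Subgroup.normalizer (D : Set G) := by
    rw [Subgroup.normalizer_eq_top]; exact le_top
  obtain ⟨b, hb, d, hd, rfl⟩ := Helper8.mem_sup_of_le_normalizer hnorm hx'
  refine Subgroup.mul_mem _ (Subgroup.mem_sup_left hb) (Subgroup.mem_sup_right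
    (Subgroup.mem_inf.mpr ⟨hd, ?_⟩))
  have h3 : d = b⁻¹ * (b * d) := by group
  rw [h3]
  exact N.mul_mem (N.inv_mem (hB'N hb)) hx

/-- If `G/D` is perfect and `N D = G` then `N = N' (D ∩ N)`. -/
theorem commutator_sup_inf_eq_of_perfect {G : Type*} [Group G] (D N : Subgroup G) [D.Normal]
    (hperf : ⁅(⊤ : Subgroup G), (⊤ : Subgroup G)⁆ ⊔ D = ⊤) (hND : N ⊔ D = ⊤) :
    ⁅N, N⁆ ⊔ (D ⊓ N) = N := by
  have hsurj := QuotientGroup.mk'_surjective D
  have hker : (QuotientGroup.mk' D).ker = D := QuotientGroup.ker_mk' _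
  have hmapD : D.map (QuotientGroup.mk' D) = ⊥ := by
    rw [(Subgroup.map_eq_bot_iff D), hker]
  have hmapN : N.map (QuotientGroup.mk' D) = ⊤ := by
    have h := congrArg (Subgroup.map (QuotientGroup.mk' D)) hND
    rw [Subgroup.map_sup, hmapD, sup_bot_eq, Subgroup.map_top_of_surjective _ hsurj] at h
    exact h
  have hQperf : ⁅(⊤ : Subgroup (G ⧸ D)), (⊤ : Subgroup (G ⧸ D))⁆ = ⊤ := by
    have h := congrArg (Subgroup.map (QuotientGroup.mk' D)) hperf
    rw [Subgroup.map_sup, hmapD, sup_bot_eq, Subgroup.map_commutator,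
      Subgroup.map_top_of_surjective _ hsurj] at h
    exact h
  have hmapc : (⁅N, N⁆).map (QuotientGroup.mk' D) = ⊤ := by
    rw [Subgroup.map_commutator, hmapN, hQperf]
  have hcN : ⁅N, N⁆ ≤ N := by
    rw [Subgroup.commutator_le]
    intro a ha b hb
    rw [commutatorElement_def]
    exact N.mul_mem (N.mul_mem (N.mul_mem ha hb) (N.inv_mem ha)) (N.inv_mem hb)
  apply le_antisymm (sup_le hcN inf_le_right)
  intro x hx
  have hx' : QuotientGroup.mk' D x ∈ (⁅N, N⁆).map (QuotientGroup.mk' D) := by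
    rw [hmapc]; trivial
  obtain ⟨c, hc, hcx⟩ := hx'
  have h4 : ((c : G) : G ⧸ D) = ((x : G) : G ⧸ D) := hcx
  have h5 : c⁻¹ * x ∈ D := QuotientGroup.eq.mp h4
  have h6 : x = c * (c⁻¹ * x) := by group
  rw [h6]
  exact Subgroup.mul_mem _ (Subgroup.mem_sup_left hc) (Subgroup.mem_sup_right
    (Subgroup.mem_inf.mpr ⟨h5, N.mul_mem (N.inv_mem (hcN hc)) hx⟩))

theorem map_subtype_top' {G : Type*} [Group G] (N : Subgroup G) :
    (⊤ : Subgroup N).map N.subtype = N := by
  rw [← MonoidHom.range_eq_map, Subgroup.range_subtype]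

/-- The least subnormal supplement: if `G/D` is perfect then there is a normal subgroup `B` with
`B D = G` contained in every subnormal supplement of `D`. -/
theorem exists_least_subnormal_supplement : ∀ (n : ℕ) {G : Type u} [Group G] [Finite G]
    (D : Subgroup G) [D.Normal], Nat.card G = n →
    ⁅(⊤ : Subgroup G), (⊤ : Subgroup G)⁆ ⊔ D = ⊤ →
    ∃ B : Subgroup G, B.Normal ∧ B ⊔ D = ⊤ ∧
      ∀ B' : Subgroup G, B'.IsSubnormal → B' ⊔ D = ⊤ → B ≤ B' := by
  intro n
  induction n using Nat.strong_induction_on with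
  | _ n ih =>
    intro G _ _ D _ hn hperf
    obtain ⟨B, hBn, hBD, hBmin⟩ := exists_least_normal_supplement D hperf
    refine ⟨B, hBn, hBD, fun B' hB'sn hB'D => ?_⟩
    by_cases hB'top : B' = ⊤
    · rw [hB'top]; exact le_top
    obtain ⟨N, hNn, hB'N, hNlt⟩ := hB'sn.exists_normal_and_le_and_lt_top_of_ne hB'top
    have hcard : Nat.card N < n := by
      rw [← hn, ← Subgroup.card_top (G := G)]
      exact card_lt_of_lt hNlt
    have hND : N ⊔ D = ⊤ := by
      rw [eq_top_iff, ← hB'D]; exact sup_le_sup_right hB'N D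
    have hperfN : ⁅(⊤ : Subgroup N), (⊤ : Subgroup N)⁆ ⊔ D.subgroupOf N = ⊤ := by
      apply Subgroup.map_injective N.subtype_injective
      rw [Subgroup.map_sup, Subgroup.subgroupOf_map_subtype, map_subtype_top']
      have h7 : (⁅(⊤ : Subgroup N), (⊤ : Subgroup N)⁆).map N.subtype = ⁅N, N⁆ := by
        rw [Subgroup.map_commutator, map_subtype_top']
      rw [h7]
      exact commutator_sup_inf_eq_of_perfect D N hperf hND
    obtain ⟨C, hCn, hCD, hCmin⟩ := ih (Nat.card N) hcard (D.subgroupOf N) rfl hperfN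
    -- `C ≤ B'`
    have hB''D : B'.subgroupOf N ⊔ D.subgroupOf N = ⊤ := by
      apply Subgroup.map_injective N.subtype_injective
      rw [Subgroup.map_sup, Subgroup.subgroupOf_map_subtype, Subgroup.subgroupOf_map_subtype,
        map_subtype_top', inf_eq_left.mpr hB'N]
      exact sup_inf_eq_of_le_of_sup_eq_top D N B' hB'N hB'D
    have hCB' : C.map N.subtype ≤ B' := by
      have h8 := hCmin _ (hB'sn.subgroupOf) hB''D
      have h9 := Subgroup.map_mono (f := N.subtype) h8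
      rw [Subgroup.subgroupOf_map_subtype] at h9
      exact h9.trans inf_le_left
    -- invariance of `C` under conjugation by `G`
    have hDinv : ∀ g : G, (D.subgroupOf N).map (MulAut.conjNormal g : N ≃* N).toMonoidHom
        ≤ D.subgroupOf N := by
      rintro g _ ⟨d, hd, rfl⟩
      have hd' : (d : G) ∈ D := hd
      show ((MulAut.conjNormal g d : N) : G) ∈ D
      rw [MulAut.conjNormal_apply]
      exact (inferInstance : D.Normal).conj_mem _ hd' g
    have hCinv : ∀ g : G, C.map (MulAut.conjNormal g : N ≃* N).toMonoidHom = C := by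
      intro g
      have hsur : Function.Surjective ((MulAut.conjNormal g : N ≃* N).toMonoidHom) :=
        (MulAut.conjNormal g : N ≃* N).surjective
      have hn1 : (C.map (MulAut.conjNormal g : N ≃* N).toMonoidHom).Normal :=
        hCn.map _ hsur
      have hs1 : C.map (MulAut.conjNormal g : N ≃* N).toMonoidHom ⊔ D.subgroupOf N = ⊤ := by
        rw [eq_top_iff]
        have h10 := congrArg (Subgroup.map (MulAut.conjNormal g : N ≃* N).toMonoidHom) hCD
        rw [Subgroup.map_sup, Subgroup.map_top_of_surjective _ hsur] at h10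
        rw [← h10]
        exact sup_le_sup_left (hDinv g) _
      have h11 := hCmin _ hn1.isSubnormal hs1
      have hcardeq : Nat.card (C.map (MulAut.conjNormal g : N ≃* N).toMonoidHom) = Nat.card C :=
        Subgroup.card_map_of_injective (K := C) (f := (MulAut.conjNormal g : N ≃* N).toMonoidHom)
          (MulAut.conjNormal g : N ≃* N).injective
      exact (Subgroup.eq_of_le_of_card_ge h11 hcardeq.le).symm
    have hC'n : (C.map N.subtype).Normal := by
      refine ⟨fun c hc g => ?_⟩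
      obtain ⟨b, hb, rfl⟩ := hc
      have h12 : (MulAut.conjNormal g : N ≃* N).toMonoidHom b ∈ C := by
        have h13 : (MulAut.conjNormal g : N ≃* N).toMonoidHom b ∈
            C.map (MulAut.conjNormal g : N ≃* N).toMonoidHom := ⟨b, hb, rfl⟩
        rwa [hCinv g] at h13
      refine ⟨_, h12, ?_⟩
      show ((MulAut.conjNormal g b : N) : G) = g * (b : G) * g⁻¹
      rw [MulAut.conjNormal_apply]
    have hC'D : C.map N.subtype ⊔ D = ⊤ := by
      rw [eq_top_iff, ← hND]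
      have h14 := congrArg (Subgroup.map N.subtype) hCD
      rw [Subgroup.map_sup, Subgroup.subgroupOf_map_subtype, map_subtype_top'] at h14
      refine sup_le ?_ le_sup_right
      calc N = C.map N.subtype ⊔ D ⊓ N := h14.symm
        _ ≤ C.map N.subtype ⊔ D := sup_le_sup_left inf_le_left _
    exact (hBmin _ hC'n hC'D).trans hCB'

end Cfsg.Agent.Helper4
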