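import Mathlib
import Cfsg.Agent.Helper7.Conj
import Cfsg.Agent.Helper7.SylowMore
import Cfsg.Agent.Helper4.Basic
import Cfsg.Agent.Helper4.ClassSize

set_option autoImplicit false

namespace Cfsg.Agent.Helper4

theorem cent_index_eq_one_iff {G : Type*} [Group G] (x : G) :
    (Subgroup.centralizer ({x} : Set G)).index = 1 ↔ x ∈ Subgroup.center G := by
  rw [Subgroup.index_eq_one, Subgroup.centralizer_eq_top_iff_subset, Set.singleton_subset_iff]
  exact SetLike.mem_coe

theorem eq_of_le_of_index_eq' {G : Type*} [Group G] [Finite G] {H K : Subgroup G} (h : H ≤ K)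
    (hi : H.index = K.index) : H = K := by
  have h1 := Subgroup.relIndex_mul_index h
  rw [hi] at h1
  have hK : K.index ≠ 0 := Subgroup.index_ne_zero_of_finite
  have h2 : H.relIndex K = 1 := by
    have : H.relIndex K * K.index = 1 * K.index := by rw [h1, one_mul]
    exact Nat.eq_of_mul_eq_mul_right (Nat.pos_of_ne_zero hK) this
  exact le_antisymm h (Subgroup.relIndex_eq_one.mp h2)

/-- In a nonabelian finite `p`-group there is a noncentral element `z` of the second centre
with `z ^ p` central. -/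
theorem exists_second_center_elt {P : Type*} [Group P] [Finite P] {p : ℕ} [Fact p.Prime]
    (hP : IsPGroup p P) (hne : Subgroup.center P ≠ ⊤) :
    ∃ z : P, z ∉ Subgroup.center P ∧ z ^ p ∈ Subgroup.center P ∧
      ∀ g : P, g * z * g⁻¹ * z⁻¹ ∈ Subgroup.center P := by
  have hQ : IsPGroup p (P ⧸ Subgroup.center P) := hP.to_quotient _
  haveI : Nontrivial (P ⧸ Subgroup.center P) := by
    rw [← Finite.one_lt_card_iff_nontrivial]
    have h1 : (Subgroup.center P).index ≠ 1 := fun h => hne (Subgroup.index_eq_one.mp h)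
    have h0 : (Subgroup.center P).index ≠ 0 := Subgroup.index_ne_zero_of_finite
    have : Nat.card (P ⧸ Subgroup.center P) = (Subgroup.center P).index := rfl
    omega
  haveI hnt := hQ.center_nontrivial
  have hZp : IsPGroup p (Subgroup.center (P ⧸ Subgroup.center P)) := hQ.to_subgroup _
  have hdvd : p ∣ Nat.card (Subgroup.center (P ⧸ Subgroup.center P)) := by
    rcases hZp.card_eq_or_dvd with h | h
    · exfalso
      have := Finite.one_lt_card_iff_nontrivial.mpr hnt
      omega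
    · exact h
  obtain ⟨ζ, hζ⟩ := exists_prime_orderOf_dvd_card' p hdvd
  obtain ⟨z, hz⟩ := QuotientGroup.mk_surjective (ζ : P ⧸ Subgroup.center P)
  have hζne : (ζ : P ⧸ Subgroup.center P) ≠ 1 := by
    intro h
    have : ζ = 1 := Subtype.ext h
    rw [this, orderOf_one] at hζ
    exact (Fact.out : p.Prime).one_lt.ne hζ
  refine ⟨z, ?_, ?_, ?_⟩
  · intro hzc
    apply hζne
    rw [← hz]
    exact (QuotientGroup.eq_one_iff z).mpr hzc
  · rw [← QuotientGroup.eq_one_iff, QuotientGroup.mk_pow, hz]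
    have : ζ ^ p = 1 := by rw [← hζ]; exact pow_orderOf_eq_one ζ
    exact_mod_cast congrArg Subtype.val this
  · intro g
    rw [← QuotientGroup.eq_one_iff]
    simp only [QuotientGroup.mk_mul, QuotientGroup.mk_inv, hz]
    have hc := Subgroup.mem_center_iff.mp ζ.2 (g : P ⧸ Subgroup.center P)
    rw [hc]; group

theorem prod_pow_mul_reindex {M : Type*} [Monoid M] {A : Type*} [CommMonoid A] (ψ : M)
    (r k : ℕ) (hr : r.Prime) (hψ : ψ ^ r = 1) (hk0 : 0 < k) (hkr : k < r) (f : M → A) :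
    ∏ j ∈ Finset.range r, f (ψ ^ (j * k)) = ∏ j ∈ Finset.range r, f (ψ ^ j) := by
  have hcop : Nat.Coprime r k :=
    (Nat.Prime.coprime_iff_not_dvd hr).mpr (Nat.not_dvd_of_pos_of_lt hk0 hkr)
  have hmaps : Set.MapsTo (fun j => (j * k) % r) (Finset.range r : Set ℕ)
      (Finset.range r : Set ℕ) := by
    intro j _
    exact Finset.mem_coe.mpr (Finset.mem_range.mpr (Nat.mod_lt _ hr.pos))
  have hinj : Set.InjOn (fun j => (j * k) % r) (Finset.range r : Set ℕ) := by
    intro j₁ h₁ j₂ h₂ h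
    have h₁' := Finset.mem_range.mp (Finset.mem_coe.mp h₁)
    have h₂' := Finset.mem_range.mp (Finset.mem_coe.mp h₂)
    have h3 : j₁ * k ≡ j₂ * k [MOD r] := h
    have h4 : j₁ ≡ j₂ [MOD r] := Nat.ModEq.cancel_right_of_coprime hcop h3
    exact Nat.ModEq.eq_of_lt_of_lt h4 h₁' h₂'
  apply Finset.prod_nbij (fun j => (j * k) % r)
  · intro j _; exact Finset.mem_range.mpr (Nat.mod_lt _ hr.pos)
  · exact hinj
  · exact Finset.surjOn_of_injOn_of_card_le _ hmaps hinj le_rfl
  · intro j _; rw [pow_eq_pow_mod (j * k) hψ]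

/-- A rank two elementary abelian `r`-group of automorphisms of an abelian group `A`, all of
whose nonidentity elements have their fixed points in `Z₀`, forces `a ^ r ∈ Z₀`. -/
theorem frob_abelian_pow_mem {A : Type*} [CommGroup A] (r : ℕ) (hr : r.Prime)
    (φ ψ : Monoid.End A) (hcomm : Commute φ ψ) (hφ : φ ^ r = 1) (hψ : ψ ^ r = 1)
    (Z₀ : Subgroup A) (hφZ : ∀ a ∈ Z₀, φ a = a) (hψfix : ∀ a, ψ a = a → a ∈ Z₀)
    (hfix : ∀ j < r, ∀ a, (φ * ψ ^ j) a = a → a ∈ Z₀) : ∀ a : A, a ^ r ∈ Z₀ := by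
  intro a
  have hnorm : ∀ θ : Monoid.End A, θ ^ r = 1 →
      θ (∏ k ∈ Finset.range r, (θ ^ k) a) = ∏ k ∈ Finset.range r, (θ ^ k) a := by
    intro θ hθ
    rw [map_prod]
    have h1 : ∀ k, θ ((θ ^ k) a) = (θ ^ (k + 1)) a := by
      intro k; rw [pow_succ']; rfl
    simp only [h1]
    have h2 := Finset.prod_range_succ' (fun k => (θ ^ k) a) r
    have h3 := Finset.prod_range_succ (fun k => (θ ^ k) a) r
    rw [h3] at h2
    simp only [hθ, pow_zero] at h2
    exact (mul_right_cancel h2).symm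
  have hφZ' : ∀ k : ℕ, ∀ z ∈ Z₀, (φ ^ k) z = z := by
    intro k
    induction k with
    | zero => intro z _; rfl
    | succ k ih =>
      intro z hz
      rw [pow_succ]
      show (φ ^ k) (φ z) = z
      rw [hφZ z hz, ih z hz]
  set M : A := ∏ k ∈ Finset.range r, (ψ ^ k) a with hM
  have hMZ : M ∈ Z₀ := hψfix _ (hnorm ψ hψ)
  have hθ : ∀ j, (φ * ψ ^ j) ^ r = 1 := by
    intro j
    rw [(hcomm.pow_right j).mul_pow r, hφ, one_mul, ← pow_mul, mul_comm, pow_mul, hψ, one_pow]
  have hNZ : ∀ j ∈ Finset.range r, ∏ k ∈ Finset.range r, ((φ * ψ ^ j) ^ k) a ∈ Z₀ := by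
    intro j hj
    exact hfix j (Finset.mem_range.mp hj) _ (hnorm _ (hθ j))
  have hprodZ : ∏ j ∈ Finset.range r, ∏ k ∈ Finset.range r, ((φ * ψ ^ j) ^ k) a ∈ Z₀ :=
    Subgroup.prod_mem Z₀ hNZ
  obtain ⟨r', rfl⟩ : ∃ r', r = r' + 1 := ⟨r - 1, by have := hr.pos; omega⟩
  have hid : ∏ j ∈ Finset.range (r' + 1), ∏ k ∈ Finset.range (r' + 1), ((φ * ψ ^ j) ^ k) a =
      M ^ r' * a ^ (r' + 1) := by
    rw [Finset.prod_comm, Finset.prod_range_succ']
    congr 1
    · have : ∀ k ∈ Finset.range r',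
          ∏ j ∈ Finset.range (r' + 1), ((φ * ψ ^ j) ^ (k + 1)) a = M := by
        intro k hk
        have hk' := Finset.mem_range.mp hk
        have h1 : ∀ j, ((φ * ψ ^ j) ^ (k + 1)) a = (φ ^ (k + 1)) ((ψ ^ (j * (k + 1))) a) := by
          intro j
          rw [(hcomm.pow_right j).mul_pow (k + 1), ← pow_mul]
          rfl
        simp only [h1]
        rw [← map_prod]
        have h2 : ∏ j ∈ Finset.range (r' + 1), (ψ ^ (j * (k + 1))) a =
            ∏ j ∈ Finset.range (r' + 1), (ψ ^ j) a :=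
          prod_pow_mul_reindex ψ (r' + 1) (k + 1) hr hψ (Nat.succ_pos k) (by omega)
            (fun θ : Monoid.End A => θ a)
        rw [h2]
        exact hφZ' (k + 1) M hMZ
      rw [Finset.prod_congr rfl this, Finset.prod_const, Finset.card_range]
    · simp
  rw [hid] at hprodZ
  have : a ^ (r' + 1) = (M ^ r')⁻¹ * (M ^ r' * a ^ (r' + 1)) := by group
  rw [this]
  exact Z₀.mul_mem (Z₀.inv_mem (Z₀.pow_mem hMZ r')) hprodZ

end Cfsg.Agent.Helper4
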