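import Mathlib
import Cfsg.Agent.Helper4.TwoClass

set_option autoImplicit false

namespace Cfsg.Agent.Helper4

/-- conjugation by an element normalizing `C`, as an endomorphism of `C`. -/
def conjEnd {G : Type*} [Group G] (C : Subgroup G) (g : G) (hg : ∀ c ∈ C, g * c * g⁻¹ ∈ C) :
    Monoid.End ↥C where
  toFun c := ⟨g * c * g⁻¹, hg c c.2⟩
  map_one' := Subtype.ext (by simp)
  map_mul' a b := Subtype.ext (by simp [mul_assoc])

theorem conjEnd_pow_coe {G : Type*} [Group G] (C : Subgroup G) (g : G)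
    (hg : ∀ c ∈ C, g * c * g⁻¹ ∈ C) (k : ℕ) (c : ↥C) :
    ((((conjEnd C g hg) ^ k) c : ↥C) : G) = g ^ k * c * (g ^ k)⁻¹ := by
  induction k generalizing c with
  | zero => simp
  | succ k ih =>
    rw [pow_succ]
    show ((((conjEnd C g hg) ^ k) ((conjEnd C g hg) c) : ↥C) : G) = _
    rw [ih]
    show g ^ k * (g * c * g⁻¹) * (g ^ k)⁻¹ = _
    rw [pow_succ, mul_inv_rev]
    simp [mul_assoc]

theorem coprime_orderOf_of_pow {G : Type*} [Group G] {x u : G} {r s k l : ℕ} (hr : r.Prime)
    (hs : s.Prime) (hrs : r ≠ s) (hx : x ^ (r ^ k) = 1) (hu : u ^ (s ^ l) = 1) :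
    (orderOf x).Coprime (orderOf u) := by
  have h1 : orderOf x ∣ r ^ k := orderOf_dvd_of_pow_eq_one hx
  have h2 : orderOf u ∣ s ^ l := orderOf_dvd_of_pow_eq_one hu
  have h3 : (r ^ k).Coprime (s ^ l) := Nat.Coprime.pow k l ((Nat.coprime_primes hr hs).mpr hrs)
  exact Nat.Coprime.coprime_dvd_left h1 (Nat.Coprime.coprime_dvd_right h2 h3)

section twoclass

variable {G : Type*} [Group G] [Finite G] {n : ℕ}

theorem tc_index_eq
    (hcls : ∀ x : G, (Subgroup.centralizer ({x} : Set G)).index = 1 ∨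
      (Subgroup.centralizer ({x} : Set G)).index = n)
    {x : G} (hx : x ∉ Subgroup.center G) : (Subgroup.centralizer ({x} : Set G)).index = n := by
  rcases hcls x with h | h
  · exact absurd ((cent_index_eq_one_iff x).mp h) hx
  · exact h

theorem tc_cent_eq_of_le
    (hcls : ∀ x : G, (Subgroup.centralizer ({x} : Set G)).index = 1 ∨
      (Subgroup.centralizer ({x} : Set G)).index = n)
    {x y : G} (hx : x ∉ Subgroup.center G) (hy : y ∉ Subgroup.center G)
    (h : Subgroup.centralizer ({x} : Set G) ≤ Subgroup.centralizer ({y} : Set G)) :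
    Subgroup.centralizer ({x} : Set G) = Subgroup.centralizer ({y} : Set G) :=
  eq_of_le_of_index_eq' h (by rw [tc_index_eq hcls hx, tc_index_eq hcls hy])

theorem tc_step2
    (hcls : ∀ x : G, (Subgroup.centralizer ({x} : Set G)).index = 1 ∨
      (Subgroup.centralizer ({x} : Set G)).index = n)
    {x y : G} (hx : x ∉ Subgroup.center G) (hcomm : Commute x y)
    (hco : (orderOf x).Coprime (orderOf y)) :
    Subgroup.centralizer ({x} : Set G) ≤ Subgroup.centralizer ({y} : Set G) := by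
  have hle := centralizer_mul_le_of_coprime x y hcomm hco
  have hxy : x * y ∉ Subgroup.center G := by
    intro hc
    apply hx
    have h1 : Subgroup.centralizer ({x * y} : Set G) = ⊤ := by
      rw [Subgroup.centralizer_eq_top_iff_subset, Set.singleton_subset_iff]; exact hc
    have h2 : Subgroup.centralizer ({x} : Set G) = ⊤ := by
      rw [eq_top_iff, ← h1]; exact hle.trans inf_le_left
    rw [Subgroup.centralizer_eq_top_iff_subset, Set.singleton_subset_iff] at h2
    exact h2
  have heq := tc_cent_eq_of_le hcls hxy hx (hle.trans inf_le_left)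
  rw [← heq]; exact hle.trans inf_le_right

theorem tc_abelian
    (hcls : ∀ x : G, (Subgroup.centralizer ({x} : Set G)).index = 1 ∨
      (Subgroup.centralizer ({x} : Set G)).index = n)
    {r s : ℕ} (hr : r.Prime) (hs : s.Prime) (hrs : r ≠ s) {x u : G} {k l : ℕ}
    (hx : x ∉ Subgroup.center G) (hxr : x ^ (r ^ k) = 1) (hu : u ∉ Subgroup.center G)
    (hus : u ^ (s ^ l) = 1) (hcomm : Commute x u) :
    Subgroup.centralizer ({x} : Set G) = Subgroup.centralizer ({u} : Set G) ∧
      ∀ c ∈ Subgroup.centralizer ({x} : Set G), ∀ d ∈ Subgroup.centralizer ({x} : Set G),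
        c * d = d * c := by
  have hco := coprime_orderOf_of_pow hr hs hrs hxr hus
  have heq := tc_cent_eq_of_le hcls hx hu (tc_step2 hcls hx hcomm hco)
  refine ⟨heq, ?_⟩
  intro c hc d hd
  obtain ⟨c₁, c₂, a, hcc, -, hc1, hc2, hc1z, hc2z⟩ :=
    Cfsg.Agent.Helper7.exists_pPart_mul r hr c
  have hzle : Subgroup.zpowers c ≤ Subgroup.centralizer ({x} : Set G) := by
    rw [Subgroup.zpowers_le]; exact hc
  have hc1C := hzle hc1z
  have hc2C := hzle hc2z
  have hxc2 : Commute x c₂ := by
    have := Subgroup.mem_centralizer_singleton_iff.mp hc2C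
    exact this.symm
  have hco2 : (orderOf x).Coprime (orderOf c₂) := by
    have h1 : orderOf x ∣ r ^ k := orderOf_dvd_of_pow_eq_one hxr
    exact Nat.Coprime.coprime_dvd_left h1 (Nat.Coprime.pow_left k hc2.symm)
  have h1 := tc_step2 hcls hx hxc2 hco2
  have hc1u : c₁ ∈ Subgroup.centralizer ({u} : Set G) := heq ▸ hc1C
  have huc1 : Commute u c₁ := by
    have := Subgroup.mem_centralizer_singleton_iff.mp hc1u
    exact this.symm
  have h2 := tc_step2 hcls hu huc1 (coprime_orderOf_of_pow hs hr hrs.symm hus hc1)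
  have hd1 : d ∈ Subgroup.centralizer ({c₁} : Set G) := h2 (heq ▸ hd)
  have hd2 : d ∈ Subgroup.centralizer ({c₂} : Set G) := h1 hd
  rw [Subgroup.mem_centralizer_singleton_iff] at hd1 hd2
  calc c * d = c₁ * (c₂ * d) := by rw [hcc, mul_assoc]
    _ = c₁ * (d * c₂) := by rw [hd2]
    _ = (c₁ * d) * c₂ := (mul_assoc _ _ _).symm
    _ = (d * c₁) * c₂ := by rw [hd1]
    _ = d * c := by rw [hcc, mul_assoc]

theorem tc_exists_noncentral
    (hex : ∃ x : G, (Subgroup.centralizer ({x} : Set G)).index = n)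
    {r : ℕ} (hr : r.Prime) (hrn : r ∣ n) :
    ∃ (y : G) (k : ℕ), y ∉ Subgroup.center G ∧ y ^ (r ^ k) = 1 := by
  haveI : Fact r.Prime := ⟨hr⟩
  by_contra hcon
  push Not at hcon
  obtain ⟨x₀, hx₀⟩ := hex
  obtain ⟨R⟩ := (inferInstance : Nonempty (Sylow r G))
  have hR : (R : Subgroup G) ≤ Subgroup.centralizer ({x₀} : Set G) := by
    intro y hy
    obtain ⟨k, hk⟩ := R.2 ⟨y, hy⟩
    have hk' : y ^ (r ^ k) = 1 := by simpa using congrArg Subtype.val hk
    have hyc : y ∈ Subgroup.center G := by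
      by_contra h
      exact hcon y k h hk'
    exact Subgroup.center_le_centralizer _ hyc
  have h1 : (Subgroup.centralizer ({x₀} : Set G)).index ∣ (R : Subgroup G).index :=
    Subgroup.index_dvd_of_le hR
  rw [hx₀] at h1
  exact R.not_dvd_index (hrn.trans h1)

theorem tc_dvd_relIndex {s : ℕ} (hs : s.Prime) {y : G} {k : ℕ}
    (hy : y ∉ Subgroup.center G) (hys : y ^ (s ^ k) = 1) :
    s ∣ (Subgroup.center G).relIndex (Subgroup.centralizer ({y} : Set G)) := by
  set C := Subgroup.centralizer ({y} : Set G) with hC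
  have hyC : y ∈ C := by rw [hC, Subgroup.mem_centralizer_singleton_iff]
  set Z' := (Subgroup.center G).subgroupOf C with hZ'
  set yb : C ⧸ Z' := QuotientGroup.mk ⟨y, hyC⟩ with hyb
  have hne : yb ≠ 1 := by
    intro h
    rw [hyb, QuotientGroup.eq_one_iff, hZ', Subgroup.mem_subgroupOf] at h
    exact hy h
  have hpow : yb ^ (s ^ k) = 1 := by
    rw [hyb, ← QuotientGroup.mk_pow]
    have : (⟨y, hyC⟩ : C) ^ (s ^ k) = 1 := Subtype.ext (by simpa using hys)
    rw [this]; rfl
  obtain ⟨j, -, hj⟩ := (Nat.dvd_prime_pow hs).mp (orderOf_dvd_of_pow_eq_one hpow)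
  have hj0 : j ≠ 0 := by
    rintro rfl
    rw [pow_zero, orderOf_eq_one_iff] at hj
    exact hne hj
  have h1 : s ∣ orderOf yb := by rw [hj]; exact dvd_pow_self s hj0
  have h2 : orderOf yb ∣ Nat.card (C ⧸ Z') := orderOf_dvd_natCard yb
  exact h1.trans h2

theorem tc_exists_noncentral_in_cent
    (hcls : ∀ x : G, (Subgroup.centralizer ({x} : Set G)).index = 1 ∨
      (Subgroup.centralizer ({x} : Set G)).index = n)
    {s : ℕ} (hs : s.Prime) {x y : G} {k : ℕ} (hx : x ∉ Subgroup.center G)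
    (hy : y ∉ Subgroup.center G) (hys : y ^ (s ^ k) = 1) :
    ∃ (u : G) (l : ℕ), u ∈ Subgroup.centralizer ({x} : Set G) ∧ u ∉ Subgroup.center G ∧
      u ^ (s ^ l) = 1 := by
  haveI : Fact s.Prime := ⟨hs⟩
  have h1 := tc_dvd_relIndex hs hy hys
  have hrel : (Subgroup.center G).relIndex (Subgroup.centralizer ({x} : Set G)) =
      (Subgroup.center G).relIndex (Subgroup.centralizer ({y} : Set G)) := by
    have e1 := Subgroup.relIndex_mul_index (Subgroup.center_le_centralizer ({x} : Set G))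
    have e2 := Subgroup.relIndex_mul_index (Subgroup.center_le_centralizer ({y} : Set G))
    have hn0 : 0 < n := by
      have h0 : (Subgroup.centralizer ({x} : Set G)).index ≠ 0 :=
        Subgroup.index_ne_zero_of_finite
      rw [tc_index_eq hcls hx] at h0
      exact Nat.pos_of_ne_zero h0
    rw [tc_index_eq hcls hx] at e1
    rw [tc_index_eq hcls hy] at e2
    exact Nat.eq_of_mul_eq_mul_right hn0 (e1.trans e2.symm)
  rw [← hrel] at h1
  set C := Subgroup.centralizer ({x} : Set G) with hC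
  set Z' := (Subgroup.center G).subgroupOf C with hZ'
  have h1' : s ∣ Nat.card (C ⧸ Z') := h1
  obtain ⟨gb, hgb⟩ := exists_prime_orderOf_dvd_card' s h1'
  obtain ⟨g, hg⟩ := QuotientGroup.mk_surjective gb
  obtain ⟨u, v, a, huv, -, hu, hv, huz, hvz⟩ :=
    Cfsg.Agent.Helper7.exists_pPart_mul s hs (g : G)
  have hzle : Subgroup.zpowers (g : G) ≤ C := by rw [Subgroup.zpowers_le]; exact g.2
  have huC : u ∈ C := hzle huz
  have hvC : v ∈ C := hzle hvz
  refine ⟨u, a, huC, ?_, hu⟩
  intro huc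
  have hgv : gb = QuotientGroup.mk (⟨v, hvC⟩ : C) := by
    rw [← hg, QuotientGroup.eq, hZ', Subgroup.mem_subgroupOf]
    have e : ((g⁻¹ * ⟨v, hvC⟩ : C) : G) = v⁻¹ * u⁻¹ * v⁻¹⁻¹ := by
      simp only [Subgroup.coe_mul, Subgroup.coe_inv]
      rw [huv]; group
    rw [e]
    exact (inferInstance : (Subgroup.center G).Normal).conj_mem u⁻¹
      ((Subgroup.center G).inv_mem huc) v⁻¹
  have hpow : gb ^ orderOf v = 1 := by
    rw [hgv, ← QuotientGroup.mk_pow]
    have : (⟨v, hvC⟩ : C) ^ orderOf v = 1 := Subtype.ext (by simp [pow_orderOf_eq_one])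
    rw [this]; rfl
  have hdvd : s ∣ orderOf v := by rw [← hgb]; exact orderOf_dvd_of_pow_eq_one hpow
  exact hs.one_lt.ne' (Nat.Coprime.eq_one_of_dvd hv.symm hdvd)

theorem tc_cent_eq_of_mem_abelian
    (hcls : ∀ x : G, (Subgroup.centralizer ({x} : Set G)).index = 1 ∨
      (Subgroup.centralizer ({x} : Set G)).index = n)
    {x c : G} (hx : x ∉ Subgroup.center G)
    (hab : ∀ c ∈ Subgroup.centralizer ({x} : Set G), ∀ d ∈ Subgroup.centralizer ({x} : Set G),
      c * d = d * c)
    (hc : c ∈ Subgroup.centralizer ({x} : Set G)) (hcz : c ∉ Subgroup.center G) :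
    Subgroup.centralizer ({c} : Set G) = Subgroup.centralizer ({x} : Set G) := by
  symm
  apply tc_cent_eq_of_le hcls hx hcz
  intro d hd
  rw [Subgroup.mem_centralizer_singleton_iff]
  exact hab d hd c hc

end twoclass

end Cfsg.Agent.Helper4
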