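import Mathlib
import Cfsg.Agent.Helper4.TwoClass2

set_option autoImplicit false

namespace Cfsg.Agent.Helper4

theorem conj_mem_centralizer_of_comm_center {G : Type*} [Group G] {w g c : G}
    (hg : g⁻¹ * w * g⁻¹⁻¹ * w⁻¹ ∈ Subgroup.center G)
    (hc : c ∈ Subgroup.centralizer ({w} : Set G)) :
    g * c * g⁻¹ ∈ Subgroup.centralizer ({w} : Set G) := by
  obtain ⟨ζ, hζc, hζ⟩ : ∃ ζ : G, (∀ a : G, a * ζ = ζ * a) ∧ g⁻¹ * w * g = ζ * w :=
    ⟨g⁻¹ * w * g⁻¹⁻¹ * w⁻¹, Subgroup.mem_center_iff.mp hg, by group⟩
  have hcw : c * w = w * c := Subgroup.mem_centralizer_singleton_iff.mp hc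
  have h1 : c * (g⁻¹ * w * g) = (g⁻¹ * w * g) * c := by
    rw [hζ]
    calc c * (ζ * w) = (c * ζ) * w := (mul_assoc _ _ _).symm
      _ = (ζ * c) * w := by rw [hζc c]
      _ = ζ * (c * w) := mul_assoc _ _ _
      _ = ζ * (w * c) := by rw [hcw]
      _ = (ζ * w) * c := (mul_assoc _ _ _).symm
  rw [Subgroup.mem_centralizer_singleton_iff]
  have e1 : g * c * g⁻¹ * w = g * (c * (g⁻¹ * w * g)) * g⁻¹ := by group
  have e2 : w * (g * c * g⁻¹) = g * ((g⁻¹ * w * g) * c) * g⁻¹ := by group
  rw [e1, e2, h1]

theorem isComplement'_of_coprime_index_pow {G : Type*} [Group G] [Finite G] {p : ℕ}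
    [Fact p.Prime] (W : Subgroup G) (hcop : (Nat.card W).Coprime p) {m : ℕ}
    (hidx : W.index = p ^ m) (P : Sylow p G) : Subgroup.IsComplement' W (P : Subgroup G) := by
  have hp : p.Prime := Fact.out
  have hcardG : Nat.card W * p ^ m = Nat.card G := by
    rw [← hidx]; exact Subgroup.card_mul_index W
  have hWpos : Nat.card W ≠ 0 := Nat.card_pos.ne'
  have hWndvd : ¬ p ∣ Nat.card W := fun hd =>
    hp.one_lt.ne' (Nat.Coprime.eq_one_of_dvd hcop.symm hd)
  have hfac : (Nat.card G).factorization p = m := by
    rw [← hcardG, Nat.factorization_mul hWpos (pow_pos hp.pos _).ne']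
    simp [Nat.factorization_eq_zero_of_not_dvd hWndvd, hp.factorization_pow]
  have hPcard : Nat.card (P : Subgroup G) = p ^ m := by
    rw [Sylow.card_eq_multiplicity, hfac]
  apply Subgroup.isComplement'_of_coprime
  · rw [hPcard]; exact hcardG
  · rw [hPcard]; exact Nat.Coprime.pow_right _ hcop

/-- If no class size is divisible by `r`, every `r`-element is central. -/
theorem central_of_not_dvd_index {G : Type*} [Group G] [Finite G] (r : ℕ) [Fact r.Prime]
    (h : ∀ x : G, ¬ r ∣ (Subgroup.centralizer ({x} : Set G)).index) {y : G} {k : ℕ}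
    (hy : y ^ (r ^ k) = 1) : y ∈ Subgroup.center G := by
  have hr : r.Prime := Fact.out
  have hpg : IsPGroup r (Subgroup.zpowers y) := by
    rw [IsPGroup.iff_card, Nat.card_zpowers]
    obtain ⟨j, -, hj⟩ := (Nat.dvd_prime_pow hr).mp (orderOf_dvd_of_pow_eq_one hy)
    exact ⟨j, hj⟩
  obtain ⟨R, hR⟩ := hpg.exists_le_sylow
  have hyR : y ∈ (R : Subgroup G) := hR (Subgroup.mem_zpowers y)
  have hE : Subgroup.centralizer ((R : Subgroup G) : Set G) = ⊤ := by
    by_contra hne
    obtain ⟨x₀, hx₀⟩ := Cfsg.Agent.Helper7.exists_forall_conj_notMem _ hne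
    obtain ⟨R', hR'⟩ := exists_sylow_centralizing_of_not_dvd r x₀ (h x₀)
    obtain ⟨g, hg⟩ := MulAction.exists_smul_eq G R R'
    apply hx₀ g
    rw [Subgroup.mem_centralizer_iff]
    intro z hz
    have hz' : g * z * g⁻¹ ∈ (R' : Subgroup G) := by
      rw [← hg, mem_smul_sylow_iff]
      have e : g⁻¹ * (g * z * g⁻¹) * g = z := by group
      rw [e]; exact hz
    rw [Subgroup.mem_centralizer_iff] at hR'
    have h1 := hR' _ hz'
    have e1 : z * (g⁻¹ * x₀ * g) = g⁻¹ * ((g * z * g⁻¹) * x₀) * g := by group
    have e2 : (g⁻¹ * x₀ * g) * z = g⁻¹ * (x₀ * (g * z * g⁻¹)) * g := by group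
    rw [e1, e2, h1]
  rw [Subgroup.mem_center_iff]
  intro g
  have hg : g ∈ Subgroup.centralizer ((R : Subgroup G) : Set G) := by
    rw [hE]; exact Subgroup.mem_top g
  rw [Subgroup.mem_centralizer_iff] at hg
  exact (hg y hyR).symm

/-- If all elements of prime power order for primes `≠ p` are central, so are all
`p'`-elements. -/
theorem pprime_central {G : Type*} [Group G] [Finite G] (p : ℕ)
    (h : ∀ r : ℕ, r.Prime → r ≠ p → ∀ (y : G) (k : ℕ), y ^ (r ^ k) = 1 →
      y ∈ Subgroup.center G) :
    ∀ y : G, (orderOf y).Coprime p → y ∈ Subgroup.center G := by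
  have key : ∀ m : ℕ, ∀ y : G, orderOf y = m → (orderOf y).Coprime p →
      y ∈ Subgroup.center G := by
    intro m
    induction m using Nat.strong_induction_on with
    | _ m ih =>
      intro y hm hco
      by_cases h1 : m = 1
      · rw [h1, orderOf_eq_one_iff] at hm
        rw [hm]; exact Subgroup.one_mem _
      · have hr : (m.minFac).Prime := Nat.minFac_prime h1
        have hrm : m.minFac ∣ m := Nat.minFac_dvd m
        have hrp : m.minFac ≠ p := by
          intro hrp
          rw [hm] at hco
          rw [hrp] at hrm hr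
          exact hr.one_lt.ne' (Nat.Coprime.eq_one_of_dvd hco.symm hrm)
        obtain ⟨u, v, a, huv, -, hu, hv, huz, hvz⟩ :=
          Cfsg.Agent.Helper7.exists_pPart_mul m.minFac hr y
        have huc : u ∈ Subgroup.center G := h _ hr hrp u a hu
        have hvdvd : orderOf v ∣ m := hm ▸ orderOf_dvd_of_mem_zpowers hvz
        have hmpos : 0 < m := hm ▸ orderOf_pos y
        have hvlt : orderOf v < m := by
          rcases (Nat.le_of_dvd hmpos hvdvd).lt_or_eq with hlt | heq
          · exact hlt
          · exfalso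
            rw [heq] at hv
            exact hr.one_lt.ne' (Nat.Coprime.eq_one_of_dvd hv.symm hrm)
        have hvc : v ∈ Subgroup.center G :=
          ih (orderOf v) hvlt v rfl (Nat.Coprime.coprime_dvd_left hvdvd (hm ▸ hco))
        rw [huv]; exact Subgroup.mul_mem _ huc hvc
  intro y hy
  exact key _ y rfl hy

/-- A finite `p`-group in which centralizers of noncentral elements are pairwise incomparable
has an abelian normal subgroup `A` with `y ^ p ∈ A` for all `y`. -/
theorem two_class_pgroup {P : Type*} [Group P] [Finite P] {p : ℕ} [Fact p.Prime]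
    (hP : IsPGroup p P)
    (hmin : ∀ y y' : P, y ∉ Subgroup.center P → y' ∉ Subgroup.center P →
      Subgroup.centralizer ({y} : Set P) ≤ Subgroup.centralizer ({y'} : Set P) →
      Subgroup.centralizer ({y} : Set P) = Subgroup.centralizer ({y'} : Set P)) :
    ∃ A : Subgroup P, A.Normal ∧ IsMulCommutative A ∧ ∀ y : P, y ^ p ∈ A := by
  by_cases hab : Subgroup.center P = ⊤
  · refine ⟨⊤, inferInstance, ⟨⟨fun a b => ?_⟩⟩, fun y => Subgroup.mem_top _⟩
    apply Subtype.ext
    have : (b : P) ∈ Subgroup.center P := by rw [hab]; exact Subgroup.mem_top _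
    exact Subgroup.mem_center_iff.mp this (a : P)
  · obtain ⟨z, hz, hzp, hzZ2⟩ := exists_second_center_elt hP hab
    set Cz := Subgroup.centralizer ({z} : Set P) with hCz
    have hCznorm : ∀ g : P, ∀ c ∈ Cz, g * c * g⁻¹ ∈ Cz := fun g c hc =>
      conj_mem_centralizer_of_comm_center (hzZ2 g⁻¹) hc
    set A : Subgroup P := Cz ⊓ Subgroup.centralizer (Cz : Set P) with hA
    have hZA : Subgroup.center P ≤ A := by
      intro c hc
      exact Subgroup.mem_inf.mpr
        ⟨Subgroup.center_le_centralizer _ hc, Subgroup.center_le_centralizer _ hc⟩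
    refine ⟨A, ⟨?_⟩, ⟨⟨fun a b => ?_⟩⟩, ?_⟩
    · intro a ha g
      obtain ⟨ha1, ha2⟩ := Subgroup.mem_inf.mp ha
      refine Subgroup.mem_inf.mpr ⟨hCznorm g a ha1, ?_⟩
      rw [Subgroup.mem_centralizer_iff]
      intro c hc
      have hc' : g⁻¹ * c * g⁻¹⁻¹ ∈ Cz := hCznorm g⁻¹ c hc
      rw [Subgroup.mem_centralizer_iff] at ha2
      have h1 := ha2 _ hc'
      have e1 : c * (g * a * g⁻¹) = g * ((g⁻¹ * c * g⁻¹⁻¹) * a) * g⁻¹ := by group
      have e2 : (g * a * g⁻¹) * c = g * (a * (g⁻¹ * c * g⁻¹⁻¹)) * g⁻¹ := by group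
      rw [e1, e2, h1]
    · apply Subtype.ext
      have hb1 := (Subgroup.mem_inf.mp b.2).1
      have ha2 := (Subgroup.mem_inf.mp a.2).2
      rw [Subgroup.mem_centralizer_iff] at ha2
      exact (ha2 _ hb1).symm
    · intro y
      by_cases hyA : y ∈ A
      · exact A.pow_mem hyA p
      · apply hZA
        by_contra hyp
        have hyZ : y ∉ Subgroup.center P := fun h => hyp ((Subgroup.center P).pow_mem h p)
        have h1 : Subgroup.centralizer ({y} : Set P) ≤ Subgroup.centralizer ({y ^ p} : Set P) := by
          intro c hc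
          rw [Subgroup.mem_centralizer_singleton_iff] at hc ⊢
          exact Commute.pow_right hc p
        have h1' := hmin y (y ^ p) hyZ hyp h1
        have hyz : ∃ ζ ∈ Subgroup.center P, (y * z) ^ p = y ^ p * ζ := by
          refine ⟨(y ^ p)⁻¹ * (y * z) ^ p, ?_, by group⟩
          rw [← QuotientGroup.eq, QuotientGroup.mk_pow, QuotientGroup.mk_pow, QuotientGroup.mk_mul]
          have hcomm : Commute (y : P ⧸ Subgroup.center P) (z : P ⧸ Subgroup.center P) := by
            have h2 := hzZ2 y
            rw [← QuotientGroup.eq_one_iff] at h2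
            simp only [QuotientGroup.mk_mul, QuotientGroup.mk_inv] at h2
            have e : (y : P ⧸ Subgroup.center P) * z =
                ((y : P ⧸ Subgroup.center P) * z * (y : P ⧸ Subgroup.center P)⁻¹ *
                  (z : P ⧸ Subgroup.center P)⁻¹) * (z * y) := by group
            show (y : P ⧸ Subgroup.center P) * z = z * y
            rw [e, h2, one_mul]
          rw [hcomm.mul_pow]
          have hz1 : (z : P ⧸ Subgroup.center P) ^ p = 1 := by
            rw [← QuotientGroup.mk_pow]; exact (QuotientGroup.eq_one_iff _).mpr hzp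
          rw [hz1, mul_one]
        obtain ⟨ζ, hζ, hyzp⟩ := hyz
        have hζc := Subgroup.mem_center_iff.mp hζ
        have hyzp_nc : (y * z) ^ p ∉ Subgroup.center P := by
          intro h
          apply hyp
          have e : y ^ p = (y * z) ^ p * ζ⁻¹ := by rw [hyzp]; group
          rw [e]; exact Subgroup.mul_mem _ h (Subgroup.inv_mem _ hζ)
        have hyz_nc : y * z ∉ Subgroup.center P := fun h =>
          hyzp_nc (Subgroup.pow_mem _ h p)
        have h2 : Subgroup.centralizer ({y * z} : Set P) ≤
            Subgroup.centralizer ({y} : Set P) := by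
          intro c hc
          rw [Subgroup.mem_centralizer_singleton_iff] at hc
          have hc' : c * (y * z) ^ p = (y * z) ^ p * c := Commute.pow_right hc p
          rw [hyzp] at hc'
          have hc'' : c * y ^ p = y ^ p * c := by
            have e1 : c * (y ^ p * ζ) = (c * y ^ p) * ζ := (mul_assoc _ _ _).symm
            have e2 : y ^ p * ζ * c = (y ^ p * c) * ζ := by
              rw [mul_assoc, ← hζc c, ← mul_assoc]
            rw [e1, e2] at hc'
            exact mul_right_cancel hc'
          rw [h1', Subgroup.mem_centralizer_singleton_iff]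
          exact hc''
        have h2' := hmin (y * z) y hyz_nc hyZ h2
        have hycomm : y * z = z * y := by
          have hy1 : y ∈ Subgroup.centralizer ({y * z} : Set P) := by
            rw [h2', Subgroup.mem_centralizer_singleton_iff]
          rw [Subgroup.mem_centralizer_singleton_iff] at hy1
          have : y * (y * z) = y * (z * y) := by rw [hy1, mul_assoc]
          exact mul_left_cancel this
        have h3 : Subgroup.centralizer ({y} : Set P) ≤ Subgroup.centralizer ({z} : Set P) := by
          intro c hc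
          have hc2 : c ∈ Subgroup.centralizer ({y * z} : Set P) := by rw [h2']; exact hc
          rw [Subgroup.mem_centralizer_singleton_iff] at hc hc2 ⊢
          have : y * (c * z) = y * (z * c) := by
            rw [← mul_assoc, ← hc, mul_assoc, hc2, mul_assoc]
          exact mul_left_cancel this
        have h3' := hmin y z hyZ hz h3
        apply hyA
        refine Subgroup.mem_inf.mpr ⟨?_, ?_⟩
        · rw [hCz, Subgroup.mem_centralizer_singleton_iff]; exact hycomm
        · rw [Subgroup.mem_centralizer_iff]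
          intro c hc
          have hc' : c ∈ Subgroup.centralizer ({y} : Set P) := by rw [h3']; exact hc
          exact Subgroup.mem_centralizer_singleton_iff.mp hc'

end Cfsg.Agent.Helper4
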