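import Mathlib
import Cfsg.Agent.Helper4.TwoClass3

set_option autoImplicit false

namespace Cfsg.Agent.Helper4

section twoclass

variable {G : Type*} [Group G] [Finite G] {n : ℕ}

theorem tc_abelian_of_two_primes
    (hcls : ∀ x : G, (Subgroup.centralizer ({x} : Set G)).index = 1 ∨
      (Subgroup.centralizer ({x} : Set G)).index = n)
    (hex : ∃ x : G, (Subgroup.centralizer ({x} : Set G)).index = n)
    {p q : ℕ} (hp : p.Prime) (hq : q.Prime) (hpq : p ≠ q) (hpn : p ∣ n) (hqn : q ∣ n)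
    {r : ℕ} (hr : r.Prime) {x : G} {k : ℕ} (hx : x ∉ Subgroup.center G)
    (hxr : x ^ (r ^ k) = 1) :
    ∀ c ∈ Subgroup.centralizer ({x} : Set G), ∀ d ∈ Subgroup.centralizer ({x} : Set G),
      c * d = d * c := by
  obtain ⟨s, hs, hsr, hsn⟩ : ∃ s : ℕ, s.Prime ∧ r ≠ s ∧ s ∣ n := by
    by_cases h : r = p
    · exact ⟨q, hq, by rw [h]; exact hpq, hqn⟩
    · exact ⟨p, hp, h, hpn⟩
  obtain ⟨y, l, hy, hys⟩ := tc_exists_noncentral hex hs hsn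
  obtain ⟨u, l', huC, hu, hus⟩ := tc_exists_noncentral_in_cent hcls hs hx hy hys
  have hcomm : Commute x u := (Subgroup.mem_centralizer_singleton_iff.mp huC).symm
  exact (tc_abelian hcls hr hs hsr hx hxr hu hus hcomm).2

theorem tc_index_claim
    (hcls : ∀ x : G, (Subgroup.centralizer ({x} : Set G)).index = 1 ∨
      (Subgroup.centralizer ({x} : Set G)).index = n)
    {r s : ℕ} (hr : r.Prime) (hs : s.Prime) (hrs : r ≠ s)
    (R : Subgroup G) {w : G} (hw : w ∉ Subgroup.center G) (hwr : w ^ r ∈ Subgroup.center G)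
    (hZ2 : ∀ g ∈ R, g * w * g⁻¹ * w⁻¹ ∈ Subgroup.center G)
    (hab : ∀ c ∈ Subgroup.centralizer ({w} : Set G),
      ∀ d ∈ Subgroup.centralizer ({w} : Set G), c * d = d * c)
    {u : G} {l : ℕ} (huC : u ∈ Subgroup.centralizer ({w} : Set G))
    (hu : u ∉ Subgroup.center G) (hus : u ^ (s ^ l) = 1)
    {g₁ g₂ : G} (hg₁ : g₁ ∈ R) (hg₁C : g₁ ∉ Subgroup.centralizer ({w} : Set G))
    (hg₂ : g₂ ∈ R) :
    ∃ i < r, g₂ * g₁ ^ i ∈ Subgroup.centralizer ({w} : Set G) := by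
  by_contra hcon
  push Not at hcon
  set C := Subgroup.centralizer ({w} : Set G) with hC
  have hχC : ∀ g : G, g ∈ C ↔ g * w * g⁻¹ * w⁻¹ = 1 := by
    intro g
    rw [hC, Subgroup.mem_centralizer_singleton_iff]
    constructor
    · intro h
      have e : g * w * g⁻¹ * w⁻¹ = (g * w) * (w * g)⁻¹ := by group
      rw [e, h, mul_inv_cancel]
    · intro h
      have e : g * w = (g * w * g⁻¹ * w⁻¹) * (w * g) := by group
      rw [e, h, one_mul]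
  have hχmul : ∀ g ∈ R, ∀ g' ∈ R, (g * g') * w * (g * g')⁻¹ * w⁻¹ =
      (g * w * g⁻¹ * w⁻¹) * (g' * w * g'⁻¹ * w⁻¹) := by
    intro g hg g' hg'
    obtain ⟨ζ, hζc, hζ⟩ : ∃ ζ : G, (∀ a : G, a * ζ = ζ * a) ∧ g' * w * g'⁻¹ * w⁻¹ = ζ :=
      ⟨_, Subgroup.mem_center_iff.mp (hZ2 g' hg'), rfl⟩
    have e : (g * g') * w * (g * g')⁻¹ * w⁻¹ =
        (g * (g' * w * g'⁻¹ * w⁻¹)) * g⁻¹ * (g * w * g⁻¹ * w⁻¹) := by group
    rw [e, hζ, hζc g, hζc (g * w * g⁻¹ * w⁻¹)]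
    group
  have hχone : (1 : G) * w * (1 : G)⁻¹ * w⁻¹ = 1 := by group
  have hχinv : ∀ g ∈ R, g⁻¹ * w * g⁻¹⁻¹ * w⁻¹ = (g * w * g⁻¹ * w⁻¹)⁻¹ := by
    intro g hg
    have h1 := hχmul g hg g⁻¹ (R.inv_mem hg)
    rw [mul_inv_cancel, hχone] at h1
    exact eq_inv_of_mul_eq_one_right h1.symm
  have hχpow : ∀ g ∈ R, ∀ k : ℕ, g ^ k * w * (g ^ k)⁻¹ * w⁻¹ = (g * w * g⁻¹ * w⁻¹) ^ k := by
    intro g hg k
    induction k with
    | zero => simp
    | succ k ih =>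
      rw [pow_succ, hχmul (g ^ k) (R.pow_mem hg k) g hg, ih, pow_succ]
  have hχr : ∀ g ∈ R, (g * w * g⁻¹ * w⁻¹) ^ r = 1 := by
    intro g hg
    have hc := Subgroup.mem_center_iff.mp (hZ2 g hg)
    have hcm : Commute (g * w * g⁻¹ * w⁻¹) w := (hc w).symm
    have e1 : (g * w * g⁻¹ * w⁻¹) * w = g * w * g⁻¹ := by group
    have e2 : ((g * w * g⁻¹ * w⁻¹) * w) ^ r = (g * w * g⁻¹ * w⁻¹) ^ r * w ^ r := hcm.mul_pow r
    rw [e1, conj_pow] at e2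
    have e3 : g * w ^ r * g⁻¹ = w ^ r := by
      have := Subgroup.mem_center_iff.mp hwr g
      rw [this]; group
    rw [e3] at e2
    have : 1 * w ^ r = (g * w * g⁻¹ * w⁻¹) ^ r * w ^ r := by rw [one_mul]; exact e2
    exact (mul_right_cancel this).symm
  have hpowC : ∀ g ∈ R, g ^ r ∈ C := by
    intro g hg
    rw [hχC, hχpow g hg r, hχr g hg]
  have hcommC : ∀ g ∈ R, ∀ g' ∈ R, (g * g') * (g' * g)⁻¹ ∈ C := by
    intro g hg g' hg'
    rw [hχC, hχmul (g * g') (R.mul_mem hg hg') (g' * g)⁻¹ (R.inv_mem (R.mul_mem hg' hg)),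
      hχinv (g' * g) (R.mul_mem hg' hg), hχmul g hg g' hg', hχmul g' hg' g hg]
    have hc := Subgroup.mem_center_iff.mp (hZ2 g' hg')
    rw [hc (g * w * g⁻¹ * w⁻¹)]
    exact mul_inv_cancel _
  have hnorm : ∀ g ∈ R, ∀ c ∈ C, g * c * g⁻¹ ∈ C := fun g hg c hc =>
    conj_mem_centralizer_of_comm_center (hZ2 g⁻¹ (R.inv_mem hg)) hc
  letI instC : CommGroup ↥C :=
    { (inferInstance : Group ↥C) with mul_comm := fun a b => Subtype.ext (hab a a.2 b b.2) }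
  set φ : Monoid.End ↥C := conjEnd C g₂ (hnorm g₂ hg₂) with hφdef
  set ψ : Monoid.End ↥C := conjEnd C g₁ (hnorm g₁ hg₁) with hψdef
  have hφψ : Commute φ ψ := by
    show φ * ψ = ψ * φ
    apply DFunLike.ext
    intro c
    apply Subtype.ext
    show g₂ * (g₁ * (c : G) * g₁⁻¹) * g₂⁻¹ = g₁ * (g₂ * (c : G) * g₂⁻¹) * g₁⁻¹
    have hd := hcommC g₂ hg₂ g₁ hg₁
    have he : g₁ * (g₂ * (c : G) * g₂⁻¹) * g₁⁻¹ ∈ C := hnorm g₁ hg₁ _ (hnorm g₂ hg₂ _ c.2)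
    have hde := hab _ hd _ he
    have e1 : g₂ * (g₁ * (c : G) * g₁⁻¹) * g₂⁻¹ =
        ((g₂ * g₁) * (g₁ * g₂)⁻¹) * (g₁ * (g₂ * (c : G) * g₂⁻¹) * g₁⁻¹) *
          ((g₂ * g₁) * (g₁ * g₂)⁻¹)⁻¹ := by group
    rw [e1, hde]; group
  have hpowone : ∀ g ∈ R, ∀ (hg' : ∀ c ∈ C, g * c * g⁻¹ ∈ C), (conjEnd C g hg') ^ r = 1 := by
    intro g hg hg'
    apply DFunLike.ext
    intro c
    apply Subtype.ext
    rw [conjEnd_pow_coe]
    show g ^ r * (c : G) * (g ^ r)⁻¹ = (c : G)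
    have := hab _ (hpowC g hg) _ c.2
    rw [this]; group
  have hφr : φ ^ r = 1 := hpowone g₂ hg₂ _
  have hψr : ψ ^ r = 1 := hpowone g₁ hg₁ _
  set Z₀ : Subgroup ↥C := (Subgroup.center G).subgroupOf C with hZ₀
  have hφZ : ∀ a ∈ Z₀, φ a = a := by
    intro a ha
    rw [hZ₀, Subgroup.mem_subgroupOf] at ha
    apply Subtype.ext
    show g₂ * (a : G) * g₂⁻¹ = (a : G)
    rw [Subgroup.mem_center_iff.mp ha g₂]; group
  have hfixgen : ∀ g : G, g ∉ C → ∀ a : ↥C, g * (a : G) * g⁻¹ = (a : G) → a ∈ Z₀ := by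
    intro g hgC a hga
    rw [hZ₀, Subgroup.mem_subgroupOf]
    by_contra haz
    have hCa := tc_cent_eq_of_mem_abelian hcls hw hab a.2 haz
    apply hgC
    rw [hC, ← hCa, Subgroup.mem_centralizer_singleton_iff]
    have e : g * (a : G) = (g * (a : G) * g⁻¹) * g := by group
    rw [e, hga]
  have hψfix : ∀ a, ψ a = a → a ∈ Z₀ := by
    intro a ha
    apply hfixgen g₁ hg₁C a
    exact congrArg Subtype.val ha
  have hfix : ∀ j < r, ∀ a, (φ * ψ ^ j) a = a → a ∈ Z₀ := by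
    intro j hj a ha
    apply hfixgen (g₂ * g₁ ^ j) (hcon j hj) a
    have h1 := congrArg Subtype.val ha
    have h2 : (((φ * ψ ^ j) a : ↥C) : G) = g₂ * (g₁ ^ j * (a : G) * (g₁ ^ j)⁻¹) * g₂⁻¹ := by
      show g₂ * (((ψ ^ j) a : ↥C) : G) * g₂⁻¹ = _
      rw [hψdef, conjEnd_pow_coe]
    rw [h2] at h1
    have e : g₂ * g₁ ^ j * (a : G) * (g₂ * g₁ ^ j)⁻¹ =
        g₂ * (g₁ ^ j * (a : G) * (g₁ ^ j)⁻¹) * g₂⁻¹ := by group
    rw [e]; exact h1
  have hkey := frob_abelian_pow_mem r hr φ ψ hφψ hφr hψr Z₀ hφZ hψfix hfix ⟨u, huC⟩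
  rw [hZ₀, Subgroup.mem_subgroupOf] at hkey
  have hur : u ^ r ∈ Subgroup.center G := by simpa using hkey
  apply hu
  have hco : r.Coprime (orderOf u) := by
    have h2 : orderOf u ∣ s ^ l := orderOf_dvd_of_pow_eq_one hus
    exact Nat.Coprime.coprime_dvd_right h2
      (Nat.Coprime.pow_right l ((Nat.coprime_primes hr hs).mpr hrs))
  obtain ⟨m, hm⟩ := exists_pow_eq_self_of_coprime hco
  rw [← hm]
  exact (Subgroup.center G).pow_mem hur m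

end twoclass

end Cfsg.Agent.Helper4
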