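import Mathlib
import Cfsg.Agent.Helper4.TwoClass4

set_option autoImplicit false

namespace Cfsg.Agent.Helper4

section twoclass

variable {G : Type*} [Group G] [Finite G] {n : ℕ}

theorem tc_sylow_normalizes
    (hcls : ∀ x : G, (Subgroup.centralizer ({x} : Set G)).index = 1 ∨
      (Subgroup.centralizer ({x} : Set G)).index = n)
    (hex : ∃ x : G, (Subgroup.centralizer ({x} : Set G)).index = n)
    {p q : ℕ} (hp : p.Prime) (hq : q.Prime) (hpq : p ≠ q) (hpn : p ∣ n) (hqn : q ∣ n)
    {r₀ : ℕ} (hr₀ : r₀.Prime) {x : G} {k₀ : ℕ} (hx : x ∉ Subgroup.center G)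
    (hxr : x ^ (r₀ ^ k₀) = 1) {s : ℕ} [Fact s.Prime] (hsn : s ∣ n) :
    ∃ S : Sylow s G, ∀ g ∈ (S : Subgroup G), ∀ c ∈ Subgroup.centralizer ({x} : Set G),
      g * c * g⁻¹ ∈ Subgroup.centralizer ({x} : Set G) := by
  classical
  have hs : s.Prime := Fact.out
  set C := Subgroup.centralizer ({x} : Set G) with hC
  have habC := tc_abelian_of_two_primes hcls hex hp hq hpq hpn hqn hr₀ hx hxr
  have hn0 : 0 < n := by
    have h0 : (Subgroup.centralizer ({x} : Set G)).index ≠ 0 := Subgroup.index_ne_zero_of_finite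
    rw [tc_index_eq hcls hx] at h0
    exact Nat.pos_of_ne_zero h0
  -- (a) a noncentral s-element of C
  obtain ⟨u, l, huC, hu, hus⟩ : ∃ (u : G) (l : ℕ), u ∈ C ∧ u ∉ Subgroup.center G ∧
      u ^ (s ^ l) = 1 := by
    by_cases hsr : s = r₀
    · refine ⟨x, k₀, ?_, hx, by rw [hsr]; exact hxr⟩
      rw [hC, Subgroup.mem_centralizer_singleton_iff]
    · obtain ⟨y, ky, hy, hys⟩ := tc_exists_noncentral hex hs hsn
      exact tc_exists_noncentral_in_cent hcls hs hx hy hys
  have hCu : Subgroup.centralizer ({u} : Set G) = C :=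
    tc_cent_eq_of_mem_abelian hcls hx habC huC hu
  -- (b) a Sylow subgroup and a second-centre element
  obtain ⟨R⟩ := (inferInstance : Nonempty (Sylow s G))
  have hcenR : ∀ c : (R : Subgroup G), c ∈ Subgroup.center (R : Subgroup G) →
      (c : G) ∈ Subgroup.center G := by
    intro c hc
    by_contra hcz
    have hRle : (R : Subgroup G) ≤ Subgroup.centralizer ({(c : G)} : Set G) := by
      intro y hy
      rw [Subgroup.mem_centralizer_singleton_iff]
      have := Subgroup.mem_center_iff.mp hc ⟨y, hy⟩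
      exact congrArg Subtype.val this
    have h1 := Subgroup.index_dvd_of_le hRle
    rw [tc_index_eq hcls hcz] at h1
    exact R.not_dvd_index (hsn.trans h1)
  have hneR : Subgroup.center (R : Subgroup G) ≠ ⊤ := by
    intro htop
    obtain ⟨x₀, hx₀⟩ := hex
    have hRle : (R : Subgroup G) ≤ Subgroup.centralizer ({x₀} : Set G) := by
      intro y hy
      apply Subgroup.center_le_centralizer
      have : (⟨y, hy⟩ : (R : Subgroup G)) ∈ Subgroup.center (R : Subgroup G) := by
        rw [htop]; exact Subgroup.mem_top _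
      exact hcenR _ this
    have h1 := Subgroup.index_dvd_of_le hRle
    rw [hx₀] at h1
    exact R.not_dvd_index (hsn.trans h1)
  obtain ⟨z', hz'1, hz'2, hz'3⟩ := exists_second_center_elt R.2 hneR
  have hw₀ : (z' : G) ∉ Subgroup.center G := by
    intro h
    apply hz'1
    rw [Subgroup.mem_center_iff]
    intro g
    apply Subtype.ext
    exact Subgroup.mem_center_iff.mp h (g : G)
  have hw₀s : (z' : G) ^ s ∈ Subgroup.center G := by
    have := hcenR _ hz'2
    simpa using this
  have hw₀Z2 : ∀ g ∈ (R : Subgroup G), g * (z' : G) * g⁻¹ * (z' : G)⁻¹ ∈ Subgroup.center G := by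
    intro g hg
    have := hcenR _ (hz'3 ⟨g, hg⟩)
    simpa using this
  obtain ⟨kw, hkw⟩ : ∃ kw : ℕ, (z' : G) ^ (s ^ kw) = 1 := by
    obtain ⟨kw, hkw⟩ := R.2 z'
    exact ⟨kw, by simpa using congrArg Subtype.val hkw⟩
  -- (c) a Sylow s-subgroup of C containing u
  have hupg : IsPGroup s (Subgroup.zpowers (⟨u, huC⟩ : ↥C)) := by
    rw [IsPGroup.iff_card, Nat.card_zpowers]
    have h1 : orderOf (⟨u, huC⟩ : ↥C) ∣ s ^ l := by
      apply orderOf_dvd_of_pow_eq_one
      exact Subtype.ext (by simpa using hus)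
    obtain ⟨j, -, hj⟩ := (Nat.dvd_prime_pow hs).mp h1
    exact ⟨j, hj⟩
  obtain ⟨SC, hSC⟩ := hupg.exists_le_sylow
  set U : Subgroup G := (SC : Subgroup ↥C).map C.subtype with hU
  have hUp : IsPGroup s U := SC.2.map _
  have huU : u ∈ U := ⟨⟨u, huC⟩, hSC (Subgroup.mem_zpowers _), rfl⟩
  have hUC : U ≤ C := Subgroup.map_subtype_le _
  have hUcard : Nat.card U = s ^ (Nat.card C).factorization s := by
    rw [hU, Subgroup.card_map_of_injective C.subtype_injective]
    exact Sylow.card_eq_multiplicity SC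
  -- (d) conjugate R so that it contains U
  obtain ⟨h, hh⟩ := exists_conj_mem_sylow R U hUp
  set S : Sylow s G := h • R with hS
  have hUS : U ≤ (S : Subgroup G) := by
    intro y hy
    rw [hS, mem_smul_sylow_iff]
    exact hh y hy
  set w : G := h * (z' : G) * h⁻¹ with hwdef
  have hcn : ∀ a : G, a ∈ Subgroup.center G → h * a * h⁻¹ ∈ Subgroup.center G := fun a ha =>
    (inferInstance : (Subgroup.center G).Normal).conj_mem a ha h
  have hw : w ∉ Subgroup.center G := by
    intro hc
    apply hw₀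
    have := (inferInstance : (Subgroup.center G).Normal).conj_mem w hc h⁻¹
    have e : h⁻¹ * w * h⁻¹⁻¹ = (z' : G) := by rw [hwdef]; group
    rwa [e] at this
  have hws : w ^ s ∈ Subgroup.center G := by
    rw [hwdef, conj_pow]
    exact hcn _ hw₀s
  have hwZ2 : ∀ g ∈ (S : Subgroup G), g * w * g⁻¹ * w⁻¹ ∈ Subgroup.center G := by
    intro g hg
    rw [hS, mem_smul_sylow_iff] at hg
    have := hcn _ (hw₀Z2 _ hg)
    have e : h * ((h⁻¹ * g * h) * (z' : G) * (h⁻¹ * g * h)⁻¹ * (z' : G)⁻¹) * h⁻¹ =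
        g * w * g⁻¹ * w⁻¹ := by rw [hwdef]; group
    rwa [e] at this
  have hwpow : w ^ (s ^ kw) = 1 := by rw [hwdef, conj_pow, hkw]; group
  set C' := Subgroup.centralizer ({w} : Set G) with hC'
  have habC' := tc_abelian_of_two_primes hcls hex hp hq hpq hpn hqn hs hw hwpow
  have hSC' : ∀ g ∈ (S : Subgroup G), ∀ c ∈ C', g * c * g⁻¹ ∈ C' := fun g hg c hc =>
    conj_mem_centralizer_of_comm_center (hwZ2 g⁻¹ ((S : Subgroup G).inv_mem hg)) hc
  by_cases huC' : u ∈ C'
  · have hCC' : C' = C := by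
      have h1 : C' ≤ Subgroup.centralizer ({u} : Set G) := by
        intro d hd
        rw [Subgroup.mem_centralizer_singleton_iff]
        exact habC' d hd u huC'
      have h2 := tc_cent_eq_of_le hcls hw hu h1
      rw [hC', h2, hCu]
    refine ⟨S, ?_⟩
    intro g hg c hc
    rw [← hCC'] at hc ⊢
    exact hSC' g hg c hc
  · obtain ⟨t, ht, hst, htn⟩ : ∃ t : ℕ, t.Prime ∧ s ≠ t ∧ t ∣ n := by
      by_cases h' : s = p
      · exact ⟨q, hq, by rw [h']; exact hpq, hqn⟩
      · exact ⟨p, hp, h', hpn⟩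
    obtain ⟨y, ky, hy, hyt⟩ := tc_exists_noncentral hex ht htn
    obtain ⟨u', l', hu'C', hu', hu't⟩ := tc_exists_noncentral_in_cent hcls ht hw hy hyt
    have hidx : ∀ g₂ ∈ (S : Subgroup G), ∃ i < s, g₂ * u ^ i ∈ C' := fun g₂ hg₂ =>
      tc_index_claim hcls hs ht hst (S : Subgroup G) hw hws hwZ2 habC' hu'C' hu' hu't
        (hUS huU) huC' hg₂
    set A' : Subgroup G := (S : Subgroup G) ⊓ C' with hA'
    have hcardS : Nat.card (S : Subgroup G) ≤ s * Nat.card A' := by
      choose i hi hiC using hidx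
      have hinj : Function.Injective (fun g : (S : Subgroup G) =>
          ((⟨i g g.2, hi g g.2⟩ : Fin s),
            (⟨(g : G) * u ^ (i g g.2), Subgroup.mem_inf.mpr
              ⟨(S : Subgroup G).mul_mem g.2 ((S : Subgroup G).pow_mem (hUS huU) _),
                hiC g g.2⟩⟩ : A'))) := by
        intro g g' hgg'
        simp only [Prod.mk.injEq, Fin.mk.injEq, Subtype.mk.injEq] at hgg'
        obtain ⟨h1, h2⟩ := hgg'
        rw [h1] at h2
        exact Subtype.ext (mul_right_cancel h2)
      have := Nat.card_le_card_of_injective _ hinj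
      rw [Nat.card_prod, Nat.card_fin] at this
      exact this
    have hA'p : IsPGroup s A' := S.2.to_le inf_le_left
    obtain ⟨a', ha'⟩ := IsPGroup.iff_card.mp hA'p
    have hcardCC' : Nat.card C' = Nat.card C := by
      have e1 := Subgroup.card_mul_index C'
      have e2 := Subgroup.card_mul_index C
      rw [hC', tc_index_eq hcls hw] at e1
      rw [hC, tc_index_eq hcls hx] at e2
      exact Nat.eq_of_mul_eq_mul_right hn0 (e1.trans e2.symm)
    have ha'le : a' ≤ (Nat.card C).factorization s := by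
      have h1 : s ^ a' ∣ Nat.card C := by
        rw [← ha', ← hcardCC']; exact Subgroup.card_dvd_of_le inf_le_right
      exact (hs.pow_dvd_iff_le_factorization Nat.card_pos.ne').mp h1
    have hA'U : Nat.card A' ≤ Nat.card U := by
      rw [ha', hUcard]; exact Nat.pow_le_pow_right hs.pos ha'le
    have hSU : Nat.card (S : Subgroup G) ≤ s * Nat.card U :=
      hcardS.trans (Nat.mul_le_mul_left s hA'U)
    have hUnorm : ∀ g ∈ (S : Subgroup G), ∀ y ∈ U, g * y * g⁻¹ ∈ U := by
      have hrel : U.relIndex (S : Subgroup G) * Nat.card U = Nat.card (S : Subgroup G) := by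
        rw [mul_comm, ← Nat.card_congr (Subgroup.subgroupOfEquivOfLe hUS).toEquiv]
        exact Subgroup.card_mul_index _
      have hrle : U.relIndex (S : Subgroup G) ≤ s := by
        have hUpos : 0 < Nat.card U := Nat.card_pos
        rw [← hrel] at hSU
        exact Nat.le_of_mul_le_mul_right hSU hUpos
      by_cases h1 : U.relIndex (S : Subgroup G) = 1
      · have hSleU : (S : Subgroup G) ≤ U := Subgroup.relIndex_eq_one.mp h1
        intro g hg y hy
        exact U.mul_mem (U.mul_mem (hSleU hg) hy) (U.inv_mem (hSleU hg))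
      · have hrdvd : U.relIndex (S : Subgroup G) ∣ Nat.card (S : Subgroup G) := ⟨_, hrel.symm⟩
        obtain ⟨m, hm⟩ := IsPGroup.iff_card.mp S.2
        rw [hm] at hrdvd
        obtain ⟨j, -, hj⟩ := (Nat.dvd_prime_pow hs).mp hrdvd
        have hj1 : j = 1 := by
          rw [hj] at hrle h1
          rcases j with _ | _ | j
          · exact absurd (pow_zero s) h1
          · rfl
          · exfalso
            have h2 : s ^ 2 ≤ s ^ (j + 1 + 1) := Nat.pow_le_pow_right hs.pos (by omega)
            have h4 : 2 ≤ s := hs.two_le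
            nlinarith
        have hrs : U.relIndex (S : Subgroup G) = s := by rw [hj, hj1, pow_one]
        have hm0 : m ≠ 0 := by
          rintro rfl
          rw [pow_zero] at hm
          rw [hm] at hrel
          exact h1 (Nat.eq_one_of_mul_eq_one_right hrel)
        have hminFac : (Nat.card (S : Subgroup G)).minFac = s := by
          rw [hm]; exact hs.pow_minFac hm0
        have hUn : (U.subgroupOf (S : Subgroup G)).Normal := by
          apply Subgroup.normal_of_index_eq_minFac_card
          rw [hminFac]; exact hrs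
        intro g hg y hy
        have := hUn.conj_mem ⟨y, hUS hy⟩ (by rw [Subgroup.mem_subgroupOf]; exact hy) ⟨g, hg⟩
        rw [Subgroup.mem_subgroupOf] at this
        simpa using this
    refine ⟨S, ?_⟩
    intro g hg c hc
    rw [← hCu, Subgroup.mem_centralizer_singleton_iff]
    have hv : g⁻¹ * u * g⁻¹⁻¹ ∈ U := hUnorm g⁻¹ ((S : Subgroup G).inv_mem hg) u huU
    have hcv := habC c hc _ (hUC hv)
    have e1 : g * c * g⁻¹ * u = g * (c * (g⁻¹ * u * g⁻¹⁻¹)) * g⁻¹ := by group
    have e2 : u * (g * c * g⁻¹) = g * ((g⁻¹ * u * g⁻¹⁻¹) * c) * g⁻¹ := by group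
    rw [e1, e2, hcv]

/-- **Itô**: if a finite group has exactly the class sizes `1` and `n > 1`, then `n` is a
prime power. -/
theorem tc_prime_power (hn : 1 < n)
    (hcls : ∀ x : G, (Subgroup.centralizer ({x} : Set G)).index = 1 ∨
      (Subgroup.centralizer ({x} : Set G)).index = n)
    (hex : ∃ x : G, (Subgroup.centralizer ({x} : Set G)).index = n) :
    ∃ (p : ℕ) (a : ℕ), p.Prime ∧ n = p ^ a := by
  have hn0 : n ≠ 0 := by omega
  have hp : (n.minFac).Prime := Nat.minFac_prime (by omega)
  have hpn : n.minFac ∣ n := Nat.minFac_dvd n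
  refine ⟨n.minFac, n.primeFactorsList.length, hp, ?_⟩
  apply Nat.eq_prime_pow_of_unique_prime_dvd hn0
  intro q hq hqn
  by_contra hqp
  have hpq : n.minFac ≠ q := fun h => hqp h.symm
  obtain ⟨x, kx, hx, hxp⟩ := tc_exists_noncentral hex hp hpn
  have habC := tc_abelian_of_two_primes hcls hex hp hq hpq hpn hqn hp hx hxp
  have hnormal : ∀ {r₀ : ℕ} (_ : r₀.Prime) {x' : G} {k₀ : ℕ}, x' ∉ Subgroup.center G →
      x' ^ (r₀ ^ k₀) = 1 → ∀ g : G, ∀ c ∈ Subgroup.centralizer ({x'} : Set G),
        g * c * g⁻¹ ∈ Subgroup.centralizer ({x'} : Set G) := by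
    intro r₀ hr₀ x' k₀ hx' hxr'
    have hN : Subgroup.normalizer ((Subgroup.centralizer ({x'} : Set G) : Subgroup G) : Set G)
        = ⊤ := by
      rw [← Subgroup.index_eq_one]
      by_contra hne
      obtain ⟨s, hs, hsdvd⟩ := Nat.exists_prime_and_dvd hne
      haveI : Fact s.Prime := ⟨hs⟩
      have hsn : s ∣ n := by
        have h1 : (Subgroup.normalizer
            ((Subgroup.centralizer ({x'} : Set G) : Subgroup G) : Set G)).index ∣
            (Subgroup.centralizer ({x'} : Set G)).index :=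
          Subgroup.index_dvd_of_le Subgroup.le_normalizer
        rw [tc_index_eq hcls hx'] at h1
        exact hsdvd.trans h1
      obtain ⟨S, hS⟩ := tc_sylow_normalizes hcls hex hp hq hpq hpn hqn hr₀ hx' hxr' hsn
      have hSN : (S : Subgroup G) ≤ Subgroup.normalizer
          ((Subgroup.centralizer ({x'} : Set G) : Subgroup G) : Set G) := by
        intro g hg
        rw [Subgroup.mem_normalizer_iff]
        intro c
        constructor
        · exact hS g hg c
        · intro hc
          have := hS g⁻¹ ((S : Subgroup G).inv_mem hg) _ hc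
          have e : g⁻¹ * (g * c * g⁻¹) * g⁻¹⁻¹ = c := by group
          rwa [e] at this
      exact S.not_dvd_index (hsdvd.trans (Subgroup.index_dvd_of_le hSN))
    intro g c hc
    have hg : g ∈ Subgroup.normalizer
        ((Subgroup.centralizer ({x'} : Set G) : Subgroup G) : Set G) := by
      rw [hN]; exact Subgroup.mem_top g
    rw [Subgroup.mem_normalizer_iff] at hg
    exact (hg c).mp hc
  haveI : Fact q.Prime := ⟨hq⟩
  obtain ⟨Q⟩ := (inferInstance : Nonempty (Sylow q G))
  have hQC : ¬ (Q : Subgroup G) ≤ Subgroup.centralizer ({x} : Set G) := by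
    intro hle
    have h1 := Subgroup.index_dvd_of_le hle
    rw [tc_index_eq hcls hx] at h1
    exact Q.not_dvd_index (hqn.trans h1)
  obtain ⟨y, hyQ, hyC⟩ := SetLike.not_le_iff_exists.mp hQC
  have hy : y ∉ Subgroup.center G := fun h => hyC (Subgroup.center_le_centralizer _ h)
  obtain ⟨ky, hky⟩ := Q.2 ⟨y, hyQ⟩
  have hyq : y ^ (q ^ ky) = 1 := by simpa using congrArg Subtype.val hky
  have habC' := tc_abelian_of_two_primes hcls hex hp hq hpq hpn hqn hq hy hyq
  have hxC : x ∈ Subgroup.centralizer ({x} : Set G) := by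
    rw [Subgroup.mem_centralizer_singleton_iff]
  have hyC' : y ∈ Subgroup.centralizer ({y} : Set G) := by
    rw [Subgroup.mem_centralizer_singleton_iff]
  obtain ⟨ζ, hζ⟩ : ∃ ζ : G, ζ = x * y * x⁻¹ * y⁻¹ := ⟨_, rfl⟩
  have hζC : ζ ∈ Subgroup.centralizer ({x} : Set G) := by
    have h1 : y * x⁻¹ * y⁻¹ ∈ Subgroup.centralizer ({x} : Set G) :=
      hnormal hp hx hxp y x⁻¹ (Subgroup.inv_mem _ hxC)
    have e : ζ = x * (y * x⁻¹ * y⁻¹) := by rw [hζ]; group
    rw [e]; exact Subgroup.mul_mem _ hxC h1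
  have hζC' : ζ ∈ Subgroup.centralizer ({y} : Set G) := by
    have h1 : x * y * x⁻¹ ∈ Subgroup.centralizer ({y} : Set G) := hnormal hq hy hyq x y hyC'
    rw [hζ]; exact Subgroup.mul_mem _ h1 (Subgroup.inv_mem _ hyC')
  have hζz : ζ ∈ Subgroup.center G := by
    by_contra hζn
    have e1 := tc_cent_eq_of_mem_abelian hcls hx habC hζC hζn
    have e2 := tc_cent_eq_of_mem_abelian hcls hy habC' hζC' hζn
    apply hyC
    rw [← e1, e2]
    exact hyC'
  have hζ1 : ζ = 1 := by
    have hc := Subgroup.mem_center_iff.mp hζz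
    have e1 : ζ * y = x * y * x⁻¹ := by rw [hζ]; group
    have h1 : ζ ^ (q ^ ky) = 1 := by
      have hcm : Commute ζ y := (hc y).symm
      have := hcm.mul_pow (q ^ ky)
      rw [e1, conj_pow, hyq] at this
      simpa using this.symm
    have e2 : ζ⁻¹ * x = y * x * y⁻¹ := by rw [hζ]; group
    have h2 : ζ ^ (n.minFac ^ kx) = 1 := by
      have hcm : Commute ζ⁻¹ x :=
        ((Subgroup.mem_center_iff.mp ((Subgroup.center G).inv_mem hζz)) x).symm
      have := hcm.mul_pow (n.minFac ^ kx)
      rw [e2, conj_pow, hxp] at this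
      have h3 : (ζ⁻¹) ^ (n.minFac ^ kx) = 1 := by simpa using this.symm
      rwa [inv_pow, inv_eq_one] at h3
    have hd1 : orderOf ζ ∣ q ^ ky := orderOf_dvd_of_pow_eq_one h1
    have hd2 : orderOf ζ ∣ n.minFac ^ kx := orderOf_dvd_of_pow_eq_one h2
    have hcop : (n.minFac ^ kx).Coprime (q ^ ky) :=
      Nat.Coprime.pow _ _ ((Nat.coprime_primes hp hq).mpr hpq)
    exact orderOf_eq_one_iff.mp (Nat.eq_one_of_dvd_coprimes hcop hd2 hd1)
  apply hyC
  rw [Subgroup.mem_centralizer_singleton_iff]
  have e : x * y = ζ * (y * x) := by rw [hζ]; group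
  rw [e, hζ1, one_mul]

end twoclass

end Cfsg.Agent.Helper4
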