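import Mathlib
import Cfsg.Agent.Helper4.WielandtZip

/-! The zipper lemma and Wielandt's subnormality criterion. -/

namespace Cfsg.Agent.Helper4

universe u

open scoped Pointwise

/-- In a finite group, an element conjugating `S` into itself normalizes `S`. -/
theorem mem_normalizer_of_conj_mem_finite {G : Type*} [Group G] [Finite G] (S : Subgroup G)
    (x : G) (h : ∀ s ∈ S, x * s * x⁻¹ ∈ S) : x ∈ Subgroup.normalizer (S : Set G) := by
  let φ : S → S := fun s => ⟨x * (s : G) * x⁻¹, h s s.2⟩
  have hinj : Function.Injective φ := by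
    intro a b hab
    have h1 : x * (a : G) * x⁻¹ = x * (b : G) * x⁻¹ := congrArg Subtype.val hab
    apply Subtype.ext
    have h2 : (a : G) = x⁻¹ * (x * (a : G) * x⁻¹) * x := by group
    rw [h2, h1]; group
  have hsurj : Function.Surjective φ := Finite.injective_iff_surjective.mp hinj
  rw [Subgroup.mem_normalizer_iff]
  intro y
  refine ⟨fun hy => h y hy, fun hy => ?_⟩
  obtain ⟨s, hs⟩ := hsurj ⟨x * y * x⁻¹, hy⟩
  have h1 : x * (s : G) * x⁻¹ = x * y * x⁻¹ := congrArg Subtype.val hs
  have h2 : y = x⁻¹ * (x * y * x⁻¹) * x := by group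
  rw [h2, ← h1]
  have h3 : x⁻¹ * (x * (s : G) * x⁻¹) * x = s := by group
  rw [h3]; exact s.2

/-- Conjugation transports relative subnormality. -/
theorem isSubnormal_subgroupOf_smul {G : Type*} [Group G] (g : G) (S H : Subgroup G)
    (h : (S.subgroupOf H).IsSubnormal) :
    ((MulAut.conj g • S).subgroupOf (MulAut.conj g • H)).IsSubnormal := by
  have h1 := h.map (f := (Subgroup.equivSMul (MulAut.conj g) H).toMonoidHom)
    (Subgroup.equivSMul (MulAut.conj g) H).surjective
  have h2 : (S.subgroupOf H).map (Subgroup.equivSMul (MulAut.conj g) H).toMonoidHom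
      = (MulAut.conj g • S).subgroupOf (MulAut.conj g • H) := by
    ext z
    constructor
    · rintro ⟨y, hy, rfl⟩
      have hy' : (y : G) ∈ S := hy
      rw [Subgroup.mem_subgroupOf]
      exact Subgroup.smul_mem_pointwise_smul _ _ _ hy'
    · intro hz
      rw [Subgroup.mem_subgroupOf, Subgroup.mem_smul_pointwise_iff_exists] at hz
      obtain ⟨s, hs, hsz⟩ := hz
      have hz2 := z.2
      rw [Subgroup.mem_smul_pointwise_iff_exists] at hz2
      obtain ⟨t, ht, htz⟩ := hz2
      have hst : s = t := by
        have := hsz.trans htz.symm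
        exact MulAction.injective (MulAut.conj g) this
      refine ⟨⟨s, hst ▸ ht⟩, Subgroup.mem_subgroupOf.mpr hs, ?_⟩
      apply Subtype.ext
      exact hsz
  rw [h2] at h1
  exact h1

/-- Relative subnormality can be computed inside an intermediate subgroup. -/
theorem isSubnormal_subgroupOf_subgroupOf {G : Type*} [Group G] {X Y H : Subgroup G}
    (hYH : Y ≤ H) (h : (X.subgroupOf Y).IsSubnormal) :
    ((X.subgroupOf H).subgroupOf (Y.subgroupOf H)).IsSubnormal := by
  have h1 := h.comap (Subgroup.subgroupOfEquivOfLe hYH).toMonoidHom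
  have h2 : (X.subgroupOf Y).comap (Subgroup.subgroupOfEquivOfLe hYH).toMonoidHom
      = (X.subgroupOf H).subgroupOf (Y.subgroupOf H) := by
    ext z
    simp [Subgroup.mem_subgroupOf]
  rw [h2] at h1
  exact h1

/-- Restriction of relative subnormality to a smaller overgroup. -/
theorem isSubnormal_subgroupOf_of_le {G : Type*} [Group G] {S T₁ T : Subgroup G}
    (hT : T₁ ≤ T) (h : (S.subgroupOf T).IsSubnormal) : (S.subgroupOf T₁).IsSubnormal := by
  have h1 : S.subgroupOf T₁ = (S.subgroupOf T).comap (Subgroup.inclusion hT) := by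
    ext x
    simp [Subgroup.mem_subgroupOf]
  rw [h1]
  exact h.comap _

/-- **Zipper lemma** (Wielandt; Isaacs 2.9): if `S` is subnormal in every proper subgroup
containing it but not in `G`, then `S` lies in a unique maximal subgroup. -/
theorem zipper_unique_coatom {G : Type u} [Group G] [Finite G] (S : Subgroup G) :
    (∀ H : Subgroup G, S ≤ H → H ≠ ⊤ → (S.subgroupOf H).IsSubnormal) → ¬ S.IsSubnormal →
    ∀ M K : Subgroup G, IsCoatom M → IsCoatom K → S ≤ M → S ≤ K → M = K := by
  refine WellFoundedGT.induction (motive := fun S : Subgroup G =>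
    (∀ H : Subgroup G, S ≤ H → H ≠ ⊤ → (S.subgroupOf H).IsSubnormal) → ¬ S.IsSubnormal →
    ∀ M K : Subgroup G, IsCoatom M → IsCoatom K → S ≤ M → S ≤ K → M = K) S ?_
  intro S ih hP hns
  have hN : Subgroup.normalizer (S : Set G) ≠ ⊤ := fun h =>
    hns (Subgroup.normalizer_eq_top_iff.mp h).isSubnormal
  obtain ⟨M₀, hM₀, hNM₀⟩ := (eq_top_or_exists_le_coatom _).resolve_left hN
  have key : ∀ K : Subgroup G, IsCoatom K → S ≤ K → K = M₀ := by
    intro K hK hSK
    have hSsn := hP K hSK hK.1
    by_cases hnorm : K ≤ Subgroup.normalizer (S : Set G)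
    · exact ((hK.le_iff.mp (hnorm.trans hNM₀)).resolve_left hM₀.1).symm
    · obtain ⟨T, ⟨hTK, hST, hSsnT, hnT⟩, hTmin⟩ := (wellFounded_lt (α := Subgroup G)).has_min
        {T : Subgroup G | T ≤ K ∧ S ≤ T ∧ (S.subgroupOf T).IsSubnormal ∧
          ¬ T ≤ Subgroup.normalizer (S : Set G)} ⟨K, le_rfl, hSK, hSsn, hnorm⟩
      rcases hSsnT.lt_normal with htop | ⟨T', hT'n, hST', hT'lt⟩
      · exact absurd ((Subgroup.subgroupOf_eq_top.mp htop).trans Subgroup.le_normalizer) hnT
      · have hST₁ : S ≤ T'.map T.subtype := by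
          have := Subgroup.map_mono (f := T.subtype) hST'
          rwa [Subgroup.map_subgroupOf_eq_of_le hST] at this
        have hT₁T : T'.map T.subtype ≤ T := Subgroup.map_subtype_le T'
        have hT₁lt : T'.map T.subtype < T := by
          refine lt_of_le_of_ne hT₁T (fun h => hT'lt.ne ?_)
          apply Subgroup.map_injective T.subtype_injective
          rw [h, ← MonoidHom.range_eq_map, Subgroup.range_subtype]
        have hSsnT₁ : (S.subgroupOf (T'.map T.subtype)).IsSubnormal :=
          isSubnormal_subgroupOf_of_le hT₁T hSsnT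
        have hT₁N : T'.map T.subtype ≤ Subgroup.normalizer (S : Set G) := by
          by_contra hcon
          exact hTmin _ ⟨hT₁T.trans hTK, hST₁, hSsnT₁, hcon⟩ hT₁lt
        obtain ⟨x, hxT, hxN⟩ := SetLike.not_le_iff_exists.mp hnT
        have hSx : MulAut.conj x • S ≤ T'.map T.subtype := by
          intro z hz
          rw [Subgroup.mem_smul_pointwise_iff_exists] at hz
          obtain ⟨s, hs, rfl⟩ := hz
          obtain ⟨k, hk, rfl⟩ := hST₁ hs
          refine ⟨(⟨x, hxT⟩ : T) * k * (⟨x, hxT⟩ : T)⁻¹, hT'n.conj_mem k hk _, ?_⟩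
          simp [MulAut.smul_def]
        have hUM₀ : S ⊔ MulAut.conj x • S ≤ M₀ :=
          sup_le (Subgroup.le_normalizer.trans hNM₀) ((hSx.trans hT₁N).trans hNM₀)
        have hUK : S ⊔ MulAut.conj x • S ≤ K := sup_le hSK ((hSx.trans hT₁T).trans hTK)
        have hSU : S < S ⊔ MulAut.conj x • S := by
          refine lt_of_le_of_ne le_sup_left (fun h => hxN ?_)
          have h' : MulAut.conj x • S ≤ S := le_sup_right.trans h.ge
          apply mem_normalizer_of_conj_mem_finite
          intro s hs
          apply h'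
          have h5 := Subgroup.smul_mem_pointwise_smul s (MulAut.conj x) S hs
          rwa [MulAut.smul_def, MulAut.conj_apply] at h5
        have hPU : ∀ H : Subgroup G, S ⊔ MulAut.conj x • S ≤ H → H ≠ ⊤ →
            ((S ⊔ MulAut.conj x • S).subgroupOf H).IsSubnormal := by
          intro H hUH hH
          have h1 : (S.subgroupOf H).IsSubnormal := hP H (le_sup_left.trans hUH) hH
          have h2 : ((MulAut.conj x • S).subgroupOf H).IsSubnormal := by
            have h3 : S ≤ MulAut.conj x⁻¹ • H := by
              intro s hs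
              rw [Subgroup.mem_pointwise_smul_iff_inv_smul_mem, ← map_inv, inv_inv]
              exact hUH (le_sup_right (a := S)
                (Subgroup.smul_mem_pointwise_smul s (MulAut.conj x) S hs))
            have h4 : MulAut.conj x⁻¹ • H ≠ ⊤ := by
              intro htop
              apply hH
              rw [eq_top_iff]
              intro y _
              have h5 : x⁻¹ * y * x ∈ MulAut.conj x⁻¹ • H := by rw [htop]; trivial
              rw [Subgroup.mem_pointwise_smul_iff_inv_smul_mem, ← map_inv, inv_inv,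
                MulAut.smul_def, MulAut.conj_apply] at h5
              have h6 : x * (x⁻¹ * y * x) * x⁻¹ = y := by group
              rwa [h6] at h5
            have h5 := hP _ h3 h4
            have h6 := isSubnormal_subgroupOf_smul x _ _ h5
            rwa [smul_smul, ← map_mul, mul_inv_cancel, map_one, one_smul] at h6
          rw [Subgroup.subgroupOf_sup (le_sup_left.trans hUH) (le_sup_right.trans hUH)]
          exact isSubnormal_sup _ _ h1 h2
        have hUns : ¬ (S ⊔ MulAut.conj x • S).IsSubnormal := by
          intro hU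
          exact hns ((hP _ le_sup_left (fun htop => hK.1 (top_le_iff.mp (htop ▸ hUK)))).trans
            le_sup_left hU)
        exact (ih _ hSU hPU hUns M₀ K hM₀ hK hUM₀ hUK).symm
  intro M K hM hK hSM hSK
  rw [key M hM hSM, key K hK hSK]

theorem smul_subgroupOf_eq {G : Type*} [Group G] (A H : Subgroup G) (h : H) :
    MulAut.conj h • A.subgroupOf H = (MulAut.conj (h : G) • A).subgroupOf H := by
  ext z
  rw [Subgroup.mem_pointwise_smul_iff_inv_smul_mem, Subgroup.mem_subgroupOf,
    Subgroup.mem_subgroupOf, Subgroup.mem_pointwise_smul_iff_inv_smul_mem]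
  simp [MulAut.smul_def, ← map_inv]

/-- **Wielandt's subnormality criterion**. -/
theorem wielandt_criterion_aux : ∀ (n : ℕ) {G : Type u} [Group G] [Finite G],
    Nat.card G = n → ∀ (A : Subgroup G),
    (∀ g : G, (A.subgroupOf (A ⊔ MulAut.conj g • A)).IsSubnormal) → A.IsSubnormal := by
  intro n
  induction n using Nat.strong_induction_on with
  | _ n ih =>
    intro G _ _ hn A h
    by_contra hns
    have hP : ∀ H : Subgroup G, A ≤ H → H ≠ ⊤ → (A.subgroupOf H).IsSubnormal := by
      intro H hAH hH
      have hcard : Nat.card H < n := by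
        rw [← hn, ← Subgroup.card_top (G := G)]
        exact card_lt_of_lt (lt_top_iff_ne_top.mpr hH)
      apply ih (Nat.card H) hcard rfl
      intro g
      rw [smul_subgroupOf_eq]
      have hgA : MulAut.conj (g : G) • A ≤ H := smul_le_of_le_of_mem H A hAH g g.2
      rw [← Subgroup.subgroupOf_sup hAH hgA]
      exact isSubnormal_subgroupOf_subgroupOf (sup_le hAH hgA) (h g)
    have hAtop : A ≠ ⊤ := fun h0 => hns (h0 ▸ Subgroup.IsSubnormal.top)
    obtain ⟨M, hM, hAM⟩ := (eq_top_or_exists_le_coatom A).resolve_left hAtop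
    have hzip := zipper_unique_coatom A hP hns
    have hconj : ∀ g : G, MulAut.conj g • A ≤ M := by
      intro g
      rcases eq_top_or_exists_le_coatom (A ⊔ MulAut.conj g • A) with htop | ⟨K, hK, hTK⟩
      · exfalso
        apply hns
        have h1 := h g
        exact h1.trans le_sup_left (htop ▸ Subgroup.IsSubnormal.top)
      · have hKM := hzip K M hK hM (le_sup_left.trans hTK) hAM
        rw [← hKM]
        exact le_sup_right.trans hTK
    have hAcore : A ≤ Subgroup.normalCore M := by
      intro a ha
      show ∀ b : G, b * a * b⁻¹ ∈ M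
      intro b
      apply hconj b
      have h5 := Subgroup.smul_mem_pointwise_smul a (MulAut.conj b) A ha
      rwa [MulAut.smul_def, MulAut.conj_apply] at h5
    have hcore_ne : Subgroup.normalCore M ≠ ⊤ := fun h0 =>
      hM.1 (top_le_iff.mp (h0 ▸ Subgroup.normalCore_le M))
    exact hns ((hP _ hAcore hcore_ne).trans hAcore (Subgroup.normalCore_normal M).isSubnormal)

theorem wielandt_criterion {G : Type u} [Group G] [Finite G] (A : Subgroup G)
    (h : ∀ g : G, (A.subgroupOf (A ⊔ MulAut.conj g • A)).IsSubnormal) : A.IsSubnormal :=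
  wielandt_criterion_aux (Nat.card G) rfl A h

end Cfsg.Agent.Helper4
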